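import Cfsg.Agent.W8.Red
import Cfsg.Agent.Solv.Schur

/-!
The double cover of `Ω₈⁺(2)`: uniqueness and automorphisms.
-/

set_option autoImplicit false
set_option maxRecDepth 100000

namespace Cfsg.Lib.W8

open QuadraticMap Cfsg.Lib.Class Cfsg.Lib.Class.Orth Cfsg.Lib.Known Cfsg.Lib.Solv GamO

theorem exists_equiv {Γ A B : Type*} [Group Γ] [Group A] [Group B] (f : Γ →* A) (g : Γ →* B)
    (hf : Function.Surjective f) (hg : Function.Surjective g) (h : ∀ x, f x = 1 ↔ g x = 1) :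
    ∃ e : A ≃* B, ∀ x, e (f x) = g x :=
  ⟨(QuotientGroup.quotientKerEquivOfSurjective f hf).symm.trans
    ((QuotientGroup.quotientMulEquivOfEq (Subgroup.ext h)).trans
      (QuotientGroup.quotientKerEquivOfSurjective g hg)), fun x => by
    rw [MulEquiv.trans_apply, show (QuotientGroup.quotientKerEquivOfSurjective f hf).symm (f x) =
      QuotientGroup.mk x from (MulEquiv.symm_apply_eq _).2 rfl]
    rfl⟩

theorem exists_cov {Q L : Type*} [Group Q] [Group L] (h : Nat.card (hopfM (freePres Q)) = 4)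
    (hL : commutator L = ⊤) (σ : L →* Q) (h2 : Function.Surjective σ)
    (h1 : σ.ker ≤ Subgroup.center L) (hc : Nat.card σ.ker = 2) :
    ∃ ψ : commutator (HopfE (freePres Q)) →* L, Function.Surjective ψ ∧
      (∀ x, σ (ψ x) = hopfπ _ x.1) ∧ ∃ b : hopfM (freePres Q), b ≠ 1 ∧
        ∀ x, ψ x = 1 ↔ x.1 = 1 ∨ x.1 = b.1 := by
  obtain ⟨φ, hφ⟩ := exists_hopf_lift' (freePres Q) σ h2 h1
  have h3 : ∀ x, σ (φ x) = hopfπ _ x := DFunLike.congr_fun hφ
  obtain ⟨ρ, h4, h5⟩ := exists_surjective_of_map_eq φ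
    ((map_hopfM_eq (freePres_surjective Q) σ h1 φ hφ).trans (by rw [hL, inf_top_eq]))
  have h6 := Subgroup.card_mul_index ρ.ker
  rw [Subgroup.index_ker, MonoidHom.range_eq_top.2 h4, Subgroup.card_top, hc, h] at h6
  obtain ⟨b, b1, b2⟩ := (Nat.card_eq_two_iff' (1 : ρ.ker)).1 (by omega)
  refine ⟨φ.comp (Subgroup.subtype _), fun g => ?_, fun x => h3 x, b, fun e => b1 (Subtype.ext e),
    fun x => ⟨fun hx => ?_, ?_⟩⟩
  · obtain ⟨x, hx, rfl⟩ := (map_commutator_eq_of_central σ h1 φ fun x =>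
      (hopfπ_surjective (freePres_surjective Q) (σ x)).imp fun y hy => (h3 y).trans hy).ge
      (hL ▸ Subgroup.mem_top g)
    exact ⟨⟨x, hx⟩, rfl⟩
  · have h7 : (x : HopfE _) ∈ hopfM (freePres Q) :=
      ⟨(h3 _).symm.trans ((congrArg σ hx).trans (map_one σ)), x.2⟩
    rw [or_iff_not_imp_left]
    exact fun h8 => congrArg (fun y : ρ.ker => y.1.1) (b2 ⟨⟨x, h7⟩, Subtype.ext ((h5 _).trans hx)⟩
      fun e => h8 (congrArg (fun y : ρ.ker => y.1.1) e))
  · rintro (e | e) <;> rw [MonoidHom.comp_apply, Subgroup.subtype_apply, e]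
    · exact map_one φ
    · exact (h5 _).symm.trans (congrArg Subtype.val b.2)

theorem perfect_of {A B : Type*} [Group A] [Group B] (f : A →* B) (hf : Function.Surjective f)
    (hB : commutator B = ⊤) (hk : f.ker ≤ commutator A) : commutator A = ⊤ := by
  have h2 : (commutator A).map f = ⊤ := by
    rwa [map_commutator_eq, MonoidHom.range_eq_top.2 hf]
  rw [← Subgroup.comap_top f, ← h2, Subgroup.comap_map_eq_self hk]

theorem equiv_of_three {Q A L : Type*} [Group Q] [Group A] [Group L]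
    (h4 : Nat.card (hopfM (freePres Q)) = 4) (hA : commutator A = ⊤) {f : A →* Q}
    (hf : Function.Surjective f) (f1 : f.ker ≤ Subgroup.center A) (f2 : Nat.card f.ker = 2)
    {R : Subgroup (MulAut Q)} (hR : ∀ (β : MulAut A) (α : MulAut Q), (∀ x, α (f x) = f (β x)) → α ∈ R)
    {τ : MulAut Q} (t1 : τ ∉ R) (t2 : τ * τ ∉ R) (hL : commutator L = ⊤)
    (hc : Nat.card (Subgroup.center L) = 2) (e : L ⧸ Subgroup.center L ≃* Q) : Nonempty (L ≃* A) := by
  have key : ∀ α : MulAut Q, ∃ ψ : commutator (HopfE (freePres Q)) →* A,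
      Function.Surjective ψ ∧ (∀ x, α (f (ψ x)) = hopfπ _ x.1) ∧
      ∃ b : hopfM (freePres Q), b ≠ 1 ∧ ∀ x, ψ x = 1 ↔ x.1 = 1 ∨ x.1 = b.1 := fun α => by
    have : (α.toMonoidHom.comp f).ker = f.ker := by
      rw [← MonoidHom.comap_ker, (MonoidHom.ker_eq_bot_iff _).2 α.injective, MonoidHom.comap_bot]
    exact exists_cov h4 hA (α.toMonoidHom.comp f) (α.surjective.comp hf) (this ▸ f1) (this ▸ f2)
  choose ψ s1 s2 b s3 s4 using key
  have s5 : ∀ α γ, b α = b γ → γ⁻¹ * α ∈ R := fun α γ h => by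
    obtain ⟨β, hβ⟩ := exists_equiv (ψ α) (ψ γ) (s1 α) (s1 γ) fun x => by rw [s4, s4, h]
    refine hR β _ ((s1 α).forall.2 fun x => ?_)
    rw [hβ, MulAut.mul_apply, s2, ← s2 γ, MulAut.inv_apply_self]
  have h1 : (e.toMonoidHom.comp (QuotientGroup.mk' _)).ker = Subgroup.center L := by
    rw [← MonoidHom.comap_ker, (MonoidHom.ker_eq_bot_iff _).2 e.injective, MonoidHom.comap_bot,
      QuotientGroup.ker_mk']
  obtain ⟨χ, c1, -, a, c2, c3⟩ := exists_cov h4 hL (e.toMonoidHom.comp (QuotientGroup.mk' _))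
    (e.surjective.comp (QuotientGroup.mk'_surjective _)) h1.le (h1.symm ▸ hc)
  obtain ⟨α, rfl⟩ : ∃ α, b α = a := by
    by_contra! h
    have d1 : b τ ≠ b 1 := fun h => t1 (by simpa using s5 _ _ h)
    have d2 : b (τ * τ) ≠ b 1 := fun h => t2 (by simpa using s5 _ _ h)
    have d3 : b (τ * τ) ≠ b τ := fun h => t1 (by simpa using s5 _ _ h)
    have : Finite (hopfM (freePres Q)) := Nat.finite_of_card_ne_zero (by omega)
    have := Nat.card_le_card_of_injective ![1, b 1, b τ, b (τ * τ), a] fun i j => by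
      fin_cases i <;> fin_cases j <;>
        simp [s3, (s3 _).symm, c2, c2.symm, d1, d1.symm, d2, d2.symm, d3, d3.symm, h, (h _).symm]
    rw [h4, Nat.card_eq_fintype_card, Fintype.card_fin] at this
    omega
  obtain ⟨β, -⟩ := exists_equiv χ (ψ α) c1 (s1 α) fun x => by rw [c3, s4]
  exact ⟨β⟩

/-- The projection onto `Ω`. -/
noncomputable def pr0 : W0 →* Om QQ := red.subgroupComap (Om QQ)

theorem pr0_surj : Function.Surjective pr0 := red.subgroupComap_surjective_of_surjective _ red_surj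

/-- The projection onto the simple group. -/
noncomputable def pr : W0 →* POm QQ := (QuotientGroup.mk' _).comp pr0

theorem pr_surj : Function.Surjective pr := (QuotientGroup.mk'_surjective _).comp pr0_surj

theorem pr_eq_one {x : W0} : pr x = 1 ↔ x.1 = 1 ∨ x.1 = sc 1 := by
  rw [← red_eq_one]
  refine (QuotientGroup.eq_one_iff _).trans ?_
  rw [center_commutator_eq_bot bigQ.nd bigQ.nexc bigQ.three (Or.inl rfl), Subgroup.mem_bot]
  exact Subtype.ext_iff

theorem ker_pr : pr.ker = Subgroup.center W0 := Subgroup.ext fun x => by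
  rw [MonoidHom.mem_ker, pr_eq_one, Subgroup.mem_center_iff]
  refine ⟨fun h y => Subtype.ext ?_, fun h => frame.cW fun y hy =>
    mul_inv_eq_iff_eq_mul.2 (congrArg Subtype.val (h ⟨y, hy⟩)).symm⟩
  change y.1 * x.1 = x.1 * y.1
  rcases h with h | h <;> rw [h]
  exacts [by simp, sc_cen _]

theorem card_ker_pr : Nat.card pr.ker = 2 :=
  (Nat.card_eq_two_iff' 1).2 ⟨⟨⟨sc 1, frame.one_mem⟩, pr_eq_one.2 (Or.inr rfl)⟩,
    fun h => sc_one_ne (congrArg (fun y : pr.ker => y.1.1) h), fun y hy => Subtype.ext (Subtype.ext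
      ((pr_eq_one.1 y.2).resolve_left fun h => hy (Subtype.ext (Subtype.ext h))))⟩

open scoped commutatorElement in
theorem perfect_W0 : commutator W0 = ⊤ := by
  refine perfect_of pr0 pr0_surj (commutator_commutator_eq_top bigQ.nd bigQ.five) fun x hx => ?_
  rcases red_eq_one.1 (congrArg Subtype.val hx) with h | h
  · rw [show x = 1 from Subtype.ext h]; exact one_mem _
  have a1 : ofM 85 ∈ Ev := mem_Ev.2 (by decide)
  rw [show x = ⁅(⟨_, (sc_mem _).2 a1⟩ : W0), (⟨_, pm_mem _ (tr_mem 1)⟩ : W0)⁆ from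
    Subtype.ext (h.trans ?_)]
  · exact Subgroup.commutator_mem_commutator trivial trivial
  change _ = sc _ * pm _ * (sc _)⁻¹ * (pm _)⁻¹
  rw [frame.σ_inv, mul_assoc, mul_assoc, ← mul_assoc (pm _), frame.P_conj (tr_mem 1), ← sc_add]
  exact congrArg sc (by decide)

theorem rho_pr (w : WE) (x : W0) :
    rho QQ (ofO QQ (red w)) (pr x) = pr ⟨w * x * w⁻¹, frame.conj_mem w x.2⟩ :=
  (rho_mk _ _).trans (congrArg QuotientGroup.mk (Subtype.ext (by
    change conjO QQ (ofO QQ (red w)) (red x) = red (w * x * w⁻¹)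
    rw [conjO_ofO, map_mul, map_mul, map_inv, MulAut.conj_apply])))

/-- The polar form. -/
def pol (x y : VV) : ZMod 2 := ∑ i, (x (.inl i) * y (.inr i) + y (.inl i) * x (.inr i))

theorem pr_eq_eP {m : Vec} {π : Equiv.Perm Pt} (hπ : π ∈ AGL) (hx : sc m * pm π ∈ W0) {p w : VV}
    (h : IsLR QQ p w) (e1 : ∀ k, ph (fun i => sgn m i * bv (ix k) (π⁻¹ i)) ∘ ix =
      Pi.single k 1 + pol (Pi.single k 1) w • p - pol (Pi.single k 1) p • w) :
    pr ⟨_, hx⟩ = eP bigQ p w :=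
  congrArg QuotientGroup.mk (Subtype.ext (Subtype.ext (LinearEquiv.toLinearMap_injective
    ((Pi.basisFun (ZMod 2) _).ext fun k => by
      change (red (sc m * pm π)).1 _ = (eich QQ p w).1 _
      rw [Pi.basisFun_apply, h.eich_apply, polar_qPlus, polar_qPlus, ← pol, ← pol, ← e1, ← φ_b,
        red_apply, φ_apply]
      congr 2
      exact funext fun i => by rw [WE_mul, sc_apply, pm_apply hπ]; rfl))))

theorem isLR {j k : Fin 4 ⊕ Fin 4} (h : k ≠ j ∧ k ≠ j.swap) :
    IsLR QQ (Pi.single j 1) (Pi.single k 1) := by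
  refine ⟨?_, ?_, ?_, LinearIndependent.pair_iff.2 ?_⟩
  · rw [qPlus_apply]; clear h; revert j; decide
  · rw [qPlus_apply]; clear h; revert k; decide
  · rw [polar_qPlus]; revert j k; decide
  · revert j k; decide

theorem exists_conj {α : MulAut (POm QQ)} (hα : α ∉ (rho QQ).range) {p w w' a a' b b' : VV}
    (k1 : IsLR QQ p w) (k2 : IsLR QQ p w') (h2 : polar QQ w w' ≠ 0) (c1 : IsLR QQ a a')
    (c2 : IsLR QQ b b') (c5 : LinearIndependent (ZMod 2) ![a, a', b, b']) (c6 : polar QQ a b = 0)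
    (c7 : polar QQ a b' = 0) (c8 : polar QQ a' b = 0) (c9 : polar QQ a' b' = 0) :
    ∃ g, rho QQ (ofO QQ g) (α (eP bigQ p w)) = eP bigQ a a' ∧
      rho QQ (ofO QQ g) (α (eP bigQ p w')) = eP bigQ b b' := by
  have h3 := mt (mem_range_rho_of_pair (β := α) (k1.mem bigQ) (k2.mem bigQ) (meetP_eP k1 k2)
    (by rwa [perpP_eP_iff' k1 k2])) hα
  have a1 := aut_mem_LRt bigQ α (k1.mem bigQ)
  have a2 := aut_mem_LRt bigQ α (k2.mem bigQ)
  have h4 := ((comm_iff a1 a2).1 (by
    rw [← map_mul, ← map_mul, (comm_iff (k1.mem bigQ) (k2.mem bigQ)).2 (Or.inl (meetP_eP k1 k2))]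
    )).resolve_left h3
  obtain ⟨c, c', a1, e2⟩ := a1
  obtain ⟨d, d', a2, e3⟩ := a2
  rw [e2, e3] at h3 h4 ⊢
  obtain ⟨a6, a7, a8, a9⟩ := (perpP_eP_iff a1 a2).1 h4
  obtain ⟨g, hg⟩ := witt_family bigQ.nd (linearIndependent_of_not_meetP a1 a2 h3) c5
    (fun i => by fin_cases i <;> simp [a1.l, a1.r, a2.l, a2.r, c1.l, c1.r, c2.l, c2.r])
    (fun i j hij => by
      fin_cases i <;> fin_cases j <;>
        simp [a1.lr, a1.rl, a2.lr, a2.rl, c1.lr, c1.rl, c2.lr, c2.rl, a6, a7, a8, a9, c6, c7, c8, c9,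
          polar_comm QQ b a, polar_comm QQ b' a, polar_comm QQ b a', polar_comm QQ b' a',
          polar_comm QQ d c, polar_comm QQ d' c, polar_comm QQ d c', polar_comm QQ d' c'] at hij ⊢)
  have e1 : ∀ {u u' v v'}, g.1 u = v → g.1 u' = v' →
      rho QQ (ofO QQ g) (eP bigQ u u') = eP bigQ v v' := by
    rintro u u' _ _ rfl rfl
    rw [rho_eP]; simp
  exact ⟨g, e1 (hg 0) (hg 1), e1 (hg 2) (hg 3)⟩

theorem exists_lifts : ∃ x y z : W0, x * z = z * x ∧ x * y ≠ y * x ∧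
    pr x = eP bigQ (Pi.single (.inl 0) 1) (Pi.single (.inl 1) 1) ∧
    pr y = eP bigQ (Pi.single (.inl 2) 1) (Pi.single (.inl 3) 1) ∧
    pr z = eP bigQ (Pi.single (.inl 0) 1) (Pi.single (.inr 1) 1) := by
  obtain ⟨π, hπ, e1⟩ := (show OkC 14599368 by decide +kernel).exists
  have p2 : π * π = 1 := Equiv.ext fun x => by
    rw [Equiv.Perm.mul_apply, e1]; revert x; decide
  have p3 := inv_eq_of_mul_eq_one_right p2
  have m1 : ofM 15 ∈ Ev := mem_Ev.2 (by decide)
  have t4 := tr_mem 4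
  have t1 := AGL.one_mem
  refine ⟨⟨_, (frame.mul_mem_iff t1).2 m1⟩, ⟨_, (frame.mul_mem_iff t4).2 Ev.zero_mem⟩,
    ⟨_, (frame.mul_mem_iff hπ).2 m1⟩, Subtype.ext ?_, fun h => ?_,
    pr_eq_eP t1 _ (isLR (by decide)) (by decide +kernel),
    pr_eq_eP t4 _ (isLR (by decide)) (by decide +kernel),
    pr_eq_eP hπ _ (isLR (by decide)) (by rw [p3, e1]; decide +kernel)⟩
  · refine (frame.mul_eq t1 hπ _ _).trans (Eq.trans ?_ (frame.mul_eq hπ t1 _ _).symm)
    rw [p3, e1, mul_one, one_mul]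
    congr 2
    decide
  · exact absurd (frame.eq_iff (mul_mem t1 t4) (mul_mem t4 t1) ((frame.mul_eq t1 t4 _ _).symm.trans
      ((congrArg Subtype.val h).trans (frame.mul_eq t4 t1 _ _)))).1 (by decide)

theorem mem_range {β : MulAut W0} {α : MulAut (POm QQ)} (h : ∀ x, α (pr x) = pr (β x)) :
    α ∈ (rho QQ).range := by
  by_contra hα
  obtain ⟨x, y, z, h1, h2, x1, x2, x3⟩ := exists_lifts
  obtain ⟨g, f1, f2⟩ := exists_conj hα (isLR (j := .inl 0) (k := .inl 1) (by decide))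
    (isLR (k := .inr 1) (by decide)) (by rw [polar_qPlus]; decide)
    (isLR (j := .inl 0) (k := .inl 1) (by decide)) (isLR (j := .inl 2) (k := .inl 3) (by decide))
    (Fintype.linearIndependent_iff.2 fun g hg i => by
      have := congrFun hg (.inl i)
      fin_cases i <;> simpa [Fin.sum_univ_four] using this)
    (by rw [polar_qPlus]; decide) (by rw [polar_qPlus]; decide) (by rw [polar_qPlus]; decide)
    (by rw [polar_qPlus]; decide)
  obtain ⟨w, rfl⟩ := red_surj g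
  rw [← x1, h, rho_pr] at f1
  rw [← x2, ← x3, h, rho_pr] at f2
  refine h2 (commutatorElement_eq_one_iff_mul_comm.1 ((commutatorElement_eq_of_central pr
    ker_pr.le f1 f2).symm.trans (commutatorElement_eq_one_iff_mul_comm.2 (Subtype.ext ?_))))
  change w * _ * w⁻¹ * (w * _ * w⁻¹) = w * _ * w⁻¹ * (w * _ * w⁻¹)
  rw [conj_mul, conj_mul, ← Subgroup.coe_mul, ← Subgroup.coe_mul, ← map_mul, ← map_mul, h1]

theorem aut_eq (β : MulAut W0) : ∃ w : WE, ∀ x : W0, (β x).1 = w * x * w⁻¹ := by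
  obtain ⟨α, hα⟩ := exists_equiv pr (pr.comp β.toMonoidHom) pr_surj (pr_surj.comp β.surjective)
    fun x => by
      change x ∈ pr.ker ↔ β x ∈ pr.ker
      rw [ker_pr]
      exact (MulEquivClass.apply_mem_center_iff β).symm
  obtain ⟨T, hT⟩ := mem_range (β := β) hα
  obtain ⟨g, rfl⟩ := mem_range_ofO.2 ⟨RingEquiv.ext fun x => DFunLike.congr_fun
    (RingHom.ext_zmod (T.σ : ZMod 2 →+* ZMod 2) (RingHom.id _)) x, Subsingleton.elim T.c 1⟩
  obtain ⟨w, rfl⟩ := red_surj g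
  have : W0.Normal := Subgroup.normal_of_index_eq_two index_W0
  exact ⟨w, fun x => congrArg Subtype.val (eq_on_commutator_of_central pr ker_pr.le β.toMonoidHom
    (MulAut.conjNormal w).toMonoidHom (MonoidHom.ext fun y => by
      rw [← hα, ← hT, rho_pr]; rfl) (perfect_W0 ▸ Subgroup.mem_top x))⟩

theorem nonempty_equiv {L : Type*} [Group L] (hL : commutator L = ⊤)
    (hc : Nat.card (Subgroup.center L) = 2) (e : L ⧸ Subgroup.center L ≃* POm QQ) :
    Nonempty (L ≃* W0) := by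
  obtain ⟨f⟩ := (hasSchurMultiplier_iff_hopfM (freePres_surjective _)).1
    (hasSchurMultiplier_congr_left (mult_o8p (ZMod.card 2)) (pomegaEquiv QQ))
  have h4 : Nat.card (hopfM (freePres (POm QQ))) = 4 := by
    rw [Nat.card_congr f.toEquiv]; simp
  obtain ⟨τ, t1, t2⟩ : ∃ τ : MulAut (POm QQ), τ ∉ (rho QQ).range ∧ τ * τ ∉ (rho QQ).range := by
    obtain ⟨τ, hτ⟩ := (octC (ZMod 2)).exists_isTri bigQ
    have a1 := hτ.notMem_range bigQ
    have a2 := hτ.inv_eq bigQ
    have a3 : ∀ β, MulAut.congr (pomegaEquiv QQ).symm β ∉ (rhoM QQ).range → β ∉ (rho QQ).range := by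
      rintro _ h ⟨T, rfl⟩
      exact h ⟨T, rfl⟩
    obtain ⟨τ, rfl⟩ := (MulAut.congr (pomegaEquiv QQ).symm).surjective τ
    exact ⟨τ, a3 _ a1, a3 _ (by rwa [map_mul, ← a2, inv_mem_iff])⟩
  exact equiv_of_three h4 perfect_W0 pr_surj ker_pr.le card_ker_pr (fun _ _ => mem_range) t1 t2 hL
    hc e

end Cfsg.Lib.W8
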