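import Cfsg.Agent.W8.Comb

/-!
Quadratic offenders of the affine group on binary vectors.
-/

set_option autoImplicit false

namespace Cfsg.Lib.W8

theorem card_le_pcnt {F : Finset Vec} {O : ℕ} (h : ∀ m < 256, ofM m ∈ F → tb O m = true) :
    F.card ≤ pcnt O := by
  classical
  rw [Finset.card_eq_sum_ite (Finset.subset_univ F), sum_vec, pcnt, sumN_eq, sumN_eq]
  refine Finset.sum_le_sum fun m hm => ?_
  split_ifs with h1
  · rw [h m (Finset.mem_range.1 hm) h1]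
    rfl
  · exact Nat.zero_le _

theorem cod_inj {π ρ : Equiv.Perm Pt} (h : cod π = cod ρ) : π = ρ :=
  Equiv.ext (congrFun (by rw [← ap_cod π, h, ap_cod]))

theorem card_le_cntL {S : Finset (Equiv.Perm Pt)} {f : ℕ × ℕ → Bool}
    (h : ∀ π ∈ S, π ∈ AGL ∧ π * π = 1 ∧ ∀ p ∈ IL, p.1 = cod π → f p = true) :
    S.card ≤ cntL IL f := by
  classical
  rw [cntL_eq, ← List.length_map Prod.fst]
  refine le_trans (Finset.card_le_card_of_injOn (fun π : Equiv.Perm Pt => cod π) (fun π hπ => ?_)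
    fun _ _ _ _ => cod_inj) (List.toFinset_card_le _)
  obtain ⟨a, b, c⟩ := h π hπ
  obtain ⟨p, hp, e1⟩ := exists_IL a b
  exact List.mem_toFinset.2 (List.mem_map.2 ⟨p, List.mem_filter.2 ⟨hp, c p hp e1⟩, e1⟩)

theorem tb_fix {π : Equiv.Perm Pt} {p : ℕ × ℕ} (hp : p ∈ IL) (e1 : p.1 = cod π) {m : ℕ}
    (hm : m < 256) (h : ofM m ∘ π = ofM m) : tb p.2 m = true := by
  refine im_iff.1 (allN_iff.1 (allL_iff.1 fx_aux p hp) m hm) (all8.2 fun i => ?_)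
  rw [e1, ap_val, ap_cod, ofM_eq_iff.1 (congrFun h i)]
  simp

theorem tb_land (a b m : ℕ) : tb (Nat.land a b) m = true ↔ tb a m = true ∧ tb b m = true := by
  simp only [tb_eq, ← Bool.and_eq_true, ← Nat.testBit_and]
  rfl

theorem cp_iff {π ρ : Equiv.Perm Pt} :
    cp (cod π) (cod ρ) = true ↔ ∀ x, π x = x ∨ ρ x = x ∨ ρ x = π x := by
  simp only [cp, all8, Bool.or_eq_true, Nat.beq_eq, ap_val, ap_cod, Fin.val_inj, or_assoc]

theorem offender {S : Finset (Equiv.Perm Pt)} {F : Finset Vec} {n : ℕ}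
    (h1 : ∀ π ∈ S, π ∈ AGL ∧ π * π = 1) (h2 : ∀ π ∈ S, ∀ ρ ∈ S, π * ρ = ρ * π)
    (h3 : ∀ π ∈ S, ∀ ρ ∈ S, ∀ a ∈ Ev, (a + a ∘ π) ∘ ρ = a + a ∘ π) (h4 : ∃ π ∈ S, π ≠ 1)
    (h5 : ∀ m ∈ F, ∀ π ∈ S, m ∘ π = m) (h6 : n = 256 ∨ n = 128 ∧ ∀ m ∈ F, m ∈ Ev)
    (h7 : n ≤ S.card * F.card) :
    n = 128 ∧ ∃ a ≠ 0, (∀ π, π ∈ S ↔ π ∈ AGL ∧ π * π = 1 ∧ ∀ x, π x = x ∨ π x = tr a x) ∧
      ∀ m, m ∘ tr a = m → m ∈ F := by
  classical
  have hcp : ∀ π ∈ S, ∀ ρ ∈ S, cp (cod π) (cod ρ) = true := fun π hπ ρ hρ => by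
    obtain ⟨p, hp, e1⟩ := exists_IL (h1 π hπ).1 (h1 π hπ).2
    obtain ⟨q, hq, e2⟩ := exists_IL (h1 ρ hρ).1 (h1 ρ hρ).2
    have := allL_iff.1 (allL_iff.1 quad_aux p hp) q hq
    simp only [Bool.or_eq_true, any8, nq_iff, e1, e2, ap_val, ap_cod] at this
    refine this.resolve_right fun ⟨x, y, h⟩ => h (ofM_inj (cv_lt _ _ _) (cv_lt _ _ _) ?_)
    have i1 := inv_eq_of_mul_eq_one_right (h1 π hπ).2
    have i2 := inv_eq_of_mul_eq_one_right (h1 ρ hρ).2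
    have e3 : e (ρ x) + e (ρ y) = (e x + e y) ∘ ρ := by rw [Pi.add_comp, e_comp, e_comp, i2]
    rw [← i1, ofM_cv, ofM_cv, ← h3 π hπ ρ hρ _ (pair_mem x y), e3, Pi.add_comp _ (_ ∘ π),
      Function.comp_assoc, Function.comp_assoc, ← Equiv.Perm.coe_mul, ← Equiv.Perm.coe_mul,
      h2 π hπ ρ hρ]
  have hF : ∀ π ∈ S, ∀ p ∈ IL, p.1 = cod π → ∀ m < 256, ofM m ∈ F → tb p.2 m = true :=
    fun π hπ p hp e1 m hm h => tb_fix hp e1 hm (h5 _ h π hπ)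
  have hE : (∀ m ∈ F, m ∈ Ev) → ∀ m < 256, ofM m ∈ F → tb EVM m = true :=
    fun h m hm h' => (ev_iff m hm).2 (h _ h')
  obtain ⟨π, hπ, hne⟩ := h4
  obtain ⟨p, hp, e1⟩ := exists_IL (h1 π hπ).1 (h1 π hπ).2
  have c1 : cod (1 : Equiv.Perm Pt) = 16434824 := by decide
  obtain ⟨ρ, hρ, r1, r2⟩ : ∃ ρ ∈ S, ρ ≠ 1 ∧ ρ ≠ π := by
    by_contra! h
    have a1 : S.card ≤ 2 := (Finset.card_le_card (t := {1, π}) fun ρ hρ => by
      rw [Finset.mem_insert, Finset.mem_singleton, or_iff_not_imp_left]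
      exact h ρ hρ).trans Finset.card_le_two
    have a2 := allL_iff.1 off1_aux p hp
    simp only [im_iff, any8, nq_iff, e1, ap_val, ap_cod, Bool.and_eq_true, frc_eq, Nat.ble_eq] at a2
    obtain ⟨⟨a3, a4⟩, -⟩ := a2 (by
      by_contra! h
      exact hne (Equiv.ext fun x => Fin.ext (h x)))
    rcases h6 with rfl | ⟨rfl, h6⟩
    · have := Nat.mul_le_mul a1 ((card_le_pcnt (hF π hπ p hp e1)).trans a3)
      omega
    · have := Nat.mul_le_mul a1 ((card_le_pcnt fun m hm h =>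
        (tb_land _ _ _).2 ⟨hF π hπ p hp e1 m hm h, hE h6 m hm h⟩).trans a4)
      omega
  obtain ⟨q, hq, e2⟩ := exists_IL (h1 ρ hρ).1 (h1 ρ hρ).2
  have a1 := allL_iff.1 (im_iff.1 (allL_iff.1 off2_aux p hp)
    (nq_iff.2 fun h => hne (cod_inj (by rw [← e1, h, c1])))) q hq
  simp only [im_iff, Bool.and_eq_true, frc_eq, Nat.ble_eq, Bool.or_eq_true, any8, nq_iff,
    allL_iff] at a1
  obtain ⟨⟨a2, a3⟩, a4⟩ := a1 ⟨⟨⟨by rw [e1, e2]; exact hcp π hπ ρ hρ,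
    by rw [e1, e2]; exact hcp ρ hρ π hπ⟩, fun h => r1 (cod_inj (by rw [← e2, h, c1]))⟩,
    fun h => r2 (cod_inj (by rw [← e2, ← h, e1]))⟩
  have b1 : ∀ m < 256, ofM m ∈ F → tb (Nat.land p.2 q.2) m = true := fun m hm h =>
    (tb_land _ _ _).2 ⟨hF π hπ p hp e1 m hm h, hF ρ hρ q hq e2 m hm h⟩
  have b2 : 8 ≤ S.card := by
    by_contra! h
    rcases h6 with rfl | ⟨rfl, h6⟩
    · have := Nat.mul_le_mul (Nat.le_of_lt_succ h) ((card_le_pcnt b1).trans a2)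
      omega
    · have := Nat.mul_le_mul (Nat.le_of_lt_succ h) ((card_le_pcnt fun m hm h =>
        (tb_land _ _ _).2 ⟨b1 m hm h, hE h6 m hm h⟩).trans a3)
      omega
  have b3 : ∀ τ ∈ S, ∀ r ∈ IL, r.1 = cod τ → cp p.1 r.1 = true ∧ cp q.1 r.1 = true :=
    fun τ hτ r _ e3 => by rw [e1, e2, e3]; exact ⟨hcp π hπ τ hτ, hcp ρ hρ τ hτ⟩
  obtain ⟨a, a0, a5⟩ := a4.resolve_left fun h => absurd (b2.trans ((card_le_cntL fun τ hτ =>
    ⟨(h1 τ hτ).1, (h1 τ hτ).2, fun r hr e3 => by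
      rw [Bool.and_eq_true]; exact b3 τ hτ r hr e3⟩).trans h)) (by decide)
  have c2 : ∀ a : Pt, trc a.1 = cod (tr a) := by decide
  have a6 := im_iff.1 (all8.1 off3_aux a) (nq_iff.2 a0)
  rw [frc_eq, Nat.ble_eq] at a6
  rw [c2] at a5 a6
  replace a0 : a ≠ 0 := fun h => a0 (congrArg Fin.val h)
  have c3 := (show ∀ a : Pt, a ≠ 0 → ∀ x, tr a x ≠ x by decide) a a0
  have b4 : ∀ κ ∈ AGL, κ * κ = 1 → (∀ x, κ x = x ∨ κ x = tr a x) → (insert κ S).card ≤ 8 :=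
    fun κ k1 k2 k3 => (card_le_cntL fun τ hτ => by
      rcases Finset.mem_insert.1 hτ with rfl | hτ
      · exact ⟨k1, k2, fun r _ e3 => by rw [e3, cp_iff]; exact fun x => Or.inr (k3 x)⟩
      · exact ⟨(h1 τ hτ).1, (h1 τ hτ).2, fun r hr e3 => a5 r hr (b3 τ hτ r hr e3)⟩).trans a6
  have b7 : ∀ κ ∈ AGL, κ * κ = 1 → (∀ x, κ x = x ∨ κ x = tr a x) → κ ∈ S := fun κ k1 k2 k3 => by
    by_contra h
    have := b4 κ k1 k2 k3
    rw [Finset.card_insert_of_notMem h] at this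
    omega
  have b5 : tr a ∈ S := b7 _ (tr_mem a) (tr_mul_self a) fun _ => Or.inr rfl
  replace b4 := b4 _ (tr_mem a) (tr_mul_self a) fun _ => Or.inr rfl
  rw [Finset.insert_eq_of_mem b5] at b4
  obtain ⟨t, ht, e3⟩ := exists_IL (tr_mem a) (tr_mul_self a)
  have a7 := allL_iff.1 off1_aux t ht
  simp only [im_iff, any8, all8, nq_iff, e3, ap_val, ap_cod, Bool.and_eq_true, Nat.ble_eq] at a7
  replace a7 := (a7 ⟨0, Fin.val_ne_of_ne (c3 0)⟩).2 fun x => Fin.val_ne_of_ne (c3 x)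
  have b6 : ∀ m, m ∘ tr a = m → (insert m F).card ≤ 16 := fun m hm =>
    (card_le_pcnt fun k hk h => tb_fix ht e3 hk (by
      rcases Finset.mem_insert.1 h with h | h
      exacts [h ▸ hm, h5 _ h _ b5])).trans a7
  refine ⟨?_, a, a0, fun τ => ⟨fun hτ => ⟨(h1 τ hτ).1, (h1 τ hτ).2, fun x => ?_⟩,
    fun h => b7 τ h.1 h.2.1 h.2.2⟩, fun m hm => ?_⟩
  · have := h7.trans (Nat.mul_le_mul b4
      ((Finset.card_le_card (Finset.subset_insert _ _)).trans (b6 0 rfl)))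
    exact (h6.resolve_left fun h => by omega).1
  · obtain ⟨r, hr, e4⟩ := exists_IL (h1 τ hτ).1 (h1 τ hτ).2
    have := a5 r hr (b3 τ hτ r hr e4)
    rw [e4, cp_iff] at this
    exact (this x).resolve_left (c3 x)
  · by_contra h
    have := b6 m hm
    rw [Finset.card_insert_of_notMem h] at this
    have := h7.trans (Nat.mul_le_mul b4 (Nat.le_of_lt_succ this))
    rcases h6 with rfl | ⟨rfl, -⟩ <;> exact absurd this (by decide)

end Cfsg.Lib.W8
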