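import Cfsg.Agent.W8.StdC
import Cfsg.Agent.W8.Off
import Cfsg.Prelude.Def_TwoFusion

/-!
The central involution is isolated.
-/

set_option autoImplicit false

namespace Cfsg.Lib.W8

open Cfsg.Lib.Trans Subgroup

variable {W G : Type*} [Group W] [Group G] [Finite G] {W0 : Subgroup W} {σ : Vec → W}
  {P : Equiv.Perm Pt → W} {ι : W → G} {z : G} {D : AddSubgroup Vec} {ε : Vec → G}

namespace Frm

variable (F : Frm W0 σ P ι z D ε)
include F

omit [Finite G] in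
theorem card_A : Nat.card F.A = 256 ∨ Nat.card F.A = 128 ∧ D = Ev := by
  have h : Nat.card D = Nat.card F.A := Nat.card_eq_of_bijective (fun a => ⟨ε a, F.ε_mem a.2⟩)
    ⟨fun a b h => Subtype.ext (F.ε_inj a.2 b.2 (congrArg Subtype.val h)),
      fun ⟨_, a, ha, e⟩ => ⟨⟨a, ha⟩, Subtype.ext e⟩⟩
  rw [← h]
  rcases F.hD with rfl | rfl
  · left
    rw [AddSubgroup.card_top, Nat.card_eq_fintype_card]
    decide +kernel
  · refine Or.inr ⟨?_, rfl⟩
    change Nat.card {s : Vec // par s = 0} = 128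
    rw [Nat.card_eq_fintype_card]
    decide +kernel

omit [Finite G] in
theorem A_sq {x : G} (hx : x ∈ F.A) : x * x = 1 := by
  obtain ⟨a, ha, rfl⟩ := hx
  exact F.ε_mul_self ha

omit [Finite G] in
theorem A_comm {x y : G} (hx : x ∈ F.A) (hy : y ∈ F.A) : x * y = y * x := by
  obtain ⟨a, ha, rfl⟩ := hx
  obtain ⟨b, hb, rfl⟩ := hy
  exact F.ε_comm ha hb

theorem noB {y : G} (h1 : cj y F.A ≤ normalizer (F.A : Set G))
    (h2 : F.A ≤ normalizer (cj y F.A : Set G)) : y ∈ normalizer (F.A : Set G) := by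
  classical
  by_contra hy
  obtain ⟨B, hB⟩ : ∃ B, B = cj y F.A := ⟨_, rfl⟩
  have b1 : ∀ b ∈ B, b * b = 1 := fun b hb => by
    have := F.A_sq (mem_cj.1 (hB ▸ hb))
    calc _ = y * (y⁻¹ * b * y * (y⁻¹ * b * y)) * y⁻¹ := by group
      _ = 1 := by rw [this]; group
  have b2 : ∀ b ∈ B, ∀ c ∈ B, b * c = c * b := fun b hb c hc => by
    have := F.A_comm (mem_cj.1 (hB ▸ hb)) (mem_cj.1 (hB ▸ hc))
    calc _ = y * (y⁻¹ * b * y * (y⁻¹ * c * y)) * y⁻¹ := by group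
      _ = _ := by rw [this]; group
  have b3 : ∀ n ∈ normalizer (B : Set G), n * (y * z * y⁻¹) * n⁻¹ = y * z * y⁻¹ := fun n hn => by
    rw [hB, ← cj_normalizer, mem_cj] at hn
    calc _ = y * (y⁻¹ * n * y * z) * y⁻¹ * n⁻¹ := by group
      _ = _ := by rw [F.N2 hn]; group
  have b4 : ¬ B ≤ F.A := fun h => hy (mem_normalizer_of_cj_le (hB ▸ h))
  have b5 : Nat.card B = Nat.card F.A := hB ▸ card_cj _ _
  have b6 : ∀ {x}, x ∈ B ↔ y⁻¹ * x * y ∈ F.A := hB ▸ mem_cj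
  rw [← hB] at h1 h2
  have h3 : ∀ b, ∃ π, b ∈ B → π ∈ AGL ∧ (∃ m, Act W0 ι b (σ m * P π)) ∧
      ∀ a ∈ D, b * ε a * b⁻¹ = ε (a ∘ ⇑π⁻¹) := fun b => by
    by_cases hb : b ∈ B
    · obtain ⟨m, π, a1, a2, a3⟩ := F.N1 (h1 hb) (F.N2 (h1 hb))
      exact ⟨π, fun _ => ⟨a1, ⟨m, a2⟩, a3⟩⟩
    · exact ⟨1, fun h => absurd h hb⟩
  choose φ hφ using h3
  have hp : ∀ i j, e i + e j ∈ D := fun i j => F.ev_le (pair_mem i j)
  have f1 : ∀ b ∈ B, ∀ c ∈ B, ∀ a ∈ D,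
      b * c * ε a * (b * c)⁻¹ = ε (a ∘ ⇑(φ b * φ c)⁻¹) := fun b hb c hc a ha => by
    rw [mul_inv_rev (φ b), Equiv.Perm.coe_mul, ← Function.comp_assoc,
      ← (hφ b hb).2.2 _ (F.comp_mem ha _), ← (hφ c hc).2.2 _ ha]
    group
  have f2 : ∀ b ∈ B, φ b * φ b = 1 := fun b hb => inv_injective (eq_of_pairs fun i j =>
    F.ε_inj (F.comp_mem (hp i j) _) (F.comp_mem (hp i j) _) (by
      rw [← f1 b hb b hb _ (hp i j), b1 b hb]; simp))
  have f3 : ∀ b ∈ B, ∀ c ∈ B, φ b * φ c = φ c * φ b := fun b hb c hc =>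
    inv_injective (eq_of_pairs fun i j =>
      F.ε_inj (F.comp_mem (hp i j) _) (F.comp_mem (hp i j) _) (by
        rw [← f1 b hb c hc _ (hp i j), ← f1 c hc b hb _ (hp i j), b2 b hb c hc]))
  have f4 : ∀ b ∈ B, ∀ a ∈ D, b * ε a * b⁻¹ = ε (a ∘ φ b) := fun b hb a ha => by
    rw [(hφ b hb).2.2 a ha, inv_eq_of_mul_eq_one_right (f2 b hb)]
  have f5 : ∀ b ∈ B, ∀ a ∈ D, ε a ∈ B → a ∘ φ b = a := fun b hb a ha h =>
    F.ε_inj (F.comp_mem ha _) ha (by rw [← f4 b hb a ha, b2 b hb _ h, mul_inv_cancel_right])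
  have := Fintype.ofFinite G
  obtain ⟨n128, a, a0, g1, g2⟩ := offender (S := (Finset.univ.filter (· ∈ B)).image φ)
    (F := Finset.univ.filter fun a => a ∈ D ∧ ε a ∈ B) (n := Nat.card F.A)
    (by simpa using fun b hb => ⟨(hφ b hb).1, f2 b hb⟩) (by simpa using f3)
    (by
      simp only [Finset.forall_mem_image, Finset.mem_filter, Finset.mem_univ, true_and]
      refine fun b hb c hc a ha => f5 c hc _ (F.ev_le (add_comp_mem_Ev a _)) ?_
      have ha' := F.ev_le ha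
      rw [F.add _ ha' _ (F.comp_mem ha' _), ← f4 b hb a ha', ← mul_assoc, ← mul_assoc]
      refine mul_mem ?_ (inv_mem hb)
      conv => enter [2, 2]; rw [← F.ε_inv ha']
      exact (mem_normalizer_iff.1 (h2 (F.ε_mem ha')) b).1 hb)
    (by
      by_contra! h
      refine b4 fun b hb => F.cA (b1 b hb) fun a ha => ?_
      rw [f4 b hb a ha, h (φ b) (Finset.mem_image_of_mem φ (by simpa using hb))]
      rfl)
    (by simpa using fun m hm h b hb => f5 b hb m hm h)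
    (F.card_A.imp_right fun ⟨a, b⟩ => ⟨a, fun m hm => b ▸ (Finset.mem_filter.1 hm).2.1⟩)
    (by
      rw [← b5, Nat.card_eq_fintype_card, Fintype.card_subtype, mul_comm]
      refine Finset.card_le_mul_card_image _ _ fun π hπ => ?_
      obtain ⟨b, hb, rfl⟩ := Finset.mem_image.1 hπ
      refine Finset.card_le_card_of_surjOn (fun a => b * ε a) fun c hc => ?_
      simp only [Finset.coe_filter, Finset.mem_filter, Finset.mem_univ, true_and,
        Set.mem_ofPred_eq] at hb hc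
      obtain ⟨a, ha, e⟩ := F.cA (b1 _ (mul_mem hb hc.1)) fun a ha => by
        rw [f1 b hb c hc.1 a ha, hc.2, f2 b hb]
        rfl
      refine ⟨a, by simpa using ⟨ha, e ▸ mul_mem hb hc.1⟩, ?_⟩
      change b * ε a = c
      rw [e, ← mul_assoc, b1 b hb, one_mul])
  obtain rfl : D = Ev := (F.card_A.resolve_left (by omega)).2
  simp only [Finset.mem_image, Finset.mem_filter, Finset.mem_univ, true_and] at g1 g2
  have k1 : ∀ b ∈ B, ∃ m ∈ Ev, b = ι (σ m * P (φ b)) := fun b hb => by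
    obtain ⟨a1, ⟨m, a2⟩, -⟩ := hφ b hb
    obtain ⟨a3, a4 | a4⟩ := F.inner rfl a2 (b1 b hb)
    · exact ⟨m, (F.mul_mem_iff a1).1 a3, a4⟩
    · refine ⟨1 + m, add_mem one_mem_Ev ((F.mul_mem_iff a1).1 a3), ?_⟩
      rwa [F.σ_add, mul_assoc, ← F.cen]
  have k2 : ∀ b ∈ B, ∀ c ∈ B, ∀ m ∈ Ev, ∀ l ∈ Ev, b = ι (σ m * P (φ b)) → c = ι (σ l * P (φ c)) →
      b * c = ι (σ (m + l ∘ φ b) * P (φ b * φ c)) := fun b hb c hc m hm l hl e1 e2 => by
    conv_lhs => rw [e1, e2]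
    rw [← F.mul _ ((F.mul_mem_iff (hφ b hb).1).2 hm) _ ((F.mul_mem_iff (hφ c hc).1).2 hl),
      F.mul_eq (hφ b hb).1 (hφ c hc).1, inv_eq_of_mul_eq_one_right (f2 b hb)]
  obtain ⟨b0, hb0, e0⟩ := (g1 _).2 ⟨tr_mem a, tr_mul_self a, fun _ => Or.inr rfl⟩
  obtain ⟨m0, hm0, e1⟩ := k1 b0 hb0
  have k3 : m0 ∘ tr a = m0 := by
    have := k2 b0 hb0 b0 hb0 m0 hm0 m0 hm0 e1 e1
    rw [b1 b0 hb0, f2 b0 hb0, F.P_one, mul_one, e0] at this
    have := F.σ_inj ((F.inj _ ((F.σ_mem _).2 (add_comp_mem_Ev _ _)) this.symm).trans F.σ_zero.symm)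
    rw [← vec_add_cancel m0 (_ ∘ _), this, add_zero]
  have k4 : ∀ b ∈ B, ∃ m, m ∘ tr a = m ∧ b = ε m * ι (P (φ b)) := fun b hb => by
    obtain ⟨m, hm, e2⟩ := k1 b hb
    have a1 := (hφ b hb).1
    have a2 := (hφ b0 hb0).1
    have a3 := (k2 b hb b0 hb0 m hm m0 hm0 e2 e1).symm.trans
      ((b2 b hb b0 hb0).trans (k2 b0 hb0 b hb m0 hm0 m hm e1 e2))
    have a4 := (F.eq_iff (mul_mem a1 a2) (mul_mem a2 a1) (F.ι_inj
      ((F.mul_mem_iff (mul_mem a1 a2)).2 (add_mem hm (comp_mem_Ev.2 hm0)))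
      ((F.mul_mem_iff (mul_mem a2 a1)).2 (add_mem hm0 (comp_mem_Ev.2 hm))) a3)).1
    have a5 : m0 ∘ φ b = m0 := funext fun x => by
      rcases ((g1 _).1 ⟨b, hb, rfl⟩).2.2 x with h | h <;> rw [Function.comp, h]
      exact congrFun k3 x
    rw [a5, e0, add_comm m0, add_left_inj] at a4
    exact ⟨m, a4.symm, by rwa [F.ev _ hm, ← F.mul _ ((F.σ_mem _).2 hm) _ (F.P_mem _ a1)]⟩
  have k5 : ∀ π ∈ AGL, π * π = 1 → (∀ x, π x = x ∨ π x = tr a x) → ι (P π) ∈ B := fun π a1 a2 a3 => by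
    obtain ⟨b, hb, rfl⟩ := (g1 _).2 ⟨a1, a2, a3⟩
    obtain ⟨m, hm, e2⟩ := k4 b hb
    rwa [e2, B.mul_mem_cancel_left (g2 m hm).2] at hb
  have k6 : ∀ c, ι (P (tr c)) ∈ normalizer (B : Set G) := fun c =>
    mem_normalizer_of_cj_le (cj_le_iff.2 fun b hb => by
      obtain ⟨m, hm, e2⟩ := k4 b hb
      obtain ⟨a1, a2, a3⟩ := (g1 _).1 ⟨b, hb, rfl⟩
      have t1 := tr_mem c
      have t2 : ∀ a c x, tr c (tr a (tr c x)) = tr a x ∧ tr c (tr a x) = tr a (tr c x) := by decide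
      rw [e2, ← conj_mul, F.P_conj' t1 (g2 m hm).1, ← F.mul _ (F.P_mem _ t1) _ (F.P_mem _ a1),
        ← F.ι_inv (F.P_mem _ t1), ← F.mul _ (mul_mem (F.P_mem _ t1) (F.P_mem _ a1)) _
        (inv_mem (F.P_mem _ t1)), ← F.P_inv t1, ← F.P_mul _ t1 _ a1,
        ← F.P_mul _ (mul_mem t1 a1) _ (inv_mem t1)]
      refine mul_mem (g2 _ (funext fun x => ?_)).2 (k5 _ (mul_mem (mul_mem t1 a1) (inv_mem t1))
        (by rw [conj_mul, a2]; group) fun x => ?_)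
      · exact (congrArg m (t2 a c x).2).trans (congrFun hm _)
      · change tr c (φ b (tr c x)) = x ∨ tr c (φ b (tr c x)) = _
        rcases a3 (tr c x) with h | h <;> rw [h]
        exacts [Or.inl (xr_xr x c), Or.inr (t2 a c x).1])
  have k7 : y * z = z * y := by
    have z1 : y * z * y⁻¹ * (y * z * y⁻¹) = 1 := by rw [conj_mul, F.z_mul]; group
    obtain ⟨c, hc, e2⟩ := F.cA z1 fun a ha => by
      rw [mul_inv_eq_iff_eq_mul, eq_comm, ← mul_inv_eq_iff_eq_mul]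
      exact b3 _ (h2 (F.ε_mem ha))
    rcases const_of_tr (s := c) fun d => F.ε_inj (F.comp_mem hc _) hc (by
      rw [← tr_inv, ← F.P_conj' (tr_mem d) hc, e2, b3 _ (k6 d)]) with rfl | rfl
    · rw [F.ε_zero, eq_comm, mul_inv_eq_one, mul_eq_left] at e2
      exact absurd e2 F.z_ne
    · rwa [F.ε_one, eq_comm, mul_inv_eq_iff_eq_mul] at e2
  obtain ⟨w, hw⟩ := F.dec y k7
  have k8 : ∀ x ∈ W0, ι x ∈ B → ∃ m', w⁻¹ * x * w = σ m' := fun x hx h => by
    obtain ⟨m, hm, e2⟩ := b6.1 h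
    have := F.act_inv hw x hx
    rw [inv_inv, ← e2, F.ev _ hm] at this
    exact ⟨m, by simpa using (F.ι_inj ((F.σ_mem _).2 hm) (F.conj_mem _ hx) this).symm⟩
  exact F.nc w a a0 (fun m hm => k8 _ ((F.σ_mem _).2 (g2 m hm).1) (F.ev _ (g2 m hm).1 ▸ (g2 m hm).2))
    (k8 _ (F.P_mem _ (tr_mem a)) (k5 _ (tr_mem a) (tr_mul_self a) fun _ => Or.inr rfl))

theorem conj_eq {g : G} (ht : g * z * g⁻¹ ∈ F.A) : g * z * g⁻¹ = z := by
  have : Fact (Nat.Prime 2) := ⟨Nat.prime_two⟩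
  obtain ⟨t, e⟩ : ∃ t, t = g * z * g⁻¹ := ⟨_, rfl⟩
  rw [← e] at ht ⊢
  obtain ⟨P0, hP, h1⟩ := exists_isSylowIn_ge (p := 2) (Q := F.A)
    (H := normalizer (F.A : Set G) ⊓ centralizer {t})
    (fun x => ⟨1, Subtype.ext (by simpa [sq] using F.A_sq x.2)⟩)
    (le_inf le_normalizer fun x hx => mem_centralizer_singleton_iff.2 (F.A_comm hx ht))
  obtain ⟨S0, hS, h2⟩ := exists_isSylowIn_ge hP.isPGroup (hP.le.trans inf_le_right)
  rcases h2.eq_or_lt with rfl | h3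
  · have t1 : ∀ a b, tr a * tr b = tr (a ^^^ b) := by decide
    have t2 : tr 0 = 1 := by decide
    have t3 : ∀ a b, ι (P (tr a)) * ι (P (tr b)) = ι (P (tr (a ^^^ b))) := fun a b => by
      rw [← t1, F.P_mul _ (tr_mem a) _ (tr_mem b), F.mul _ (F.P_mem _ (tr_mem a)) _
        (F.P_mem _ (tr_mem b))]
    have t4 : ∀ a, ι (P (tr a)) * ι (P (tr a)) = 1 := fun a => by
      rw [t3, xr_self, t2, F.P_one, F.ι_one]
    let T : Subgroup G :=
      { carrier := {x | ∃ a, ι (P (tr a)) = x}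
        one_mem' := ⟨0, by rw [t2, F.P_one, F.ι_one]⟩
        mul_mem' := by rintro _ _ ⟨a, rfl⟩ ⟨b, rfl⟩; exact ⟨_, (t3 a b).symm⟩
        inv_mem' := by rintro _ ⟨a, rfl⟩; exact ⟨a, (inv_eq_of_mul_eq_one_right (t4 a)).symm⟩ }
    obtain ⟨S1, hS1⟩ := exists_isSylowIn (p := 2) (normalizer (F.A : Set G))
    have hS2 := hS1.of_card_ge hP.isPGroup (hP.le.trans inf_le_left) (by
      rw [← card_cj g S1]
      refine hS.card_le (isPGroup_cj hS1.isPGroup g) (cj_le_iff.2 fun s hs => ?_)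
      rw [mem_centralizer_singleton_iff, e, conj_mul, conj_mul, F.N2 (hS1.le hs)])
    obtain ⟨n, hn, h4⟩ := hS2.exists_cj_le (Q := T) (by
      rintro ⟨_, a, rfl⟩
      exact ⟨1, Subtype.ext (by simpa [sq] using t4 a)⟩) (by
      rintro _ ⟨a, rfl⟩
      exact F.P_mem_N (tr_mem a))
    obtain ⟨c, hc, e2⟩ := (mem_normalizer_iff.1 (inv_mem hn) t).1 ht
    rcases const_of_tr (s := c) fun d => F.ε_inj (F.comp_mem hc _) hc (by
      have := mem_centralizer_singleton_iff.1 (hS.le (cj_le_iff.1 h4 _ ⟨d, rfl⟩))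
      rw [← tr_inv, ← F.P_conj' (tr_mem d) hc, e2]
      calc _ = n⁻¹ * (n * ι (P (tr d)) * n⁻¹ * t) * n * (ι (P (tr d)))⁻¹ := by group
        _ = _ := by rw [this]; group) with rfl | rfl
    · rw [F.ε_zero, eq_comm, mul_inv_eq_one, mul_eq_left, e, mul_inv_eq_one, mul_eq_left] at e2
      exact absurd e2 F.z_ne
    · rw [F.ε_one, inv_inv] at e2
      calc t = n * (n⁻¹ * t * n) * n⁻¹ := by group
        _ = z := by rw [← e2, F.N2 hn, mul_inv_cancel_right]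
  · obtain ⟨y, ⟨y1, y2⟩, y3⟩ := SetLike.exists_of_lt (lt_inf_normalizer hS.isPGroup h3)
    have y4 := cj_eq_of_mem_normalizer y2
    have := F.noB (y := y) ((cj_mono y h1).trans (y4.le.trans (hP.le.trans inf_le_left)))
      (h1.trans (y4.ge.trans ((cj_mono y (hP.le.trans inf_le_left)).trans (cj_normalizer _ _).le)))
    exact absurd (hP.eq_inf hS.isPGroup h2 ▸ ⟨y1, this, hS.le y1⟩) y3

end Frm

theorem St.isolated (S : St W0 σ P ι z) : IsIsolatedInvolution z := by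
  have : Fact (Nat.Prime 2) := ⟨Nat.prime_two⟩
  refine ⟨orderOf_eq_prime (by rw [sq, S.z_mul]) S.z_ne, fun g hc => by_contra fun hne => ?_⟩
  obtain ⟨D, ε, F⟩ := S.exists_frm fun k hk => S.no_four hc.symm.eq hne hk
  obtain ⟨c, h1, h2⟩ := F.toA hc.symm.eq (by rw [conj_mul, S.z_mul]; group)
  have := F.conj_eq (g := c * g) (by convert h2 using 1; group)
  refine hne ?_
  calc _ = c⁻¹ * (c * g * z * (c * g)⁻¹) * c := by group
    _ = z := by rw [this, mul_assoc, ← h1]; group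

end Cfsg.Lib.W8
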