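import Mathlib.GroupTheory.Perm.Basic
import Mathlib.Data.ZMod.Basic
import Mathlib.Algebra.Group.Subgroup.Finite
import Mathlib.Data.Fin.VecNotation
import Mathlib.Tactic.FinCases
import Mathlib.Tactic.IntervalCases
import Mathlib.Algebra.BigOperators.Fin

/-!
The affine group of the space with eight points, and binary vectors on these points.
-/

set_option autoImplicit false

namespace Cfsg.Lib.W8

/-- The points. -/
abbrev Pt : Type := Fin 8

/-- Binary vectors. -/
abbrev Vec : Type := Pt → ZMod 2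

theorem xr_comm : ∀ x y : Pt, x ^^^ y = y ^^^ x := by decide
theorem xr_self : ∀ x : Pt, x ^^^ x = 0 := by decide
theorem xr_zero : ∀ x : Pt, x ^^^ 0 = x := by decide
theorem zero_xr : ∀ x : Pt, 0 ^^^ x = x := by decide
theorem xr_xr : ∀ x y : Pt, x ^^^ y ^^^ y = x := by decide

/-- The affine permutations. -/
def AGL : Subgroup (Equiv.Perm Pt) where
  carrier := {π | ∀ x y z, π (x ^^^ y ^^^ z) = π x ^^^ π y ^^^ π z}
  one_mem' := fun _ _ _ => rfl
  mul_mem' := fun {a b} ha hb x y z => by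
    rw [Equiv.Perm.mul_apply, hb, ha]; rfl
  inv_mem' := fun {a} ha x y z => a.injective (by rw [ha]; simp)

theorem mem_AGL {π : Equiv.Perm Pt} :
    π ∈ AGL ↔ ∀ x y z, π (x ^^^ y ^^^ z) = π x ^^^ π y ^^^ π z := Iff.rfl

/-- The linear map with given values on the basis. -/
def lin (u v w x : Pt) : Pt :=
  (bif x.1.testBit 0 then u else 0) ^^^ (bif x.1.testBit 1 then v else 0) ^^^
    (bif x.1.testBit 2 then w else 0)

/-- The affine map with given translation part and linear part. -/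
def aff (a u v w x : Pt) : Pt := a ^^^ lin u v w x

/-- Linear independence. -/
def Val (u v w : Pt) : Prop :=
  u ≠ 0 ∧ v ≠ 0 ∧ v ≠ u ∧ w ≠ 0 ∧ w ≠ u ∧ w ≠ v ∧ w ≠ u ^^^ v

instance decVal (u v w : Pt) : Decidable (Val u v w) := by unfold Val; infer_instance

theorem lin_xr : ∀ u v w x y : Pt, lin u v w (x ^^^ y) = lin u v w x ^^^ lin u v w y := by
  decide +kernel

theorem xr_aff : ∀ a p q r : Pt,
    a ^^^ (p ^^^ q ^^^ r) = (a ^^^ p) ^^^ (a ^^^ q) ^^^ (a ^^^ r) := by decide +kernel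

theorem lin_inj : ∀ u v w : Pt, Val u v w → Function.Injective (lin u v w) := by decide +kernel

theorem xr_inj : ∀ a : Pt, Function.Injective (fun x => a ^^^ x) := by decide +kernel

/-- The affine permutation with given parameters. -/
noncomputable def mkP (a u v w : Pt) (h : Val u v w) : Equiv.Perm Pt :=
  Equiv.ofBijective (aff a u v w)
    (Finite.injective_iff_bijective.1 ((xr_inj a).comp (lin_inj u v w h)))

theorem coe_mkP (a u v w : Pt) (h : Val u v w) : ⇑(mkP a u v w h) = aff a u v w := rfl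

theorem mkP_mem (a u v w : Pt) (h : Val u v w) : mkP a u v w h ∈ AGL := fun x y z => by
  simp only [coe_mkP, aff, lin_xr]
  exact xr_aff _ _ _ _

theorem aff_aux : ∀ a b c d : Pt, aff a (a ^^^ b) (a ^^^ c) (a ^^^ d) =
    ![a, b, c, a ^^^ b ^^^ c, d, a ^^^ b ^^^ d, a ^^^ c ^^^ d, b ^^^ c ^^^ d] := by decide +kernel

theorem val_aux : ∀ a b c d : Pt, b ≠ a → c ≠ a → c ≠ b → d ≠ a → d ≠ b → d ≠ c →
    d ≠ a ^^^ b ^^^ c → Val (a ^^^ b) (a ^^^ c) (a ^^^ d) := by decide +kernel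

theorem exists_aff {π : Equiv.Perm Pt} (h : π ∈ AGL) :
    ∃ a u v w, Val u v w ∧ ⇑π = aff a u v w := by
  refine ⟨π 0, π 0 ^^^ π 1, π 0 ^^^ π 2, π 0 ^^^ π 4, val_aux _ _ _ _ ?_ ?_ ?_ ?_ ?_ ?_ ?_, ?_⟩
  iterate 6 exact π.injective.ne (by decide)
  · rw [← h]; exact π.injective.ne (by decide)
  · rw [aff_aux, ← h, ← h, ← h, ← h]
    funext x
    fin_cases x <;> rfl

theorem card_AGL : Nat.card AGL = 1344 := by
  have : Nat.card AGL = Nat.card {t : Pt × Pt × Pt × Pt // Val t.2.1 t.2.2.1 t.2.2.2} := by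
    refine (Nat.card_eq_of_bijective
      (fun t => ⟨mkP t.1.1 t.1.2.1 t.1.2.2.1 t.1.2.2.2 t.2, mkP_mem _ _ _ _ _⟩) ⟨?_, ?_⟩).symm
    · rintro ⟨⟨a, u, v, w⟩, h⟩ ⟨⟨a', u', v', w'⟩, h'⟩ e
      have e1 : aff a u v w = aff a' u' v' w' :=
        congrArg (fun π : AGL => ⇑(π : Equiv.Perm Pt)) e
      have l0 : ∀ a u v w : Pt, aff a u v w 0 = a ∧ aff a u v w 1 = a ^^^ u ∧
        aff a u v w 2 = a ^^^ v ∧ aff a u v w 4 = a ^^^ w := by decide +kernel
      obtain ⟨h0, h1, h2, h3⟩ := l0 a u v w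
      obtain ⟨k0, k1, k2, k3⟩ := l0 a' u' v' w'
      rw [e1] at h0 h1 h2 h3
      obtain rfl : a = a' := h0.symm.trans k0
      obtain rfl : u = u' := xr_inj a (h1.symm.trans k1)
      obtain rfl : v = v' := xr_inj a (h2.symm.trans k2)
      obtain rfl : w = w' := xr_inj a (h3.symm.trans k3)
      rfl
    · rintro ⟨π, h⟩
      obtain ⟨a, u, v, w, hv, e⟩ := exists_aff h
      exact ⟨⟨(a, u, v, w), hv⟩, Subtype.ext (Equiv.ext fun x => (congrFun e x).symm)⟩
  rw [this, Nat.card_eq_fintype_card]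
  decide +kernel

/-- Translation. -/
def tr (a : Pt) : Equiv.Perm Pt := ⟨fun x => x ^^^ a, fun x => x ^^^ a, (xr_xr · a), (xr_xr · a)⟩

theorem tr_apply (a x : Pt) : tr a x = x ^^^ a := rfl

theorem tr_mem (a : Pt) : tr a ∈ AGL := by
  have : ∀ a x y z : Pt, x ^^^ y ^^^ z ^^^ a = (x ^^^ a) ^^^ (y ^^^ a) ^^^ (z ^^^ a) := by
    decide +kernel
  exact this a

theorem tr_mul_self (a : Pt) : tr a * tr a = 1 := Equiv.ext fun x => xr_xr x a

theorem tr_inv (a : Pt) : (tr a)⁻¹ = tr a := rfl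

/-- The code of a map on points. -/
def cod (f : Pt → Pt) : ℕ :=
  (f 0).1 + 8 * (f 1).1 + 64 * (f 2).1 + 512 * (f 3).1 + 4096 * (f 4).1 + 32768 * (f 5).1 +
    262144 * (f 6).1 + 2097152 * (f 7).1

/-- The map with a given code. -/
def ap (c : ℕ) (x : Pt) : Pt := ⟨(c >>> (3 * x.1)) % 8, Nat.mod_lt _ (by decide)⟩

theorem ap_cod (f : Pt → Pt) : ap (cod f) = f := by
  funext x
  have h0 := (f 0).2; have h1 := (f 1).2; have h2 := (f 2).2; have h3 := (f 3).2
  have h4 := (f 4).2; have h5 := (f 5).2; have h6 := (f 6).2; have h7 := (f 7).2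
  have key : cod f / 1 % 8 = f 0 ∧ cod f / 8 % 8 = f 1 ∧ cod f / 64 % 8 = f 2 ∧
      cod f / 512 % 8 = f 3 ∧ cod f / 4096 % 8 = f 4 ∧ cod f / 32768 % 8 = f 5 ∧
      cod f / 262144 % 8 = f 6 ∧ cod f / 2097152 % 8 = f 7 := by
    unfold cod
    omega
  obtain ⟨a0, a1, a2, a3, a4, a5, a6, a7⟩ := key
  refine Fin.ext ?_
  change cod f >>> _ % 8 = _
  rw [Nat.shiftRight_eq_div_pow]
  fin_cases x
  exacts [a0, a1, a2, a3, a4, a5, a6, a7]

/-- The vector with a given mask. -/
def ofM (m : ℕ) : Vec := fun i => bif m.testBit i.1 then 1 else 0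

/-- The mask of a vector. -/
def toM (s : Vec) : ℕ :=
  (s 0).val + 2 * (s 1).val + 4 * (s 2).val + 8 * (s 3).val + 16 * (s 4).val + 32 * (s 5).val +
    64 * (s 6).val + 128 * (s 7).val

theorem ofM_toM : ∀ s : Vec, ofM (toM s) = s ∧ toM s < 256 := by decide +kernel

theorem toM_ofM : ∀ m < 256, toM (ofM m) = m := by decide +kernel

theorem ofM_xor (a b : ℕ) : ofM (a ^^^ b) = ofM a + ofM b := by
  funext i
  simp only [ofM, Pi.add_apply, Nat.testBit_xor]
  cases a.testBit i <;> cases b.testBit i <;> rfl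

theorem forall_vec {P : Vec → Prop} (h : ∀ m < 256, P (ofM m)) (s : Vec) : P s :=
  (ofM_toM s).1 ▸ h _ (ofM_toM s).2

/-- The parity of the weight. -/
def par (s : Vec) : ZMod 2 := ∑ i, s i

theorem par_add (a b : Vec) : par (a + b) = par a + par b := Finset.sum_add_distrib

theorem par_comp (s : Vec) (π : Equiv.Perm Pt) : par (s ∘ π) = par s := Equiv.sum_comp π s

/-- The even vectors. -/
def Ev : AddSubgroup Vec where
  carrier := {s | par s = 0}
  zero_mem' := by simp [par]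
  add_mem' := fun {a b} ha hb => by
    change par _ = 0
    rw [par_add, ha, hb, add_zero]
  neg_mem' := fun {a} ha => by
    change par _ = 0
    rwa [show -a = a from funext fun i => ZMod.neg_eq_self_mod_two _]

theorem mem_Ev {s : Vec} : s ∈ Ev ↔ par s = 0 := Iff.rfl

theorem vec_add_self (s : Vec) : s + s = 0 := funext fun _ => CharTwo.add_self_eq_zero _

/-- The basis vectors. -/
def e (i : Pt) : Vec := fun j => if j = i then 1 else 0

theorem e_comp (i : Pt) (π : Equiv.Perm Pt) : e i ∘ π = e (π⁻¹ i) := by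
  funext j
  simp only [e, Function.comp, Equiv.Perm.eq_inv_iff_eq]

theorem par_e : ∀ i, par (e i) = 1 := by decide

theorem pair_mem (i j : Pt) : e i + e j ∈ Ev := by
  rw [mem_Ev, par_add, par_e, par_e]; rfl

theorem one_mem_Ev : (1 : Vec) ∈ Ev := by rw [mem_Ev]; decide

theorem z2_cases : ∀ x : ZMod 2, x = 0 ∨ x = 1 := by decide

theorem eq_of_pairs {π ρ : Equiv.Perm Pt} (h : ∀ i j, (e i + e j) ∘ π = (e i + e j) ∘ ρ) :
    π = ρ := Equiv.ext fun x => by
  have : ∀ p q : Pt, (∀ j, (e p + e j) p = (e p + e j) q) → p = q := by decide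
  exact this _ _ fun j => congrFun (h (π x) j) x

theorem const_of_tr {s : Vec} (h : ∀ a, s ∘ tr a = s) : s = 0 ∨ s = 1 := by
  have h1 : ∀ a, s a = s 0 := fun a => by
    have := congrFun (h a) 0
    rwa [Function.comp, tr_apply, zero_xr] at this
  exact (z2_cases (s 0)).imp (fun e => funext fun a => (h1 a).trans e)
    fun e => funext fun a => (h1 a).trans e

end Cfsg.Lib.W8
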