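import Cfsg.Agent.W8.Aff
import Batteries.Data.Nat.Lemmas
import Mathlib.Tactic.Group

/-!
Finite checks on the affine group of the space with eight points.
-/

set_option autoImplicit false
set_option maxRecDepth 100000

namespace Cfsg.Lib.W8

/-- Codes of the affine permutations of order at most two, with the sets of fixed masks. -/
def IL : List (ℕ × ℕ) := [
  (16434824, 0xffffffffffffffffffffffffffffffffffffffffffffffffffffffffffffffff),
  (14571144, 0xffff00000000ffff00000000000000000000000000000000ffff00000000ffff),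
  (11789960, 0xffff0000000000000000ffff0000000000000000ffff0000000000000000ffff),
  (9926280, 0xffff00000000000000000000ffff00000000ffff00000000000000000000ffff),
  (14599368, 0xf00ff00ff00ff00f00000000000000000000000000000000f00ff00ff00ff00f),
  (16405704, 0xf00f00000000f00ff00f00000000f00ff00f00000000f00ff00f00000000f00f),
  (16362248, 0xf0000f0000f0000ff0000f0000f0000ff0000f0000f0000ff0000f0000f0000f),
  (16333128, 0xf00000f00f00000ff00000f00f00000ff00000f00f00000ff00000f00f00000f),
  (6999944, 0xf000f000f000f0000f000f000f000f0000f000f000f000f0000f000f000f000f),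
  (5164488, 0xf000f000f000f00000f000f000f000f00f000f000f000f00000f000f000f000f),
  (16205392, 0xc3c3c3c30000000000000000c3c3c3c3c3c3c3c30000000000000000c3c3c3c3),
  (10155600, 0xc3c30000c3c30000c3c30000c3c300000000c3c30000c3c30000c3c30000c3c3),
  (12305048, 0xcc33cc3300000000cc33cc330000000000000000cc33cc3300000000cc33cc33),
  (15917720, 0xcc330000cc3300000000cc330000cc33cc330000cc3300000000cc330000cc33),
  (15637664, 0xcc003300cc00330000cc003300cc0033cc003300cc00330000cc003300cc0033),
  (5937120, 0xc0c03030c0c03030c0c03030c0c030300c0c03030c0c03030c0c03030c0c0303),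
  (7917224, 0xcc00cc0033003300cc00cc003300330000cc00cc0033003300cc00cc00330033),
  (15255464, 0xc0c0c0c0303030300c0c0c0c03030303c0c0c0c0303030300c0c0c0c03030303),
  (15120560, 0xcc0000cccc0000cc3300003333000033cc0000cccc0000cc3300003333000033),
  (15026032, 0xc0c0c0c00c0c0c0c3030303003030303c0c0c0c00c0c0c0c3030303003030303),
  (3787448, 0xcc00cc0000cc00cccc00cc0000cc00cc33003300003300333300330000330033),
  (3843896, 0xc0c00c0cc0c00c0cc0c00c0cc0c00c0c30300303303003033030030330300303),
  (14570689, 0x9009000000009009000000000000000000000000000000009009000000009009),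
  (16434369, 0x9009900990099009900990099009900990099009900990099009900990099009),
  (9925825, 0x9009000000000000000000009009000000009009000000000000000000009009),
  (11789505, 0x9009000000000000000090090000000000000000900900000000000000009009),
  (16406145, 0x9999000000009999999900000000999999990000000099999999000000009999),
  (14599809, 0x9999999999999999000000000000000000000000000000009999999999999999),
  (14498113, 0x9000009009000009000000000000000000000000000000009000009009000009),
  (14527233, 0x9000090000900009000000000000000000000000000000009000090000900009),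
  (5135809, 0x9000000000009000009000000000009009000000000009000009000000000009),
  (6971265, 0x9000000000009000090000000000090000900000000000900009000000000009),
  (11788826, 0x8421000000000000000084210000000000000000842100000000000000008421),
  (9925146, 0x8421000000000000000000008421000000008421000000000000000000008421),
  (16433690, 0x8421842184218421842184218421842184218421842184218421842184218421),
  (14570010, 0x8421000000008421000000000000000000000000000000008421000000008421),
  (15918602, 0xa5a50000a5a500000000a5a50000a5a5a5a50000a5a500000000a5a50000a5a5),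
  (12305930, 0xa5a5a5a500000000a5a5a5a50000000000000000a5a5a5a500000000a5a5a5a5),
  (10991666, 0x8400008400000000210000210000000000000000840000840000000021000021),
  (3271226, 0x8400000000840000000084000000008421000000002100000000210000000021),
  (11508770, 0x8400210000000000008400210000000000000000840021000000000000840021),
  (7401002, 0x8400000021000000000084000000210000840000002100000000008400000021),
  (9924691, 0x8241000000000000000000008241000000008241000000000000000000008241),
  (11788371, 0x8241000000000000000082410000000000000000824100000000000000008241),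
  (14569555, 0x8241000000008241000000000000000000000000000000008241000000008241),
  (16433235, 0x8241824182418241824182418241824182418241824182418241824182418241),
  (10154123, 0xaa550000aa550000aa550000aa5500000000aa550000aa550000aa550000aa55),
  (16203915, 0xaa55aa550000000000000000aa55aa55aa55aa550000000000000000aa55aa55),
  (3612987, 0x8040080400000000000000008040080420100201000000000000000020100201),
  (8745331, 0x8040000008040000201000000201000000008040000008040000201000000201),
  (8974763, 0x8040000020100000080400000201000000008040000020100000080400000201),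
  (5706211, 0x8040201000000000000000008040201008040201000000000000000008040201),
  (6852524, 0x8000400020001000080004000200010000800040002000100008000400020001),
  (5017068, 0x8000400020001000008000400020001008000400020001000008000400020001),
  (16287404, 0x8888444422221111888844442222111188884444222211118888444422221111),
  (14451948, 0x8008400420021001000000000000000000000000000000008008400420021001),
  (6623092, 0x8000400008000400200010000200010000800040000800040020001000020001),
  (2722748, 0x8000400000800040080004000008000420001000002000100200010000020001),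
  (15370124, 0xa0a05050a0a050500a0a05050a0a0505a0a05050a0a050500a0a05050a0a0505),
  (8031884, 0xaa005500aa005500aa005500aa00550000aa005500aa005500aa005500aa0055),
  (7802452, 0x8200410000000000000000008200410000820041000000000000000000820041),
  (11240348, 0x8020401000000000080204010000000000000000802040100000000008020401),
  (4988389, 0x8000200040001000008000200040001008000200040001000008000200040001),
  (6823845, 0x8000200040001000080002000400010000800020004000100008000200040001),
  (14423269, 0x8008200240041001000000000000000000000000000000008008200240041001),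
  (16258725, 0x8888222244441111888822224444111188882222444411118888222244441111),
  (2895165, 0x8000080040000400008000080040000420000200100001000020000200100001),
  (4471285, 0x8000008040000040200000201000001008000008040000040200000201000001),
  (5785549, 0xa0a0a0a050505050a0a0a0a0505050500a0a0a0a050505050a0a0a0a05050505),
  (15486093, 0xaa00aa005500550000aa00aa00550055aa00aa005500550000aa00aa00550055),
  (5268445, 0x8020000040100000000080200000401008020000040100000000080200000401),
  (9206869, 0x8200000041000000008200000041000000008200000041000000008200000041),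
  (2206526, 0x8000080000800008400004000040000420000200002000021000010000100001),
  (2177406, 0x8000008008000008400000400400000420000020020000021000001001000001),
  (2279102, 0x8888888888888888444444444444444422222222222222221111111111111111),
  (2249982, 0x8008000000008008400400000000400420020000000020021001000000001001),
  (4299750, 0x8000200000800020400010000040001008000200000800020400010000040001),
  (6336302, 0x8000080020000200400004001000010000800008002000020040000400100001),
  (8518230, 0x8200000000820000410000000041000000008200000000820000410000000041),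
  (10724126, 0x8020080200000000401004010000000000000000802008020000000040100401),
  (14853902, 0xa0a00a0aa0a00a0a5050050550500505a0a00a0aa0a00a0a5050050550500505),
  (14797454, 0xaa00aa0000aa00aa5500550000550055aa00aa0000aa00aa5500550000550055),
  (342391, 0x8000008008000008200000200200000240000040040000041000001001000001),
  (371511, 0x8000080000800008200002000020000240000400004000041000010000100001),
  (414967, 0x8008000000008008200200000000200240040000000040041001000000001001),
  (444087, 0x8888888888888888222222222222222244444444444444441111111111111111),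
  (571823, 0x8000008020000020080000080200000240000040100000100400000401000001),
  (859495, 0x8000200008000200008000200008000240001000040001000040001000040001),
  (1139551, 0x8020000008020000000080200000080240100000040100000000401000000401),
  (1521751, 0x8200008200000000000000008200008241000041000000000000000041000041),
  (1656655, 0xa0a0a0a00a0a0a0aa0a0a0a00a0a0a0a50505050050505055050505005050505),
  (1751183, 0xaa0000aaaa0000aaaa0000aaaa0000aa55000055550000555500005555000055)]

/-- Witnesses for the orbits on vectors. -/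
def WL : List ℕ := [
  16434824, 16434824, 14570689, 16434824, 13882393, 16205392, 16148034, 16434824, 10211481,
  12534480, 12477122, 14599368, 11788826, 14140504, 9924691, 16434824, 13700953, 16096528,
  16095618, 16362248, 15636530, 15673952, 8333892, 16434824, 8294706, 8332128, 15672132,
  14599368, 16359980, 14140504, 16433235, 343980, 9973593, 12369168, 12368258, 14498568, 8181810,
  8219232, 15559236, 14571144, 15520050, 15557472, 8217412, 16405704, 14496300, 12219480,
  14569555, 2207660, 11571098, 13967128, 9706963, 16362248, 16287404, 13967128, 16259859, 517356,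
  14451948, 12130776, 14424403, 2352812, 16359980, 417235, 4677400, 2281370, 4411225, 6806800,
  6805890, 7072520, 10991666, 13351520, 13236804, 11789960, 10875186, 13235040, 13349700,
  11760840, 7070252, 15946840, 11788371, 4988844, 10882802, 13278944, 13277124, 11644808,
  8559803, 15673952, 14883491, 1893724, 13075804, 11213048, 15672132, 1105083, 10954811, 5822404,
  5824224, 3428082, 10766322, 13162464, 13164228, 11615688, 12934684, 11156600, 15559236,
  1217979, 8443323, 15557472, 11067875, 5709340, 10838331, 5938884, 5937120, 3540978, 6852524,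
  15801688, 11570643, 5206572, 10882235, 5894980, 6009696, 3649842, 10765755, 6011460, 5896800,
  3536946, 5208840, 3078530, 3079440, 683865, 683865, 3079440, 3078530, 5208840, 3536946,
  5896800, 6011460, 9926280, 3649842, 6009696, 5894980, 9954504, 5206572, 10413144, 9924691,
  6852524, 3540978, 5937120, 5938884, 9809352, 5709340, 9350264, 8333892, 8443323, 1217979,
  8332128, 3842531, 12934684, 3612987, 13164228, 13162464, 10766322, 3428082, 5824224, 5822404,
  9781128, 1105083, 8219232, 3701411, 13075804, 1893724, 3758328, 8217412, 8559803, 3500091,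
  13277124, 13278944, 10882802, 4988844, 10267992, 9706963, 7070252, 3427515, 13349700, 13235040,
  10875186, 3540411, 13236804, 13351520, 10991666, 7072520, 6805890, 6806800, 4411225, 2281370,
  4677400, 417235, 7072520, 2352812, 4677400, 2325267, 14451948, 517356, 2841048, 489811,
  16287404, 7070252, 9706963, 13967128, 11571098, 2207660, 4705624, 2280915, 14496300, 8559803,
  8217412, 15557472, 15520050, 1217979, 15559236, 8219232, 8181810, 14498568, 12368258, 12369168,
  9973593, 343980, 2784600, 417235, 16359980, 1105083, 15672132, 8332128, 8294706, 8443323,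
  8333892, 15673952, 15636530, 16362248, 16095618, 16096528, 13700953, 6852524, 9924691,
  14140504, 11788826, 14599368, 12477122, 12534480, 10211481, 16434824, 16148034, 16205392,
  13882393, 16434824, 14570689, 16434824, 16434824]

/-- The table of classes. -/
def CT : ℕ :=
  0x8776766576656559766565546554544376656554655454436559544354439332766565546554544365545943549343326554549359434332544343324332322176656554655454436554549359434332655459435493433254434332433232216559544354439332544343324332322154434332433232219332322132212110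

/-- The set of even masks. -/
def EVM : ℕ := 0x9669699669969669699696699669699669969669966969969669699669969669

/-- Codes of the linear transvections. -/
def TL : List ℕ := [
  14571144, 11789960, 9926280, 14599368, 16405704, 16362248, 16333128, 6999944, 5164488,
  16205392, 10155600, 12305048, 15917720, 15637664, 5937120, 7917224, 15255464, 15120560,
  15026032, 3787448, 3843896]

/-- Bounded universal quantifier. -/
noncomputable def allN (n : ℕ) (f : ℕ → Bool) : Bool :=
  Nat.rec (motive := fun _ => Bool) true (fun i ih => cond (f i) ih false) n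

/-- Bounded existential quantifier. -/
noncomputable def anyN (n : ℕ) (f : ℕ → Bool) : Bool :=
  Nat.rec (motive := fun _ => Bool) false (fun i ih => cond (f i) true ih) n

/-- Universal quantifier over a list. -/
noncomputable def allL {α : Type} (l : List α) (f : α → Bool) : Bool :=
  List.rec (motive := fun _ => Bool) true (fun a _ ih => cond (f a) ih false) l

/-- Existential quantifier over a list. -/
noncomputable def anyL {α : Type} (l : List α) (f : α → Bool) : Bool :=
  List.rec (motive := fun _ => Bool) false (fun a _ ih => cond (f a) true ih) l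

/-- Number of list entries with a property. -/
noncomputable def cntL {α : Type} (l : List α) (f : α → Bool) : ℕ :=
  List.rec (motive := fun _ => ℕ) 0 (fun a _ ih => cond (f a) (Nat.succ ih) ih) l

/-- Sum over an initial segment. -/
noncomputable def sumN (n : ℕ) (f : ℕ → ℕ) : ℕ :=
  Nat.rec (motive := fun _ => ℕ) 0 (fun i ih => Nat.add (f i) ih) n

/-- Evaluate the argument first. -/
noncomputable def frc (x : ℕ) (k : ℕ → Bool) : Bool :=
  Nat.rec (motive := fun _ => Bool) (k 0) (fun n _ => k (Nat.succ n)) x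

/-- Implication. -/
def im (a b : Bool) : Bool := cond a b true

/-- Inequality. -/
def nq (a b : ℕ) : Bool := cond (Nat.beq a b) false true

theorem allN_iff {n : ℕ} {f : ℕ → Bool} : allN n f = true ↔ ∀ i < n, f i = true := by
  induction n with
  | zero => exact ⟨fun _ _ h => absurd h (Nat.not_lt_zero _), fun _ => rfl⟩
  | succ n ih =>
    change cond (f n) (allN n f) false = true ↔ _
    rw [Nat.forall_lt_succ_right, ← ih]
    cases f n <;> simp

theorem anyN_iff {n : ℕ} {f : ℕ → Bool} : anyN n f = true ↔ ∃ i < n, f i = true := by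
  induction n with
  | zero => exact ⟨fun h => absurd h Bool.false_ne_true, fun ⟨_, h, _⟩ => absurd h (Nat.not_lt_zero _)⟩
  | succ n ih =>
    change cond (f n) true (anyN n f) = true ↔ _
    rw [Nat.exists_lt_succ_right, ← ih]
    cases f n <;> simp

theorem all8 {f : ℕ → Bool} : allN 8 f = true ↔ ∀ x : Pt, f x.1 = true :=
  allN_iff.trans ⟨fun h x => h _ x.2, fun h i hi => h ⟨i, hi⟩⟩

theorem any8 {f : ℕ → Bool} : anyN 8 f = true ↔ ∃ x : Pt, f x.1 = true :=
  anyN_iff.trans ⟨fun ⟨i, hi, h⟩ => ⟨⟨i, hi⟩, h⟩, fun ⟨x, h⟩ => ⟨_, x.2, h⟩⟩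

theorem allL_iff {α : Type} {l : List α} {f : α → Bool} :
    allL l f = true ↔ ∀ a ∈ l, f a = true := by
  induction l with
  | nil => exact ⟨fun _ _ h => absurd h List.not_mem_nil, fun _ => rfl⟩
  | cons a l ih =>
    change cond (f a) (allL l f) false = true ↔ _
    rw [List.forall_mem_cons, ← ih]
    cases f a <;> simp

theorem anyL_iff {α : Type} {l : List α} {f : α → Bool} :
    anyL l f = true ↔ ∃ a ∈ l, f a = true := by
  induction l with
  | nil => exact ⟨fun h => absurd h Bool.false_ne_true, fun ⟨_, h, _⟩ => absurd h List.not_mem_nil⟩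
  | cons a l ih =>
    change cond (f a) true (anyL l f) = true ↔ _
    rw [List.exists_mem_cons_iff, ← ih]
    cases f a <;> simp

theorem cntL_eq {α : Type} (l : List α) (f : α → Bool) : cntL l f = (l.filter f).length := by
  induction l with
  | nil => rfl
  | cons a l ih =>
    change cond (f a) (Nat.succ (cntL l f)) (cntL l f) = _
    rw [List.filter_cons, ih]
    cases f a <;> rfl

theorem sumN_eq (n : ℕ) (f : ℕ → ℕ) : sumN n f = ∑ i ∈ Finset.range n, f i := by
  induction n with
  | zero => rfl
  | succ n ih => rw [Finset.sum_range_succ, ← ih, add_comm (sumN n f)]; rfl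

theorem frc_eq (x : ℕ) (k : ℕ → Bool) : frc x k = k x := by cases x <;> rfl

theorem im_iff {a b : Bool} : im a b = true ↔ (a = true → b = true) := by
  cases a <;> simp [im]

theorem nq_iff {a b : ℕ} : nq a b = true ↔ a ≠ b := by
  rw [nq, Ne, ← Nat.beq_eq]
  cases Nat.beq a b <;> simp

/-- A bit of a number. -/
def tb (m i : ℕ) : Bool := Nat.beq (Nat.land (Nat.shiftRight m i) 1) 1

theorem tb_eq (m i : ℕ) : tb m i = m.testBit i := by
  rw [Nat.testBit_eq_decide_div_mod_eq, Bool.eq_iff_iff, decide_eq_true_iff, tb, Nat.beq_eq]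
  change (m >>> i) &&& 1 = 1 ↔ _
  rw [Nat.and_one_is_mod, Nat.shiftRight_eq_div_pow]

/-- The value of a coded map. -/
def apN (c x : ℕ) : ℕ := Nat.mod (Nat.shiftRight c (Nat.mul 3 x)) 8

theorem ap_val (c : ℕ) (x : Pt) : apN c x.1 = (ap c x).1 := rfl

theorem xr_val : ∀ x y : Pt, (x ^^^ y).1 = Nat.xor x.1 y.1 := by decide

/-- The code of an affine map. -/
def cdN (a u v w : ℕ) : ℕ :=
  a + 8 * Nat.xor a u + 64 * Nat.xor a v + 512 * Nat.xor a (Nat.xor u v) + 4096 * Nat.xor a w +
    32768 * Nat.xor a (Nat.xor u w) + 262144 * Nat.xor a (Nat.xor v w) +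
    2097152 * Nat.xor a (Nat.xor (Nat.xor u v) w)

theorem cod_aff (a u v w : Pt) : cod (aff a u v w) = cdN a.1 u.1 v.1 w.1 := by
  have h : ∀ u v w : Pt, lin u v w 0 = 0 ∧ lin u v w 1 = u ∧ lin u v w 2 = v ∧
    lin u v w 3 = u ^^^ v ∧ lin u v w 4 = w ∧ lin u v w 5 = u ^^^ w ∧ lin u v w 6 = v ^^^ w ∧
    lin u v w 7 = u ^^^ v ^^^ w := by decide +kernel
  obtain ⟨h0, h1, h2, h3, h4, h5, h6, h7⟩ := h u v w
  simp only [cod, aff, h0, h1, h2, h3, h4, h5, h6, h7, xr_zero, xr_val, cdN]

/-- Universal quantifier over the affine group. -/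
noncomputable def allA (P : ℕ → Bool) : Bool :=
  allN 8 fun u => allN 8 fun v => allN 8 fun w =>
    im (nq u 0 && nq v 0 && nq v u && nq w 0 && nq w u && nq w v && nq w (Nat.xor u v))
      (allN 8 fun a => frc (cdN a u v w) P)

theorem allA_sound {P : ℕ → Bool} (h : allA P = true) {π : Equiv.Perm Pt} (hπ : π ∈ AGL) :
    P (cod π) = true := by
  obtain ⟨a, u, v, w, hv, e⟩ := exists_aff hπ
  simp only [allA, all8, im_iff, Bool.and_eq_true, nq_iff, frc_eq, ← xr_val] at h
  rw [e, cod_aff]
  obtain ⟨h1, h2, h3, h4, h5, h6, h7⟩ := hv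
  exact h u v w ⟨⟨⟨⟨⟨⟨Fin.val_ne_of_ne h1, Fin.val_ne_of_ne h2⟩, Fin.val_ne_of_ne h3⟩,
    Fin.val_ne_of_ne h4⟩, Fin.val_ne_of_ne h5⟩, Fin.val_ne_of_ne h6⟩, Fin.val_ne_of_ne h7⟩ a

/-- The code describes an affine permutation. -/
def OkC (c : ℕ) : Prop :=
  Val (ap c 0 ^^^ ap c 1) (ap c 0 ^^^ ap c 2) (ap c 0 ^^^ ap c 4) ∧
    c = cdN (ap c 0).1 (ap c 0 ^^^ ap c 1).1 (ap c 0 ^^^ ap c 2).1 (ap c 0 ^^^ ap c 4).1

instance decOkC (c : ℕ) : Decidable (OkC c) := by unfold OkC; infer_instance

theorem OkC.exists {c : ℕ} (h : OkC c) : ∃ π ∈ AGL, ⇑π = ap c :=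
  ⟨mkP (ap c 0) _ _ _ h.1, mkP_mem _ _ _ _ _, by
    conv_rhs => rw [h.2, ← cod_aff, ap_cod]
    rfl⟩

theorem il_aux : allA (fun c => im (allN 8 fun x => Nat.beq (apN c (apN c x)) x)
    (anyL IL fun p => Nat.beq p.1 c)) = true := by decide +kernel

theorem exists_IL {π : Equiv.Perm Pt} (hπ : π ∈ AGL) (h2 : π * π = 1) :
    ∃ p ∈ IL, p.1 = cod π := by
  have := allA_sound il_aux hπ
  simp only [im_iff, all8, anyL_iff, Nat.beq_eq, ap_val, ap_cod] at this
  exact this fun x => congrArg Fin.val (DFunLike.congr_fun h2 x)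

/-- The mask of a pair. -/
def m2 (i j : ℕ) : ℕ := Nat.xor (Nat.shiftLeft 1 i) (Nat.shiftLeft 1 j)

theorem ofM_m2 : ∀ i j : Pt, ofM (m2 i.1 j.1) = e i + e j := by decide +kernel

theorem m2_lt : ∀ i j : Pt, m2 i.1 j.1 < 256 := by decide +kernel

theorem xor_lt {a b : ℕ} (ha : a < 256) (hb : b < 256) : Nat.xor a b < 256 :=
  Nat.xor_lt_two_pow (n := 8) ha hb

theorem ofM_xor' (a b : ℕ) : ofM (Nat.xor a b) = ofM a + ofM b := ofM_xor a b

theorem ofM_inj {a b : ℕ} (ha : a < 256) (hb : b < 256) (h : ofM a = ofM b) : a = b := by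
  rw [← toM_ofM a ha, h, toM_ofM b hb]

theorem ofM_zero : ofM 0 = 0 := by decide

/-- The value of the commutator map on a pair. -/
def cv (c i j : ℕ) : ℕ := Nat.xor (m2 i j) (m2 (apN c i) (apN c j))

theorem cv_lt (c : ℕ) (i j : Pt) : cv c i.1 j.1 < 256 := xor_lt (m2_lt i j) (m2_lt (ap c i) (ap c j))

theorem ofM_cv (π : Equiv.Perm Pt) (i j : Pt) :
    ofM (cv (cod ⇑π⁻¹) i.1 j.1) = (e i + e j) + (e i + e j) ∘ π := by
  rw [cv, ofM_xor', ofM_m2, ap_val, ap_val, ofM_m2, ap_cod, Pi.add_comp, e_comp, e_comp]

theorem small_aux : allA (fun c => im (allN 8 fun x => Nat.beq (apN c (apN c (apN c (apN c x)))) x)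
    (im (anyN 8 fun x => nq (apN c x) x) (anyN 8 fun i => anyN 8 fun j =>
      Nat.beq (m2 (apN c (apN c i)) (apN c (apN c j))) (m2 i j) && nq (cv c i j) 0 &&
      anyN 8 fun k => anyN 8 fun l =>
        Nat.beq (m2 (apN c (apN c k)) (apN c (apN c l))) (m2 k l) && nq (cv c k l) 0 &&
          nq (cv c i j) (cv c k l)))) = true := by decide +kernel

theorem small {π : Equiv.Perm Pt} (hπ : π ∈ AGL) (h4 : π ^ 4 = 1) (h1 : π ≠ 1) :
    ∃ a ∈ Ev, ∃ b ∈ Ev, (a ∘ π) ∘ π = a ∧ (b ∘ π) ∘ π = b ∧ a + a ∘ π ≠ 0 ∧ b + b ∘ π ≠ 0 ∧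
      a + a ∘ π ≠ b + b ∘ π := by
  have := allA_sound small_aux (inv_mem hπ)
  simp only [im_iff, all8, any8, Nat.beq_eq, ap_val, ap_cod, Bool.and_eq_true, nq_iff] at this
  obtain ⟨i, j, ⟨a1, a2⟩, k, l, ⟨a3, a4⟩, a5⟩ := this (fun x => congrArg Fin.val
    (DFunLike.congr_fun (show π⁻¹ * (π⁻¹ * (π⁻¹ * π⁻¹)) = 1 by
      rw [← inv_one, ← h4]; group) x)) (by
    by_contra! h
    exact h1 (inv_eq_one.1 (Equiv.ext fun x => Fin.ext (h x))))
  have key : ∀ {i j : Pt}, m2 (π⁻¹ (π⁻¹ i)).1 (π⁻¹ (π⁻¹ j)).1 = m2 i.1 j.1 →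
      ((e i + e j) ∘ π) ∘ π = e i + e j := fun h => by
    rw [Pi.add_comp, Pi.add_comp, e_comp, e_comp, e_comp, e_comp, ← ofM_m2, h, ofM_m2]
  refine ⟨_, pair_mem i j, _, pair_mem k l, key a1, key a3, ?_, ?_, ?_⟩ <;> simp only [← ofM_cv]
  · exact fun h => a2 (ofM_inj (cv_lt _ _ _) (by decide) (h.trans ofM_zero.symm))
  · exact fun h => a4 (ofM_inj (cv_lt _ _ _) (by decide) (h.trans ofM_zero.symm))
  · exact fun h => a5 (ofM_inj (cv_lt _ _ _) (cv_lt _ _ _) h)

theorem ev_iff : ∀ m < 256, tb EVM m = true ↔ ofM m ∈ Ev := by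
  simp only [mem_Ev]
  decide +kernel

theorem ofM_eq_iff {m : ℕ} {i j : Pt} : ofM m i = ofM m j ↔ tb m i.1 = tb m j.1 := by
  simp only [ofM, tb_eq]
  cases m.testBit i <;> cases m.testBit j <;> simp

theorem par_aux : allL IL (fun p => allN 256 fun m =>
    im (allN 8 fun i => xor (tb m i) (tb m (apN p.1 i))) (tb EVM m)) = true := by decide +kernel

theorem mem_Ev_of_alt {π : Equiv.Perm Pt} (hπ : π ∈ AGL) (h2 : π * π = 1) {s : Vec}
    (h : s + s ∘ π = 1) : s ∈ Ev := by
  obtain ⟨p, hp, e⟩ := exists_IL hπ h2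
  induction s using forall_vec with | _ m hm => ?_
  refine (ev_iff m hm).1 (im_iff.1 (allN_iff.1 (allL_iff.1 par_aux p hp) m hm) (all8.2 fun i => ?_))
  rw [e, ap_val, ap_cod, Bool.xor_iff_ne, Ne, ← ofM_eq_iff]
  intro h1
  have := congrFun h i
  rw [Pi.add_apply, Function.comp, ← h1, CharTwo.add_self_eq_zero] at this
  exact zero_ne_one this

theorem odd_tr {s : Vec} (h : s ∉ Ev) : s + s ∘ tr 1 ≠ 0 ∧ s + s ∘ tr 1 ≠ 1 := by
  have : ∀ m < 256, par (ofM m) ≠ 0 → ofM m + ofM m ∘ tr 1 ≠ 0 ∧ ofM m + ofM m ∘ tr 1 ≠ 1 := by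
    decide +kernel
  exact forall_vec (P := fun s => par s ≠ 0 → s + s ∘ tr 1 ≠ 0 ∧ s + s ∘ tr 1 ≠ 1) this s h

/-- The class of a mask. -/
def cls (m : ℕ) : ℕ := (CT >>> (4 * m)) % 16

/-- Representatives of the classes. -/
def rep (k : ℕ) : ℕ := [0, 1, 3, 7, 23, 248, 252, 254, 255, 15].getD k 0

theorem wl_aux : ∀ m < 256, cls m < 10 ∧ OkC (WL.getD m 0) ∧
    ofM m = ofM (rep (cls m)) ∘ ap (WL.getD m 0) := by decide +kernel

theorem cls_one : ∀ m < 256, (cls m = 8 → ofM m = 1) ∧ (cls m = 1 → ∃ i, ofM m = e i) ∧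
    (cls m = 7 → ∃ i, ofM m = e i + 1) := by decide +kernel

theorem three_aux : allL IL (fun p => im (allN 8 fun x => nq (apN p.1 x) x)
    (anyN 8 fun i => anyN 8 fun j => nq (cv p.1 i j) 0 && anyN 8 fun k => anyN 8 fun l =>
      nq (cv p.1 k l) 0 && nq (cv p.1 k l) (cv p.1 i j) && anyN 8 fun r => anyN 8 fun s =>
        nq (cv p.1 r s) 0 && nq (cv p.1 r s) (cv p.1 i j) && nq (cv p.1 r s) (cv p.1 k l) &&
          nq (cv p.1 r s) (Nat.xor (cv p.1 i j) (cv p.1 k l)))) = true := by decide +kernel

theorem three {π : Equiv.Perm Pt} (hπ : π ∈ AGL) (h2 : π * π = 1) (h : ∀ x, π x ≠ x) :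
    ∃ a ∈ Ev, ∃ b ∈ Ev, ∃ c ∈ Ev, a + a ∘ π ≠ 0 ∧ b + b ∘ π ≠ 0 ∧ b + b ∘ π ≠ a + a ∘ π ∧
      c + c ∘ π ≠ 0 ∧ c + c ∘ π ≠ a + a ∘ π ∧ c + c ∘ π ≠ b + b ∘ π ∧
      c + c ∘ π ≠ (a + a ∘ π) + (b + b ∘ π) := by
  obtain ⟨p, hp, e1⟩ := exists_IL hπ h2
  have := allL_iff.1 three_aux p hp
  simp only [im_iff, all8, any8, ap_val, e1, ap_cod, Bool.and_eq_true, nq_iff] at this
  obtain ⟨i, j, a1, k, l, ⟨a2, a3⟩, r, s, ⟨⟨a4, a5⟩, a6⟩, a7⟩ :=
    this fun x => Fin.val_ne_of_ne (h x)
  rw [← inv_eq_of_mul_eq_one_right h2] at a1 a2 a3 a4 a5 a6 a7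
  refine ⟨_, pair_mem i j, _, pair_mem k l, _, pair_mem r s, ?_, ?_, ?_, ?_, ?_, ?_, ?_⟩ <;>
    simp only [← ofM_cv]
  · exact fun h => a1 (ofM_inj (cv_lt _ _ _) (by decide) (h.trans ofM_zero.symm))
  · exact fun h => a2 (ofM_inj (cv_lt _ _ _) (by decide) (h.trans ofM_zero.symm))
  · exact fun h => a3 (ofM_inj (cv_lt _ _ _) (cv_lt _ _ _) h)
  · exact fun h => a4 (ofM_inj (cv_lt _ _ _) (by decide) (h.trans ofM_zero.symm))
  · exact fun h => a5 (ofM_inj (cv_lt _ _ _) (cv_lt _ _ _) h)
  · exact fun h => a6 (ofM_inj (cv_lt _ _ _) (cv_lt _ _ _) h)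
  · exact fun h => a7 (ofM_inj (cv_lt _ _ _) (xor_lt (cv_lt _ _ _) (cv_lt _ _ _))
      (h.trans (ofM_xor' _ _).symm))

theorem exists_p1 : ∃ π ∈ AGL, π * π = 1 ∧
    (∀ s : Vec, s + s ∘ π = 0 ∨ s + s ∘ π = ofM 3 ∨ s + s ∘ π = ofM 12 ∨ s + s ∘ π = ofM 15) ∧
    ofM 3 ∘ π = ofM 3 ∧ ofM 15 ∘ π = ofM 15 ∧ (e 0 + e 4) + (e 0 + e 4) ∘ π = ofM 3 ∧
    (e 0 + e 2) + (e 0 + e 2) ∘ π = ofM 15 := by
  obtain ⟨π, h, e1⟩ := (show OkC 16434369 by decide +kernel).exists
  refine ⟨π, h, Equiv.ext fun x => ?_, ?_⟩
  · rw [Equiv.Perm.mul_apply, e1]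
    revert x
    decide
  · rw [e1]
    exact ⟨forall_vec (by decide +kernel), by decide +kernel⟩

theorem fano {x y c : Pt} (h1 : x ≠ 0) (h2 : y ≠ 0) (h3 : x ≠ y) (h4 : c ≠ 0) (h5 : c ≠ x)
    (h6 : c ≠ y) (h7 : c ≠ x ^^^ y) : ∃ π ∈ AGL, π 0 = 0 ∧ π x = x ∧ π y = y ∧ π c ≠ c := by
  have a1 : ∀ c ∈ TL, OkC c := by decide +kernel
  have a2 : ∀ x y c : Pt, x ≠ 0 → y ≠ 0 → x ≠ y → c ≠ 0 → c ≠ x → c ≠ y → c ≠ x ^^^ y →
    ∃ h ∈ TL, ap h 0 = 0 ∧ ap h x = x ∧ ap h y = y ∧ ap h c ≠ c := by decide +kernel
  obtain ⟨k, hk, e1⟩ := a2 x y c h1 h2 h3 h4 h5 h6 h7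
  obtain ⟨π, h, e2⟩ := (a1 k hk).exists
  exact ⟨π, h, by rwa [e2]⟩

theorem sum_vec (g : Vec → ℕ) : ∑ s, g s = sumN 256 fun m => g (ofM m) := by
  rw [sumN_eq]
  exact Finset.sum_bij' (fun s _ => toM s) (fun m _ => ofM m)
    (fun s _ => Finset.mem_range.2 (ofM_toM s).2) (fun _ _ => Finset.mem_univ _)
    (fun s _ => (ofM_toM s).1) (fun m hm => toM_ofM m (Finset.mem_range.1 hm))
    fun s _ => by rw [(ofM_toM s).1]

/-- First count. -/
noncomputable def f2 (bs x : ℕ) : ℕ := sumN 256 fun y =>
  cond (tb bs (cls y)) (cond (tb bs (cls (Nat.xor x y))) 1 0) 0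

/-- Second count. -/
noncomputable def f3 (bs x : ℕ) : ℕ := sumN 256 fun y =>
  cond (tb bs (cls y)) (f2 bs (Nat.xor x y)) 0

theorem cnst_aux : allN 1024 (fun bs => im (tb bs 8 && !tb bs 0 && !tb bs 2 && !tb bs 9)
    (im (allN 8 fun k => im (tb bs k) (Nat.beq (f2 bs (rep k)) (f2 bs 255) &&
      Nat.beq (f3 bs (rep k)) (f3 bs 255)))
      (Nat.beq bs 256 || Nat.beq bs 258 || Nat.beq bs 384))) = true := by decide +kernel

/-- Number of elements of a set of masks. -/
noncomputable def pcnt (O : ℕ) : ℕ := sumN 256 fun m => cond (tb O m) 1 0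

theorem fx_aux : allL IL (fun p => allN 256 fun m =>
    im (allN 8 fun i => !xor (tb m i) (tb m (apN p.1 i))) (tb p.2 m)) = true := by decide +kernel

/-- The second map preserves the pairs interchanged by the first. -/
noncomputable def cp (c d : ℕ) : Bool := allN 8 fun x =>
  Nat.beq (apN c x) x || Nat.beq (apN d x) x || Nat.beq (apN d x) (apN c x)

theorem quad_aux : allL IL (fun p => allL IL fun q => cp p.1 q.1 || anyN 8 fun x => anyN 8 fun y =>
    nq (cv p.1 (apN q.1 x) (apN q.1 y)) (cv p.1 x y)) = true := by decide +kernel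

theorem off1_aux : allL IL (fun p => im (anyN 8 fun x => nq (apN p.1 x) x)
    (Nat.ble (pcnt p.2) 64 && frc (Nat.land p.2 EVM) (fun O => Nat.ble (pcnt O) 32) &&
      im (allN 8 fun x => nq (apN p.1 x) x) (Nat.ble (pcnt p.2) 16))) = true := by decide +kernel

/-- The code of a translation. -/
def trc (a : ℕ) : ℕ := cdN a 1 2 4

theorem off2_aux : allL IL (fun p => im (nq p.1 16434824) (allL IL fun q =>
    im (cp p.1 q.1 && cp q.1 p.1 && nq q.1 16434824 && nq p.1 q.1)
      (frc (Nat.land p.2 q.2) fun O => Nat.ble (pcnt O) 32 &&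
        frc (Nat.land O EVM) (fun O' => Nat.ble (pcnt O') 16) &&
        (Nat.ble (cntL IL fun r => cp p.1 r.1 && cp q.1 r.1) 7 ||
          anyN 8 fun a => nq a 0 && frc (trc a) fun t =>
            allL IL fun r => im (cp p.1 r.1 && cp q.1 r.1) (cp t r.1))))) = true := by
  decide +kernel

theorem off3_aux : allN 8 (fun a => im (nq a 0) (frc (trc a) fun t =>
    Nat.ble (cntL IL fun r => cp t r.1) 8)) = true := by decide +kernel

end Cfsg.Lib.W8
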