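import Cfsg.Agent.W8.Comb
import Cfsg.Agent.Trans.SylowIn

/-!
Groups with a frame: a monomial subgroup built from sign changes and affine permutations.
-/

set_option autoImplicit false

namespace Cfsg.Lib.W8

/-- The properties of the Weyl group of type `E₈` which are used. -/
structure Fr {W : Type*} [Group W] (W0 : Subgroup W) (σ : Vec → W) (P : Equiv.Perm Pt → W) :
    Prop where
  σ_add : ∀ a b, σ (a + b) = σ a * σ b
  σ_inj : Function.Injective σ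
  P_mul : ∀ π ∈ AGL, ∀ ρ ∈ AGL, P (π * ρ) = P π * P ρ
  σ_P : ∀ π ∈ AGL, ∀ m, σ m * P π = P π * σ (m ∘ π)
  idx : ∀ a b, a ∉ W0 → b ∉ W0 → a * b ∈ W0
  σ_mem : ∀ m, σ m ∈ W0 ↔ m ∈ Ev
  P_mem : ∀ π ∈ AGL, P π ∈ W0
  cen : ∀ w, w * σ 1 = σ 1 * w
  nrm : ∀ w, (∀ m ∈ Ev, ∃ m', w * σ m * w⁻¹ = σ m') → ∃ m, ∃ π ∈ AGL, w = σ m * P π
  card : Nat.card W = 696729600
  diag : ∀ π ∈ AGL, π * π = 1 → ∃ h d, h * P π * h⁻¹ = σ d ∧
    ∀ m : Vec, (∀ i, π i ≠ i → m i = 0) → h * σ m = σ m * h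
  nc : ∀ w, ∀ a ≠ 0, (∀ m : Vec, m ∘ tr a = m → ∃ m', w⁻¹ * σ m * w = σ m') →
    ¬ ∃ m', w⁻¹ * P (tr a) * w = σ m'

theorem comp_inv_comp (m : Vec) (π : Equiv.Perm Pt) : (m ∘ ⇑π⁻¹) ∘ π = m :=
  funext fun i => congrArg m (π.symm_apply_apply i)

theorem comp_comp_inv (m : Vec) (π : Equiv.Perm Pt) : (m ∘ π) ∘ ⇑π⁻¹ = m :=
  funext fun i => congrArg m (π.apply_symm_apply i)

theorem comp_mem_Ev {m : Vec} {π : Equiv.Perm Pt} : m ∘ π ∈ Ev ↔ m ∈ Ev := by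
  rw [mem_Ev, mem_Ev, par_comp]

theorem add_mem_Ev {a b : Vec} (ha : a ∉ Ev) (hb : b ∉ Ev) : a + b ∈ Ev := by
  rw [mem_Ev] at *
  rw [par_add, (z2_cases _).resolve_left ha, (z2_cases _).resolve_left hb]
  rfl

theorem add_comp_mem_Ev (a : Vec) (π : Equiv.Perm Pt) : a + a ∘ π ∈ Ev := by
  rw [mem_Ev, par_add, par_comp, CharTwo.add_self_eq_zero]

theorem e_notMem (i : Pt) : e i ∉ Ev := by
  rw [mem_Ev, par_e]
  decide

theorem vec_add_cancel (a b : Vec) : a + (a + b) = b := by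
  rw [← add_assoc, vec_add_self, zero_add]

namespace Fr

variable {W : Type*} [Group W] {W0 : Subgroup W} {σ : Vec → W} {P : Equiv.Perm Pt → W}
  (F : Fr W0 σ P)
include F

theorem σ_zero : σ 0 = 1 := by
  have := F.σ_add 0 0
  rwa [add_zero, left_eq_mul] at this

theorem σ_mul_self (m : Vec) : σ m * σ m = 1 := by rw [← F.σ_add, vec_add_self, F.σ_zero]

theorem σ_inv (m : Vec) : (σ m)⁻¹ = σ m := inv_eq_of_mul_eq_one_right (F.σ_mul_self m)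

theorem σ_comm (a b : Vec) : σ a * σ b = σ b * σ a := by rw [← F.σ_add, ← F.σ_add, add_comm]

theorem σ_conj (a b : Vec) : σ a * σ b * (σ a)⁻¹ = σ b := by
  rw [F.σ_comm, mul_inv_cancel_right]

theorem P_one : P 1 = 1 := by
  have := F.P_mul 1 (one_mem _) 1 (one_mem _)
  rwa [mul_one, left_eq_mul] at this

theorem P_inv {π : Equiv.Perm Pt} (hπ : π ∈ AGL) : P π⁻¹ = (P π)⁻¹ :=
  eq_inv_of_mul_eq_one_left (by rw [← F.P_mul _ (inv_mem hπ) _ hπ, inv_mul_cancel, F.P_one])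

theorem P_σ {π : Equiv.Perm Pt} (hπ : π ∈ AGL) (m : Vec) : P π * σ m = σ (m ∘ ⇑π⁻¹) * P π := by
  rw [F.σ_P _ hπ, comp_inv_comp]

theorem P_conj {π : Equiv.Perm Pt} (hπ : π ∈ AGL) (m : Vec) :
    P π * σ m * (P π)⁻¹ = σ (m ∘ ⇑π⁻¹) := by rw [F.P_σ hπ, mul_inv_cancel_right]

theorem conj {π : Equiv.Perm Pt} (hπ : π ∈ AGL) (m a : Vec) :
    σ m * P π * σ a * (σ m * P π)⁻¹ = σ (a ∘ ⇑π⁻¹) := by
  rw [← F.σ_conj m (a ∘ ⇑π⁻¹), ← F.P_conj hπ]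
  group

theorem mul_eq {π ρ : Equiv.Perm Pt} (hπ : π ∈ AGL) (hρ : ρ ∈ AGL) (a b : Vec) :
    σ a * P π * (σ b * P ρ) = σ (a + b ∘ ⇑π⁻¹) * P (π * ρ) := by
  rw [F.σ_add, F.P_mul _ hπ _ hρ, mul_assoc, mul_assoc, ← mul_assoc (P π), F.P_σ hπ, mul_assoc]

theorem eq_iff {π ρ : Equiv.Perm Pt} (hπ : π ∈ AGL) (hρ : ρ ∈ AGL) {a b : Vec}
    (h : σ a * P π = σ b * P ρ) : a = b ∧ π = ρ := by
  obtain rfl : π = ρ := inv_injective (eq_of_pairs fun i j => F.σ_inj (by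
    rw [← F.conj hπ a, h, F.conj hρ]))
  exact ⟨F.σ_inj (mul_right_cancel h), rfl⟩

theorem eq_iff' {π : Equiv.Perm Pt} (hπ : π ∈ AGL) {a b : Vec} (h : σ a * P π = σ b) :
    a = b ∧ π = 1 := F.eq_iff hπ (one_mem _) (by rw [h, F.P_one, mul_one])

theorem conj_mem (w : W) {x : W} (hx : x ∈ W0) : w * x * w⁻¹ ∈ W0 := by
  by_cases hw : w ∈ W0
  · exact mul_mem (mul_mem hw hx) (inv_mem hw)
  · exact F.idx _ _ (by rwa [W0.mul_mem_cancel_right hx]) (by rwa [inv_mem_iff])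

theorem conj_mem_iff (w : W) {x : W} : w * x * w⁻¹ ∈ W0 ↔ x ∈ W0 :=
  ⟨fun h => by simpa [mul_assoc] using F.conj_mem w⁻¹ h, F.conj_mem w⟩

theorem sq_mem (w : W) : w * w ∈ W0 := by
  by_cases hw : w ∈ W0
  exacts [mul_mem hw hw, F.idx _ _ hw hw]

theorem one_mem : σ 1 ∈ W0 := (F.σ_mem _).2 one_mem_Ev

theorem mul_mem_iff {π : Equiv.Perm Pt} (hπ : π ∈ AGL) {m : Vec} : σ m * P π ∈ W0 ↔ m ∈ Ev := by
  rw [W0.mul_mem_cancel_right (F.P_mem _ hπ), F.σ_mem]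

theorem cE {w : W} (h : ∀ a ∈ Ev, w * σ a * w⁻¹ = σ a) : ∃ m, w = σ m := by
  obtain ⟨m, π, hπ, rfl⟩ := F.nrm w fun a ha => ⟨a, h a ha⟩
  obtain rfl : π = 1 := inv_injective (eq_of_pairs fun i j => F.σ_inj (by
    rw [← F.conj hπ m, h _ (pair_mem i j)]; rfl))
  exact ⟨m, by rw [F.P_one, mul_one]⟩

theorem cW {w : W} (h : ∀ x ∈ W0, w * x * w⁻¹ = x) : w = 1 ∨ w = σ 1 := by
  obtain ⟨m, rfl⟩ := F.cE fun a ha => h _ ((F.σ_mem a).2 ha)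
  refine (const_of_tr fun a => F.σ_inj ?_).imp (fun e => by rw [e, F.σ_zero]) (congrArg σ)
  have := h _ (F.P_mem _ (tr_mem a))
  rwa [mul_inv_eq_iff_eq_mul, F.σ_P _ (tr_mem a), mul_right_inj] at this

theorem two (w : W) (hw : w ^ 8 = 1) : ∃ h m, ∃ π ∈ AGL, h * w * h⁻¹ = σ m * P π := by
  have : Fact (Nat.Prime 2) := ⟨Nat.prime_two⟩
  have : Finite W := Nat.finite_of_card_ne_zero (by rw [F.card]; decide)
  let M : Subgroup W :=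
    { carrier := {x | ∃ m, ∃ π ∈ AGL, x = σ m * P π}
      one_mem' := ⟨0, 1, AGL.one_mem, by rw [F.σ_zero, F.P_one, mul_one]⟩
      mul_mem' := by
        rintro _ _ ⟨a, π, hπ, rfl⟩ ⟨b, ρ, hρ, rfl⟩
        exact ⟨_, _, mul_mem hπ hρ, F.mul_eq hπ hρ a b⟩
      inv_mem' := by
        rintro _ ⟨a, π, hπ, rfl⟩
        exact ⟨_, _, inv_mem hπ, by rw [mul_inv_rev, F.σ_inv, ← F.P_inv hπ, F.P_σ (inv_mem hπ)]⟩ }
  have h1 : Nat.card (Vec × AGL) = Nat.card M :=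
    Nat.card_eq_of_bijective (fun t => ⟨σ t.1 * P t.2, t.1, t.2, t.2.2, rfl⟩)
      ⟨fun a b h => let e := F.eq_iff a.2.2 b.2.2 (congrArg Subtype.val h)
        Prod.ext e.1 (Subtype.ext e.2), fun ⟨_, m, π, hπ, e⟩ => ⟨(m, ⟨π, hπ⟩), Subtype.ext e.symm⟩⟩
  have h2 := Trans.card_mul_relIndex (le_top (a := M))
  rw [← h1, Nat.card_prod, card_AGL, Subgroup.card_top, F.card, Nat.card_eq_fintype_card,
    show Fintype.card Vec = 256 by decide +kernel] at h2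
  obtain ⟨T, hT⟩ := Trans.exists_isSylowIn (p := 2) M
  obtain ⟨h, -, h3⟩ := (hT.trans le_top (by omega)).exists_cj_le (Q := Subgroup.zpowers w)
    (IsPGroup.of_card_dvd_pow (n := 3) (by
      rw [Nat.card_zpowers]; exact orderOf_dvd_of_pow_eq_one hw)) le_top
  exact ⟨h, hT.le (Trans.cj_le_iff.1 h3 w (Subgroup.mem_zpowers w))⟩

theorem two' {w : W} (hw : w ^ 8 = 1) : ∃ h ∈ W0, ∃ m, ∃ π ∈ AGL, h * w * h⁻¹ = σ m * P π := by
  obtain ⟨h, m, π, hπ, e1⟩ := F.two w hw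
  by_cases hh : h ∈ W0
  · exact ⟨h, hh, m, π, hπ, e1⟩
  · refine ⟨σ (e 0) * h, F.idx _ _ (mt (F.σ_mem _).1 (e_notMem 0)) hh, e 0 + m + e 0 ∘ ⇑π⁻¹, π, hπ, ?_⟩
    calc _ = σ (e 0) * (h * w * h⁻¹) * (σ (e 0))⁻¹ := by group
      _ = _ := by rw [e1, F.σ_inv, F.σ_add, F.σ_add, mul_assoc _ _ (P π), ← F.P_σ hπ]; group

theorem inv' {w : W} (hw : w * w = 1) : ∃ h ∈ W0, ∃ m, h * w * h⁻¹ = σ m := by
  suffices ∃ h m, h * w * h⁻¹ = σ m by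
    obtain ⟨h, m, e1⟩ := this
    by_cases hh : h ∈ W0
    · exact ⟨h, hh, m, e1⟩
    · refine ⟨σ (e 0) * h, F.idx _ _ (mt (F.σ_mem _).1 (e_notMem 0)) hh, m, ?_⟩
      rw [← F.σ_conj (e 0) m, ← e1]
      group
  obtain ⟨h, m, π, hπ, e1⟩ := F.two w (by
    rw [pow_mul w 2 4, sq, hw, one_pow])
  obtain ⟨e2, e3⟩ := F.eq_iff' (b := 0) (mul_mem hπ hπ) (by
    rw [← F.mul_eq hπ hπ m m, ← e1, F.σ_zero]
    calc _ = h * (w * w) * h⁻¹ := by group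
      _ = 1 := by rw [hw]; group)
  rw [inv_eq_of_mul_eq_one_right e3] at e2
  obtain ⟨k, d, e4, e5⟩ := F.diag π hπ e3
  obtain ⟨c, hc⟩ : ∃ c : Vec, ∀ i, c i = if i < π i then m i else 0 := ⟨_, fun _ => rfl⟩
  have e6 := e5 (c + m + c ∘ π) fun i hi => by
    have a1 : π (π i) = i := DFunLike.congr_fun e3 i
    have a2 : m i + m (π i) = 0 := congrFun e2 i
    simp only [Pi.add_apply, Function.comp, hc, a1]
    rcases lt_or_gt_of_ne hi with h | h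
    · rw [if_neg h.not_gt, if_pos h, zero_add, a2]
    · rw [if_pos h, if_neg h.not_gt, add_zero, CharTwo.add_self_eq_zero]
  refine ⟨k * σ c * h, c + m + c ∘ π + d, ?_⟩
  calc _ = k * (σ c * (h * w * h⁻¹) * (σ c)⁻¹) * k⁻¹ := by group
    _ = k * (σ (c + m + c ∘ π) * P π) * k⁻¹ := by
      rw [e1, F.σ_inv, F.σ_add, F.σ_add, mul_assoc _ _ (σ c), mul_assoc _ _ (σ c), F.P_σ hπ,
        inv_eq_of_mul_eq_one_right e3]
      group
    _ = _ := by rw [F.σ_add _ d, ← e4, ← mul_assoc, e6]; group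

theorem neg_mem {w : W} (hw : w * w = σ 1) : w ∈ W0 := by
  obtain ⟨h, m, π, hπ, e1⟩ := F.two w (by
    rw [pow_mul w 2 4, sq, hw, pow_mul _ 2 2, sq (σ 1), F.σ_mul_self, one_pow])
  obtain ⟨e2, e3⟩ := F.eq_iff' (b := 1) (mul_mem hπ hπ) (by
    rw [← F.mul_eq hπ hπ m m, ← e1]
    calc _ = h * (w * w) * h⁻¹ := by group
      _ = _ := by rw [hw, F.cen, mul_inv_cancel_right])
  rw [inv_eq_of_mul_eq_one_right e3] at e2
  rw [← F.conj_mem_iff h, e1, F.mul_mem_iff hπ]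
  exact mem_Ev_of_alt hπ e3 e2

end Fr

end Cfsg.Lib.W8
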