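import Cfsg.Agent.W8.Fr
import Mathlib.LinearAlgebra.Matrix.DotProduct
import Mathlib.Algebra.Module.Equiv.Basic
import Mathlib.Tactic.LinearCombination
import Mathlib.Tactic.Linarith
import Mathlib.Tactic.Abel

/-!
The lattice `E₈` obtained from the extended Hamming code, and its group of isometries.
-/

set_option autoImplicit false

namespace Cfsg.Lib.W8

/-- Integral vectors. -/
abbrev ZV : Type := Pt → ℤ

/-- The lattice. -/
def Lam : Submodule ℤ ZV where
  carrier := {v | ∀ x y z, Even (v x + v y + v z + v (x ^^^ y ^^^ z))}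
  add_mem' := fun {a b} ha hb x y z => by
    obtain ⟨r, hr⟩ := (ha x y z).add (hb x y z)
    exact ⟨r, by simp only [Pi.add_apply]; linear_combination hr⟩
  zero_mem' := fun _ _ _ => by simp
  smul_mem' := fun c a ha x y z => by
    obtain ⟨r, hr⟩ := (ha x y z).mul_left c
    exact ⟨r, by simp only [Pi.smul_apply, smul_eq_mul]; linear_combination hr⟩

theorem mem_Lam {v : ZV} : v ∈ Lam ↔ ∀ x y z, Even (v x + v y + v z + v (x ^^^ y ^^^ z)) := Iff.rfl

theorem mem_Lam_of {v : ZV} (h : Even (v 0 + v 1 + v 2 + v 3) ∧ Even (v 0 + v 1 + v 4 + v 5) ∧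
    Even (v 0 + v 2 + v 4 + v 6) ∧ Even (v 1 + v 2 + v 4 + v 7)) : v ∈ Lam := by
  have : ∀ s : Vec, s 0 + s 1 + s 2 + s 3 = 0 ∧ s 0 + s 1 + s 4 + s 5 = 0 ∧
      s 0 + s 2 + s 4 + s 6 = 0 ∧ s 1 + s 2 + s 4 + s 7 = 0 →
      ∀ x y z, s x + s y + s z + s (x ^^^ y ^^^ z) = 0 := by decide +kernel
  simp only [mem_Lam, ← ZMod.intCast_eq_zero_iff_even, Int.cast_add] at h ⊢
  exact this (fun i => (v i : ZMod 2)) h

theorem mem_of_even {x y : ZV} (hx : x ∈ Lam) (h : ∀ i, Even (y i - x i)) : y ∈ Lam :=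
  fun a b c => by
    obtain ⟨r, hr⟩ := (hx a b c).add ((((h a).add (h b)).add (h c)).add (h (a ^^^ b ^^^ c)))
    exact ⟨r, by linear_combination hr⟩

theorem four_dvd (x : Lam) : 4 ∣ x.1 ⬝ᵥ x.1 := by
  obtain ⟨x, hx⟩ := x
  obtain ⟨a, ha⟩ : Even (x 0 + x 1 + x 2 + x 3) := hx 0 1 2
  obtain ⟨b, hb⟩ : Even (x 0 + x 1 + x 4 + x 5) := hx 0 1 4
  obtain ⟨c, hc⟩ : Even (x 0 + x 2 + x 4 + x 6) := hx 0 2 4
  obtain ⟨d, hd⟩ : Even (x 1 + x 2 + x 4 + x 7) := hx 1 2 4
  refine ⟨a ^ 2 + b ^ 2 + c ^ 2 + d ^ 2 - a * (x 0 + x 1 + x 2) - b * (x 0 + x 1 + x 4) -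
    c * (x 0 + x 2 + x 4) - d * (x 1 + x 2 + x 4) + x 0 ^ 2 + x 1 ^ 2 + x 2 ^ 2 + x 4 ^ 2 +
    x 0 * x 1 + x 0 * x 2 + x 0 * x 4 + x 1 * x 2 + x 1 * x 4 + x 2 * x 4, ?_⟩
  simp only [dotProduct, Fin.sum_univ_eight]
  rw [eq_sub_of_add_eq' ha, eq_sub_of_add_eq' hb, eq_sub_of_add_eq' hc, eq_sub_of_add_eq' hd]
  ring

/-- Half the dot product. -/
def hd (x y : ZV) : ℤ := x ⬝ᵥ y / 2

theorem two_hd (x y : Lam) : 2 * hd x.1 y.1 = x.1 ⬝ᵥ y.1 := by
  obtain ⟨a, ha⟩ := four_dvd x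
  obtain ⟨b, hb⟩ := four_dvd y
  obtain ⟨c, hc⟩ := four_dvd (x + y)
  rw [Submodule.coe_add, add_dotProduct, dotProduct_add, dotProduct_add, ha, hb,
    dotProduct_comm y.1] at hc
  unfold hd
  omega

theorem hd_add (x y z : Lam) : hd (x + y).1 z.1 = hd x.1 z.1 + hd y.1 z.1 :=
  mul_left_cancel₀ two_ne_zero (by
    rw [mul_add, two_hd, two_hd, two_hd, Submodule.coe_add, add_dotProduct])

theorem hd_smul (c : ℤ) (x z : Lam) : hd (c • x).1 z.1 = c * hd x.1 z.1 :=
  mul_left_cancel₀ two_ne_zero (by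
    rw [mul_left_comm, two_hd, two_hd, Submodule.coe_smul, smul_dotProduct, smul_eq_mul])

/-- The frame. -/
def fv (i : Pt) : ZV := fun j => if j = i then 2 else 0

theorem dot_fv (x : ZV) (i : Pt) : x ⬝ᵥ fv i = 2 * x i := by
  simp [dotProduct, fv, mul_comm]

/-- The frame as elements of the lattice. -/
def fr (i : Pt) : Lam := ⟨fv i, mem_of_even Lam.zero_mem fun j => by
  simp only [fv, Pi.zero_apply]
  split_ifs <;> norm_num⟩

theorem fr_dot (i : Pt) : (fr i).1 ⬝ᵥ (fr i).1 = 4 := (dot_fv _ i).trans (by simp [fr, fv])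

/-- The group of isometries. -/
def WE : Subgroup (Lam ≃ₗ[ℤ] Lam) where
  carrier := {g | ∀ x y, (g x).1 ⬝ᵥ (g y).1 = x.1 ⬝ᵥ y.1}
  one_mem' := fun _ _ => rfl
  mul_mem' := fun {_ _} ha hb x y => (ha _ _).trans (hb x y)
  inv_mem' := fun {a} ha x y => by
    rw [← ha]
    exact congrArg₂ (fun u v : Lam => u.1 ⬝ᵥ v.1) (a.apply_symm_apply x) (a.apply_symm_apply y)

theorem WE_dot (g : WE) (x y : Lam) : (g.1 x).1 ⬝ᵥ (g.1 y).1 = x.1 ⬝ᵥ y.1 := g.2 x y

theorem WE_mul (g h : WE) (x : Lam) : (g * h).1 x = g.1 (h.1 x) := rfl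

theorem WE_apply_inv (g : WE) (x : Lam) : g.1 (g⁻¹.1 x) = x := g.1.apply_symm_apply x

theorem WE_inv_apply (g : WE) (x : Lam) : g⁻¹.1 (g.1 x) = x := g.1.symm_apply_apply x

theorem WE_ext' {g h : WE} (H : ∀ x i, (g.1 x).1 i = (h.1 x).1 i) : g = h :=
  Subtype.ext (LinearEquiv.ext fun x => Subtype.ext (funext (H x)))

theorem WE_ext {g h : WE} (H : ∀ i, g.1 (fr i) = h.1 (fr i)) : g = h := by
  rw [← inv_mul_eq_one]
  refine WE_ext' fun x i => mul_left_cancel₀ two_ne_zero ?_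
  rw [← dot_fv, ← dot_fv]
  change _ ⬝ᵥ (fr i).1 = x.1 ⬝ᵥ (fr i).1
  rw [← WE_dot g, WE_mul, WE_apply_inv, H, WE_dot]

/-- The sign attached to a binary vector. -/
def sgn (m : Vec) (i : Pt) : ℤ := if m i = 0 then 1 else -1

theorem sgn_add (a b : Vec) (i : Pt) : sgn (a + b) i = sgn a i * sgn b i := by
  exact (show ∀ x y : ZMod 2, (if x + y = 0 then 1 else -1 : ℤ) =
    (if x = 0 then 1 else -1) * if y = 0 then 1 else -1 by decide) (a i) (b i)

theorem sgn_mul_self (a : Vec) (i : Pt) : sgn a i * sgn a i = 1 := by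
  rw [← sgn_add, vec_add_self]; rfl

theorem sgn_cases (a : Vec) (i : Pt) : sgn a i = 1 ∨ sgn a i = -1 := by
  unfold sgn; split_ifs <;> simp

/-- Sign changes. -/
def sc (m : Vec) : WE :=
  ⟨LinearEquiv.ofInvolutive
    { toFun := fun x => ⟨fun i => sgn m i * x.1 i, mem_of_even x.2 fun i => by
        rcases sgn_cases m i with h | h <;> rw [h]
        · simp
        · exact ⟨-x.1 i, by ring⟩⟩
      map_add' := fun x y => Subtype.ext (funext fun i => mul_add _ _ _)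
      map_smul' := fun c x => Subtype.ext (funext fun i => mul_left_comm _ _ _) }
    fun x => Subtype.ext (funext fun i => by
      change sgn m i * (sgn m i * x.1 i) = x.1 i
      rw [← mul_assoc, sgn_mul_self, one_mul]),
   fun x y => Finset.sum_congr rfl fun i _ => by
      change sgn m i * x.1 i * (sgn m i * y.1 i) = _
      rw [mul_mul_mul_comm, sgn_mul_self, one_mul]⟩

theorem sc_apply (m : Vec) (x : Lam) (i : Pt) : ((sc m).1 x).1 i = sgn m i * x.1 i := rfl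

open Classical in
/-- Permutations of the coordinates. -/
noncomputable def pm (π : Equiv.Perm Pt) : WE :=
  if h : π ∈ AGL then
    ⟨{ toFun := fun x => ⟨x.1 ∘ ⇑π⁻¹, fun a b c => by
          simpa only [Function.comp, inv_mem h a b c] using x.2 _ _ _⟩
       invFun := fun x => ⟨x.1 ∘ π, fun a b c => by
          simpa only [Function.comp, h a b c] using x.2 _ _ _⟩
       map_add' := fun _ _ => rfl
       map_smul' := fun _ _ => rfl
       left_inv := fun x => Subtype.ext (funext fun i => congrArg x.1 (π.symm_apply_apply i))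
       right_inv := fun x => Subtype.ext (funext fun i => congrArg x.1 (π.apply_symm_apply i)) },
     fun x y => Equiv.sum_comp π⁻¹ fun i => x.1 i * y.1 i⟩
  else 1

theorem pm_apply {π : Equiv.Perm Pt} (h : π ∈ AGL) (x : Lam) (i : Pt) :
    ((pm π).1 x).1 i = x.1 (π⁻¹ i) := by
  rw [pm, dif_pos h]; rfl

theorem hd_root {α : Lam} (h : α.1 ⬝ᵥ α.1 = 4 ∨ α = 0) (x : Lam) :
    hd x.1 α.1 * (α.1 ⬝ᵥ α.1) = 4 * hd x.1 α.1 := by
  rcases h with h | rfl
  · rw [h, mul_comm]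
  · simp [hd]

/-- Reflections. -/
def rf (α : Lam) (h : α.1 ⬝ᵥ α.1 = 4 ∨ α = 0) : WE :=
  ⟨LinearEquiv.ofInvolutive
    { toFun := fun x => x - hd x.1 α.1 • α
      map_add' := fun x y => by rw [hd_add, add_smul]; abel
      map_smul' := fun c x => by rw [hd_smul, mul_smul, smul_sub]; rfl }
    fun x => by
      change x - hd x.1 α.1 • α - hd (x - hd x.1 α.1 • α).1 α.1 • α = x
      have : hd (x - hd x.1 α.1 • α).1 α.1 = -hd x.1 α.1 := mul_left_cancel₀ two_ne_zero (by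
        rw [two_hd, Submodule.coe_sub, Submodule.coe_smul, sub_dotProduct, smul_dotProduct,
          smul_eq_mul, hd_root h, ← two_hd]
        ring)
      rw [this, neg_smul, sub_neg_eq_add, sub_add_cancel],
   fun x y => by
      change (x.1 - hd x.1 α.1 • α.1) ⬝ᵥ (y.1 - hd y.1 α.1 • α.1) = _
      simp only [sub_dotProduct, dotProduct_sub, smul_dotProduct, dotProduct_smul, smul_eq_mul]
      rw [hd_root h, dotProduct_comm α.1, ← two_hd x α, ← two_hd y α]
      ring⟩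

theorem rf_apply {α : Lam} (h : α.1 ⬝ᵥ α.1 = 4 ∨ α = 0) (x : Lam) :
    (rf α h).1 x = x - hd x.1 α.1 • α := rfl

theorem rf_mul_self {α : Lam} (h : α.1 ⬝ᵥ α.1 = 4 ∨ α = 0) : rf α h * rf α h = 1 :=
  Subtype.ext (LinearEquiv.ext fun x => (rf α h).1.symm_apply_apply x)

theorem rf_comm {α : Lam} (h : α.1 ⬝ᵥ α.1 = 4 ∨ α = 0) {g : WE} (hg : g.1 α = α) :
    rf α h * g = g * rf α h := Subtype.ext (LinearEquiv.ext fun x => by
  change g.1 x - hd (g.1 x).1 α.1 • α = g.1 (x - hd x.1 α.1 • α)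
  rw [map_sub, map_smul, hg, hd, hd, ← WE_dot g x, hg])

theorem sc_add (a b : Vec) : sc (a + b) = sc a * sc b :=
  WE_ext' fun x i => by rw [WE_mul, sc_apply, sc_apply, sc_apply, sgn_add, mul_assoc]

theorem sc_inj : Function.Injective sc := fun a b h => funext fun i => by
  have := congrArg (fun g : WE => (g.1 (fr i)).1 i) h
  simp only [sc_apply, fr, fv, if_true, sgn] at this
  rcases z2_cases (a i) with h | h <;> rcases z2_cases (b i) with k | k <;> rw [h, k] at this ⊢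
  all_goals exact absurd this (by decide)

theorem pm_mul (π : Equiv.Perm Pt) (hπ : π ∈ AGL) (ρ : Equiv.Perm Pt) (hρ : ρ ∈ AGL) :
    pm (π * ρ) = pm π * pm ρ :=
  WE_ext' fun x i => by rw [WE_mul, pm_apply hπ, pm_apply hρ, pm_apply (mul_mem hπ hρ)]; rfl

theorem sc_pm (π : Equiv.Perm Pt) (hπ : π ∈ AGL) (m : Vec) : sc m * pm π = pm π * sc (m ∘ π) :=
  WE_ext' fun x i => by
    rw [WE_mul, WE_mul, sc_apply, pm_apply hπ, pm_apply hπ, sc_apply]
    simp [sgn]

theorem sc_one (x : Lam) : (sc 1).1 x = -x := Subtype.ext (funext fun _ => neg_one_mul _)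

theorem sc_cen (w : WE) : w * sc 1 = sc 1 * w :=
  Subtype.ext (LinearEquiv.ext fun x => by
    change w.1 ((sc 1).1 x) = (sc 1).1 (w.1 x)
    rw [sc_one, sc_one, map_neg])

theorem sc_fr (m : Vec) (i : Pt) : (sc m).1 (fr i) = sgn m i • fr i :=
  Subtype.ext (funext fun j => by
    change sgn m j * fv i j = sgn m i * fv i j
    unfold fv
    split_ifs with h
    exacts [by rw [h], by simp])

theorem eigen {w g : WE} {m : Vec} (h : w⁻¹ * g * w = sc m) (i : Pt) :
    g.1 (w.1 (fr i)) = sgn m i • w.1 (fr i) := by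
  rw [← map_smul, ← sc_fr, ← h, WE_mul, WE_mul, WE_apply_inv]

theorem sgn_eq {m : Vec} {y : Lam} {s : ℤ} (h : (sc m).1 y = s • y) {j k : Pt} (hj : y.1 j ≠ 0)
    (hk : y.1 k ≠ 0) : sgn m j = sgn m k :=
  (mul_right_cancel₀ hj (congrFun (congrArg Subtype.val h) j)).trans
    (mul_right_cancel₀ hk (congrFun (congrArg Subtype.val h) k)).symm

theorem exists_ne_zero {y : Lam} (h : y.1 ⬝ᵥ y.1 = 4) : ∃ j, y.1 j ≠ 0 := by
  by_contra! h0
  rw [show y.1 = 0 from funext h0, zero_dotProduct] at h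
  exact absurd h (by decide)

theorem monomial {w : WE} (h : ∀ i, ∃ j, ∀ k ≠ j, (w⁻¹.1 (fr i)).1 k = 0) :
    ∃ m, ∃ π ∈ AGL, w = sc m * pm π := by
  choose ρ hρ using h
  have h1 : ∀ (x : ZV) i, x ⬝ᵥ (w⁻¹.1 (fr i)).1 = x (ρ i) * (w⁻¹.1 (fr i)).1 (ρ i) := fun x i =>
    Finset.sum_eq_single _ (fun k _ hk => by rw [hρ i k hk, mul_zero]) (by simp)
  have h2 : ∀ i, ∃ c : ZMod 2, ∀ m : Vec, m i = c → (w⁻¹.1 (fr i)).1 (ρ i) = 2 * sgn m i := fun i => by
    have := (h1 _ i).symm.trans ((WE_dot _ _ _).trans (fr_dot i))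
    rcases mul_self_eq_mul_self_iff.1 (this.trans (show (4 : ℤ) = 2 * 2 from rfl)) with h | h
    · exact ⟨0, fun m hm => by rw [h, sgn, if_pos hm]; rfl⟩
    · exact ⟨1, fun m hm => by rw [h, sgn, if_neg (by rw [hm]; decide)]; rfl⟩
  choose m hm using h2
  have h3 : ∀ x i, (w.1 x).1 i = sgn m i * x.1 (ρ i) := fun x i => mul_left_cancel₀ two_ne_zero (by
    rw [← dot_fv]
    change _ ⬝ᵥ (fr i).1 = _
    rw [← WE_dot w⁻¹, WE_inv_apply, h1, hm i m rfl]
    ring)
  have h4 : Function.Injective ρ := fun i j e => by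
    by_contra hne
    have := (h1 _ j).symm.trans (WE_dot w⁻¹ (fr i) (fr j))
    rw [hm j m rfl, ← e, hm i m rfl, show (fr j).1 = fv j from rfl, dot_fv] at this
    simp only [fr, fv, if_neg (Ne.symm hne)] at this
    rcases sgn_cases m i with a | a <;> rcases sgn_cases m j with b | b <;> rw [a, b] at this <;>
      exact absurd this (by decide)
  let π : Equiv.Perm Pt := Equiv.ofBijective ρ (Finite.injective_iff_bijective.1 h4)
  have h5 : π ∈ AGL := fun x y z => by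
    have a1 : ∀ p q : Pt, (∀ k : Fin 3, Even ((p.1 / 2 ^ k.1 : ℕ) - (q.1 / 2 ^ k.1 : ℕ) : ℤ)) →
      p = q := by decide +kernel
    refine a1 _ _ fun k => ?_
    have a2 : (fun i : Pt => ((i.1 / 2 ^ k.1 : ℕ) : ℤ)) ∈ Lam := mem_Lam_of (by revert k; decide)
    have a3 : (fun i : Pt => (((ρ i).1 / 2 ^ k.1 : ℕ) : ℤ)) ∈ Lam :=
      mem_of_even (w.1 ⟨_, a2⟩).2 fun i => by
        rw [h3]
        rcases sgn_cases m i with a | a <;> rw [a]
        · simp
        · exact ⟨_, by rw [neg_one_mul, sub_neg_eq_add]⟩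
    have := (a3 x y z).sub (a2 (ρ x) (ρ y) (ρ z))
    rwa [add_sub_add_left_eq_sub] at this
  exact ⟨m, π⁻¹, inv_mem h5, WE_ext' fun x i => by
    rw [h3, WE_mul, sc_apply, pm_apply (inv_mem h5)]; rfl⟩

theorem nrm (w : WE) (h : ∀ m ∈ Ev, ∃ m', w * sc m * w⁻¹ = sc m') :
    ∃ m, ∃ π ∈ AGL, w = sc m * pm π := monomial fun i => by
  obtain ⟨j, hj⟩ := exists_ne_zero ((WE_dot w⁻¹ _ _).trans (fr_dot i))
  refine ⟨j, fun k hk => by_contra fun h0 => ?_⟩
  obtain ⟨l, hl⟩ := (show ∀ j k : Pt, k ≠ j → ∃ l, sgn (e j + e l) j ≠ sgn (e j + e l) k by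
    decide +kernel) j k hk
  obtain ⟨m', e1⟩ := h _ (pair_mem j l)
  exact hl (sgn_eq (eigen (w := w⁻¹) e1 i) hj h0)

theorem nc (w : WE) (a : Pt) (ha : a ≠ 0)
    (h : ∀ m : Vec, m ∘ tr a = m → ∃ m', w⁻¹ * sc m * w = sc m') :
    ¬ ∃ m', w⁻¹ * pm (tr a) * w = sc m' := fun ⟨m', e1⟩ => by
  have h1 := (WE_dot w _ _).trans (fr_dot 0)
  obtain ⟨j, hj⟩ := exists_ne_zero h1
  obtain ⟨a1, a2, a3⟩ := (show ∀ a : Pt, a ≠ 0 → ∀ j, (e j + e (tr a j)) ∘ tr a = e j + e (tr a j) ∧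
    j ≠ tr a j ∧ ∀ k, k ≠ j ∧ k ≠ tr a j →
      sgn (e j + e (tr a j)) j ≠ sgn (e j + e (tr a j)) k by decide +kernel) a ha j
  obtain ⟨m, e2⟩ := h _ a1
  have h2 := congrFun (congrArg Subtype.val (eigen e1 0)) j
  rw [pm_apply (tr_mem a), tr_inv] at h2
  rw [dotProduct, Finset.sum_eq_add_of_mem j (tr a j) (Finset.mem_univ _) (Finset.mem_univ _) a2
    (fun k _ hk => mul_self_eq_zero.2 (by_contra fun h0 => a3 k hk (sgn_eq (eigen e2 0) hj h0))),
    h2] at h1
  change _ + sgn m' 0 * _ * (sgn m' 0 * _) = _ at h1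
  rw [mul_mul_mul_comm, sgn_mul_self, one_mul] at h1
  generalize (w.1 (fr 0)).1 j = c at h1
  have : c ≤ 1 := by nlinarith
  have : -1 ≤ c := by nlinarith
  interval_cases c <;> omega

/-- The vector with a given code. -/
def rv (n : ℕ) : ZV := fun i => ((n / 5 ^ i.1 % 5 : ℕ) : ℤ) - 2

/-- The code describes a root or zero. -/
def Rt (n : ℕ) : Prop :=
  (Even (rv n 0 + rv n 1 + rv n 2 + rv n 3) ∧ Even (rv n 0 + rv n 1 + rv n 4 + rv n 5) ∧
    Even (rv n 0 + rv n 2 + rv n 4 + rv n 6) ∧ Even (rv n 1 + rv n 2 + rv n 4 + rv n 7)) ∧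
  (rv n ⬝ᵥ rv n = 4 ∨ rv n = 0)

instance decRt (n : ℕ) : Decidable (Rt n) := by unfold Rt; infer_instance

/-- Roots diagonalising the affine involutions. -/
def DL : List (ℕ × ℕ × ℕ × ℕ) := [
  (16434824, 195312, 195312, 0), (14571144, 195312, 136562, 48), (11789960, 195312, 136562, 80),
  (9926280, 195312, 136562, 96), (14599368, 195312, 132962, 12), (16405704, 195312, 192962, 12),
  (16362248, 195312, 192962, 20), (16333128, 195312, 192962, 24), (6999944, 195312, 132962, 68),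
  (5164488, 195312, 132962, 72), (16205392, 195312, 182842, 6), (10155600, 195312, 117842, 6),
  (12305048, 195312, 120442, 10), (15917720, 195312, 180442, 10), (15637664, 195312, 180442, 18),
  (5937120, 195312, 117842, 18), (7917224, 195312, 120442, 34), (15255464, 195312, 182842, 34),
  (15120560, 195312, 180442, 24), (15026032, 195312, 182842, 36), (3787448, 195312, 120442, 40),
  (3843896, 195312, 117842, 20), (14570689, 195218, 136562, 51), (16434369, 195312, 195218, 3),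
  (9925825, 195218, 136562, 99), (11789505, 195218, 136562, 83), (16406145, 195312, 192818, 3),
  (14599809, 195312, 132818, 3), (14498113, 132818, 192962, 27), (14527233, 132818, 192962, 23),
  (5135809, 192818, 132962, 75), (6971265, 192818, 132962, 71), (11788826, 195218, 136562, 85),
  (9925146, 195218, 136562, 101), (16433690, 195312, 195218, 5), (14570010, 195218, 136562, 53),
  (15918602, 195312, 180338, 5), (12305930, 195312, 120338, 5), (10991666, 120338, 180442, 29),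
  (3271226, 180338, 120442, 45), (11508770, 120338, 180442, 23), (7401002, 180338, 120442, 39),
  (9924691, 195218, 136562, 102), (11788371, 195218, 136562, 86), (14569555, 195218, 136562, 54),
  (16433235, 195312, 195218, 6), (10154123, 195312, 117938, 9), (16203915, 195312, 182938, 9),
  (3612987, 182938, 117842, 29), (8745331, 117938, 182842, 45), (8974763, 117938, 182842, 43),
  (5706211, 182938, 117842, 27), (6852524, 192818, 132962, 85), (5017068, 192818, 132962, 89),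
  (16287404, 195312, 192818, 17), (14451948, 192818, 132962, 29), (6623092, 117938, 182842, 53),
  (2722748, 180338, 120442, 57), (15370124, 195312, 180338, 17), (8031884, 195312, 117938, 17),
  (7802452, 117938, 182842, 23), (11240348, 180338, 120442, 27), (4988389, 192818, 132962, 90),
  (6823845, 192818, 132962, 86), (14423269, 192818, 132962, 30), (16258725, 195312, 192818, 18),
  (2895165, 182938, 117842, 53), (4471285, 120338, 180442, 57), (5785549, 195312, 120338, 33),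
  (15486093, 195312, 182938, 33), (5268445, 120338, 180442, 43), (9206869, 182938, 117842, 39),
  (2206526, 132818, 192962, 85), (2177406, 132818, 192962, 89), (2279102, 195312, 132818, 65),
  (2249982, 132818, 192962, 77), (4299750, 182938, 117842, 58), (6336302, 180338, 120442, 54),
  (8518230, 182938, 117842, 46), (10724126, 180338, 120442, 30), (14853902, 195312, 180338, 20),
  (14797454, 195312, 182938, 40), (342391, 132818, 192962, 90), (371511, 132818, 192962, 86),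
  (414967, 132818, 192962, 78), (444087, 195312, 132818, 66), (571823, 117938, 182842, 58),
  (859495, 120338, 180442, 54), (1139551, 120338, 180442, 46), (1521751, 117938, 182842, 30),
  (1656655, 195312, 120338, 36), (1751183, 195312, 117938, 24)]

theorem dl_aux : ∀ t ∈ DL, Rt t.2.1 ∧ Rt t.2.2.1 ∧ rv t.2.1 ⬝ᵥ rv t.2.2.1 = 0 ∧
    par (ofM t.2.2.2) = 0 ∧ (∀ j, ap t.1 j = j → rv t.2.1 j = 0 ∧ rv t.2.2.1 j = 0) ∧
    ∀ i j, fv i (ap t.1 j) - rv t.2.1 i * rv t.2.1 (ap t.1 j) -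
      rv t.2.2.1 i * rv t.2.2.1 (ap t.1 j) = sgn (ofM t.2.2.2) i *
        (fv i j - rv t.2.1 i * rv t.2.1 j - rv t.2.2.1 i * rv t.2.2.1 j) := by decide +kernel

theorem diag (π : Equiv.Perm Pt) (hπ : π ∈ AGL) (h2 : π * π = 1) : ∃ h, ∃ d ∈ Ev,
    h * pm π * h⁻¹ = sc d ∧ ∀ m : Vec, (∀ i, π i ≠ i → m i = 0) → h * sc m = sc m * h := by
  obtain ⟨p, hp, e1⟩ := exists_IL hπ h2
  obtain ⟨⟨c, a, b, d⟩, ht, e2⟩ := List.mem_map.1
    ((show IL.map Prod.fst = DL.map Prod.fst from rfl) ▸ List.mem_map_of_mem (f := Prod.fst) hp)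
  obtain ⟨⟨a1, a2⟩, ⟨b1, b2⟩, c1, c2, c3, c4⟩ := dl_aux _ ht
  simp only [show c = cod π from e2.trans e1, ap_cod] at c3 c4
  obtain ⟨α, hα⟩ : ∃ α : Lam, rv a = α.1 := ⟨⟨_, mem_Lam_of a1⟩, rfl⟩
  obtain ⟨β, hβ⟩ : ∃ β : Lam, rv b = β.1 := ⟨⟨_, mem_Lam_of b1⟩, rfl⟩
  simp only [hα, hβ, ZeroMemClass.coe_eq_zero] at a2 b2 c1 c3 c4
  have h3 : ∀ i j, ((rf β b2 * rf α a2).1 (fr i)).1 j = fv i j - α.1 i * α.1 j - β.1 i * β.1 j :=
    fun i j => by
      have e3 : ∀ γ : Lam, hd (fr i).1 γ.1 = γ.1 i := fun γ => mul_left_cancel₀ two_ne_zero (by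
        rw [two_hd, dotProduct_comm, ← dot_fv]; rfl)
      have e4 : hd (fr i - α.1 i • α).1 β.1 = β.1 i := by
        rw [sub_eq_add_neg, ← neg_smul, hd_add, hd_smul, e3, hd, c1]; simp
      rw [WE_mul, rf_apply, rf_apply, e3, e4]
      rfl
  refine ⟨(rf β b2 * rf α a2)⁻¹, ofM d, c2, WE_ext fun i => ?_, fun m hm => ?_⟩
  · rw [WE_mul, WE_mul, inv_inv, sc_fr, ← WE_inv_apply (rf β b2 * rf α a2) (_ • _), map_smul]
    refine congrArg _ (Subtype.ext (funext fun j => ?_))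
    rw [pm_apply hπ, inv_eq_of_mul_eq_one_right h2, h3, c4, ← h3]
    rfl
  · have k : ∀ γ : Lam, (∀ j, π j = j → γ.1 j = 0) → (sc m).1 γ = γ := fun γ hγ =>
      Subtype.ext (funext fun j => by
        rw [sc_apply]
        by_cases hj : π j = j
        · rw [hγ j hj, mul_zero]
        · rw [sgn, if_pos (hm j hj), one_mul])
    exact ((show Commute _ _ from rf_comm b2 (k β fun j hj => (c3 j hj).2)).mul_left
      (show Commute _ _ from rf_comm a2 (k α fun j hj => (c3 j hj).1))).inv_left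

end Cfsg.Lib.W8
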