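import Cfsg.Agent.W8.Comb

/-!
An additive action on binary vectors in which the stabiliser of the all-one vector is the affine
group fixes the all-one vector.
-/

set_option autoImplicit false

namespace Cfsg.Lib.W8

/-- An additive action on `D` in which the stabiliser of `1` acts as the affine group. -/
structure Ext {H : Type*} [Group H] (D : AddSubgroup Vec) (r : H → Vec → Vec) : Prop where
  ev : Ev ≤ D
  mem : ∀ h, ∀ a ∈ D, r h a ∈ D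
  one : ∀ a ∈ D, r 1 a = a
  mul : ∀ g h, ∀ a ∈ D, r (g * h) a = r g (r h a)
  add : ∀ h, ∀ a ∈ D, ∀ b ∈ D, r h (a + b) = r h a + r h b
  agl : ∀ π ∈ AGL, ∃ h, ∀ a ∈ D, r h a = a ∘ π
  stab : ∀ h, r h 1 = 1 → ∃ π ∈ AGL, ∀ a ∈ D, r h a = a ∘ π

namespace Ext

variable {H : Type*} [Group H] {D : AddSubgroup Vec} {r : H → Vec → Vec} (E : Ext D r)
include E

theorem one_mem : (1 : Vec) ∈ D := E.ev one_mem_Ev

theorem inv_apply (h : H) {a : Vec} (ha : a ∈ D) : r h⁻¹ (r h a) = a := by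
  rw [← E.mul _ _ _ ha, inv_mul_cancel, E.one _ ha]

theorem apply_inv (h : H) {a : Vec} (ha : a ∈ D) : r h (r h⁻¹ a) = a := by
  rw [← E.mul _ _ _ ha, mul_inv_cancel, E.one _ ha]

theorem inj (h : H) {a b : Vec} (ha : a ∈ D) (hb : b ∈ D) (e : r h a = r h b) : a = b := by
  rw [← E.inv_apply h ha, e, E.inv_apply h hb]

theorem zero (h : H) : r h 0 = 0 := by
  have := E.add h 0 D.zero_mem 0 D.zero_mem
  rwa [add_zero, vec_add_self] at this

theorem excl {h : H} (hx : r h 1 = ofM 3 ∨ r h 1 = ofM 15) : False := by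
  obtain ⟨π, hπ, h2, h4, f1, f2, f3, f4⟩ := exists_p1
  obtain ⟨k, hk⟩ := E.agl π hπ
  have hx1 : r h 1 ∘ π = r h 1 := by rcases hx with e | e <;> rw [e] <;> assumption
  have hg : ∀ a ∈ D, r (h⁻¹ * (k * h)) a = r h⁻¹ (r h a ∘ π) := fun a ha => by
    rw [E.mul _ _ _ ha, E.mul _ _ _ ha, hk _ (E.mem _ _ ha)]
  have hc : ∀ a ∈ D, a ∘ π ∈ D := fun a ha => hk a ha ▸ E.mem _ _ ha
  obtain ⟨ρ, hρ, e1⟩ := E.stab (h⁻¹ * (k * h)) (by rw [hg _ E.one_mem, hx1, E.inv_apply _ E.one_mem])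
  have e2 : ∀ a ∈ D, r h (a ∘ ρ) = r h a ∘ π := fun a ha => by
    rw [← e1 a ha, hg a ha, E.apply_inv _ (hc _ (E.mem _ _ ha))]
  have hc' : ∀ a ∈ D, a ∘ ρ ∈ D := fun a ha => e1 a ha ▸ E.mem _ _ ha
  have e3 : ∀ a ∈ D, r h (a + a ∘ ρ) = r h a + r h a ∘ π := fun a ha => by
    rw [E.add _ _ ha _ (hc' a ha), e2 a ha]
  have h2' : ρ * ρ = 1 := eq_of_pairs fun i j => by
    have ha := E.ev (pair_mem i j)
    refine E.inj h (hc' _ (hc' _ ha)) ha ?_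
    change r h ((_ ∘ ρ) ∘ ρ) = r h (e i + e j)
    rw [e2 _ (hc' _ ha), e2 _ ha, Function.comp_assoc, ← Equiv.Perm.coe_mul, h2]
    rfl
  obtain ⟨s, hs, e4⟩ : ∃ s ∈ D, s + s ∘ π = r h 1 := by
    rcases hx with e | e <;> rw [e]
    exacts [⟨_, E.ev (pair_mem _ _), f3⟩, ⟨_, E.ev (pair_mem _ _), f4⟩]
  have e5 : r h⁻¹ s + r h⁻¹ s ∘ ρ = 1 := by
    have := E.mem h⁻¹ s hs
    refine E.inj h (D.add_mem this (hc' _ this)) E.one_mem ?_
    rw [e3 _ this, E.apply_inv _ hs, e4]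
  obtain ⟨a, ha, b, hb, c, hc1, a1, a2, a3, a4, a5, a6, a7⟩ := three hρ h2' fun x hx => by
    have := congrFun e5 x
    rw [Pi.add_apply, Function.comp, hx, CharTwo.add_self_eq_zero] at this
    exact zero_ne_one this
  have m : ∀ {a}, a ∈ Ev → a + a ∘ ρ ∈ D := fun ha => D.add_mem (E.ev ha) (hc' _ (E.ev ha))
  have n : ∀ {a b}, a ∈ D → b ∈ D → a ≠ b → r h a ≠ r h b := fun ha hb h1 h2 =>
    h1 (E.inj h ha hb h2)
  have b1 := n (m ha) D.zero_mem a1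
  have b2 := n (m hb) D.zero_mem a2
  have b3 := n (m hb) (m ha) a3
  have b4 := n (m hc1) D.zero_mem a4
  have b5 := n (m hc1) (m ha) a5
  have b6 := n (m hc1) (m hb) a6
  have b7 := n (m hc1) (D.add_mem (m ha) (m hb)) a7
  rw [E.add h _ (m ha) _ (m hb)] at b7
  rw [E.zero] at b1 b2 b4
  rw [e3 _ (E.ev ha)] at b1 b3 b5 b7
  rw [e3 _ (E.ev hb)] at b2 b3 b6 b7
  rw [e3 _ (E.ev hc1)] at b4 b5 b6 b7
  rcases h4 (r h a) with c1 | c1 | c1 | c1 <;> rcases h4 (r h b) with c2 | c2 | c2 | c2 <;>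
    rcases h4 (r h c) with c3 | c3 | c3 | c3 <;> rw [c1] at b1 b3 b5 b7 <;>
    rw [c2] at b2 b3 b6 b7 <;> rw [c3] at b4 b5 b6 b7 <;> revert b1 b2 b3 b4 b5 b6 b7 <;> decide

theorem no_ext {c : Vec} (hc : ∀ π : Equiv.Perm Pt, c ∘ π = c) (hc1 : ∀ i, e i + c ≠ 1)
    (hO : ∀ h, r h 1 = 1 ∨ ∃ i, r h 1 = e i + c) {γ : H} (hγ : r γ 1 = e 0 + c) : False := by
  obtain ⟨u, hu⟩ : ∃ u : Pt → Vec, u = fun i => e i + c := ⟨_, rfl⟩
  have u1 : ∀ i (π : Equiv.Perm Pt), u i ∘ π = u (π⁻¹ i) := fun i π => by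
    simp only [hu, Pi.add_comp, e_comp, hc]
  have u2 : Function.Injective u := fun i j h => by
    have : ∀ i j, e i = e j → i = j := by decide
    exact this _ _ (add_right_cancel (show e i + c = e j + c by simpa only [hu] using h))
  have u3 : ∀ i, u i ≠ 1 := hu ▸ hc1
  have h1 := E.one_mem
  replace hγ : r γ 1 = u 0 := hu ▸ hγ
  replace hO : ∀ h, r h 1 = 1 ∨ ∃ i, r h 1 = u i := hu ▸ hO
  have u0 : u 0 ∈ D := hγ ▸ E.mem _ _ h1
  have hT : ∀ j, ∃ k, r k 1 = 1 ∧ ∀ a ∈ D, r k a = a ∘ tr j := fun j =>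
    let ⟨k, hk⟩ := E.agl _ (tr_mem j); ⟨k, hk 1 h1, hk⟩
  have u4 : ∀ j, ∃ k, r k 1 = u j := fun j => by
    obtain ⟨k, -, hk⟩ := hT j
    exact ⟨k * γ, by rw [E.mul _ _ _ h1, hγ, hk _ u0, u1, tr_inv, tr_apply, zero_xr]⟩
  have u5 : ∀ j, u j ∈ D := fun j => let ⟨k, hk⟩ := u4 j; hk ▸ E.mem _ _ h1
  have hS : ∀ h, r h 1 = 1 → ∃ π ∈ AGL, ∀ i, r h (u i) = u (π i) := fun h hh => by
    obtain ⟨π, hπ, e1⟩ := E.stab h hh
    exact ⟨π⁻¹, inv_mem hπ, fun i => by rw [e1 _ (u5 i), u1]⟩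
  have hA : ∀ π ∈ AGL, ∃ h, r h 1 = 1 ∧ ∀ i, r h (u i) = u (π i) := fun π hπ => by
    obtain ⟨h, e1⟩ := E.agl π⁻¹ (inv_mem hπ)
    exact ⟨h, e1 1 h1, fun i => by rw [e1 _ (u5 i), u1, inv_inv]⟩
  obtain ⟨δ, d1, d2⟩ : ∃ δ, r δ 1 = u 0 ∧ r δ (u 0) = 1 := by
    obtain ⟨j, hj⟩ := (hO γ⁻¹).resolve_left fun h => u3 0 (by
      rw [← hγ]; conv_lhs => rw [← h]
      exact E.apply_inv _ h1)
    obtain ⟨k, k1, k2⟩ := hA _ (tr_mem j)
    exact ⟨γ * k, by rw [E.mul _ _ _ h1, k1, hγ], by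
      rw [E.mul _ _ _ u0, k2, tr_apply, zero_xr, ← hj, E.apply_inv _ h1]⟩
  have hg : ∀ i, ∃ j, (i = 0 → j = 0) ∧ (i ≠ 0 → j ≠ 0 ∧ r δ (u i) = u j) := fun i => by
    by_cases hi : i = 0
    · exact ⟨0, fun _ => rfl, fun h => absurd hi h⟩
    obtain ⟨k, hk⟩ := u4 i
    obtain ⟨j, hj⟩ := (hO (δ * k)).resolve_left fun h => hi (u2 (E.inj δ (u5 _) u0 (by
      rw [d2, ← hk, ← E.mul _ _ _ h1, h])))
    rw [E.mul _ _ _ h1, hk] at hj
    exact ⟨j, fun h => absurd h hi, fun _ => ⟨fun h => u3 i (E.inj δ (u5 _) h1 (by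
      rw [hj, h, d1])), hj⟩⟩
  choose g g0 g1 using hg
  replace g0 := g0 0 rfl
  have g2 : Function.Injective g := fun i j h => by
    by_cases hi : i = 0 <;> by_cases hj : j = 0
    · rw [hi, hj]
    · exact absurd (by rw [← h, hi, g0]) (g1 j hj).1
    · exact absurd (by rw [h, hj, g0]) (g1 i hi).1
    · exact u2 (E.inj δ (u5 _) (u5 _) (by rw [(g1 i hi).2, (g1 j hj).2, h]))
  have g3 : ∀ x y, g (x ^^^ y) = g x ^^^ g y := fun x y => by
    by_cases hx : x = 0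
    · rw [hx, g0, zero_xr, zero_xr]
    by_cases hy : y = 0
    · rw [hy, g0, xr_zero, xr_zero]
    by_cases hxy : x = y
    · rw [hxy, xr_self, xr_self, g0]
    obtain ⟨a1, a2, a3⟩ : x ^^^ y ≠ 0 ∧ x ^^^ y ≠ x ∧ x ^^^ y ≠ y := by
      revert x y
      decide
    by_contra hne
    obtain ⟨π, hπ, p0, p1, p2, p3⟩ := fano (g1 x hx).1 (g1 y hy).1 (g2.ne hxy) (g1 _ a1).1
      (g2.ne a2) (g2.ne a3) hne
    obtain ⟨k, k1, k2⟩ := hA π hπ
    have m : ∀ a ∈ D, r (δ⁻¹ * (k * δ)) a = r δ⁻¹ (r k (r δ a)) := fun a ha => by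
      rw [E.mul _ _ _ ha, E.mul _ _ _ ha]
    obtain ⟨ρ, hρ, e1⟩ := hS (δ⁻¹ * (k * δ)) (by
      rw [m _ h1, d1, k2, p0, ← d1, E.inv_apply _ h1])
    have q : ∀ i, r k (r δ (u i)) = r δ (u i) ↔ ρ i = i := fun i => by
      rw [← u2.eq_iff, ← e1, m _ (u5 i)]
      exact ⟨fun h => by rw [h, E.inv_apply _ (u5 i)], fun h => by
        conv_rhs => rw [← h]
        rw [E.apply_inv _ (E.mem _ _ (E.mem _ _ (u5 i)))]⟩
    have q0 := (q 0).1 (by rw [d2, k1])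
    have q1 := (q x).1 (by rw [(g1 x hx).2, k2, p1])
    have q2 := (q y).1 (by rw [(g1 y hy).2, k2, p2])
    have q3 := (q (x ^^^ y)).2 (by
      have := hρ 0 x y
      rwa [q0, q1, q2, zero_xr] at this)
    rw [(g1 _ a1).2, k2] at q3
    exact p3 (u2 q3)
  let G0 : Equiv.Perm Pt := Equiv.ofBijective g (Finite.injective_iff_bijective.1 g2)
  have hG : G0 ∈ AGL := fun x y z => by
    change g _ = g _ ^^^ g _ ^^^ g _
    rw [g3, g3]
  obtain ⟨k, k1, k2⟩ := hA _ (inv_mem hG)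
  have k3 : ∀ i, r k (u (g i)) = u i := fun i => by
    rw [k2]; exact congrArg u (G0.symm_apply_apply i)
  obtain ⟨l, l1, l2⟩ := hA _ (tr_mem 1)
  have t1 : r k (r δ 1) = u 0 := by
    have := k3 0
    rw [g0] at this
    rw [d1, this]
  have t2 : r k (r δ (u 0)) = 1 := by rw [d2, k1]
  have t3 : ∀ i ≠ 0, r k (r δ (u i)) = u i := fun i hi => by rw [(g1 i hi).2, k3]
  have m : ∀ a ∈ D, r (l * k * δ * l * k * δ * l * k * δ * l) a =
      r l (r k (r δ (r l (r k (r δ (r l (r k (r δ (r l a))))))))) := fun a ha => by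
    repeat rw [E.mul _ _ _ (by repeat first | exact ha | apply E.mem)]
  obtain ⟨ρ, hρ, e1⟩ := hS (l * k * δ * l * k * δ * l * k * δ * l) (by
    rw [m _ h1, l1, t1, l2, t3 _ (by decide), l2, show tr 1 (tr 1 0) = 0 from rfl, t2, l1])
  have q0 : ρ 0 = 1 := u2 (by
    rw [← e1, m _ u0, l2, t3 _ (by decide), l2, show tr 1 (tr 1 0) = 0 from rfl, t2, l1, t1, l2]
    rfl)
  have q : ∀ i, i ≠ 0 → tr 1 i ≠ 0 → ρ i = i := fun i a b => u2 (by
    rw [← e1, m _ (u5 i), l2, t3 _ b, l2, show tr 1 (tr 1 i) = i from xr_xr i 1, t3 _ a, l2,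
      t3 _ b, l2, show tr 1 (tr 1 i) = i from xr_xr i 1])
  have := hρ 2 4 6
  rw [q 2 (by decide) (by decide), q 4 (by decide) (by decide), q 6 (by decide) (by decide),
    show (2 ^^^ 4 ^^^ 6 : Pt) = 0 by decide, q0] at this
  exact one_ne_zero this

theorem fix (h : H) : r h 1 = 1 := by
  classical
  have h1 := E.one_mem
  obtain ⟨O, hO⟩ : ∃ O : Vec → Prop, ∀ x, O x ↔ ∃ h, r h 1 = x := ⟨_, fun _ => Iff.rfl⟩
  have o1 : ∀ {x}, O x → x ∈ D := fun hx => let ⟨k, hk⟩ := (hO _).1 hx; hk ▸ E.mem _ _ h1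
  have o2 : ∀ k {x}, O x → O (r k x) := fun k x hx =>
    let ⟨l, hl⟩ := (hO _).1 hx; (hO _).2 ⟨k * l, by rw [E.mul _ _ _ h1, hl]⟩
  have o3 : ∀ k {x}, x ∈ D → (O (r k x) ↔ O x) := fun k x hx =>
    ⟨fun h => E.inv_apply k hx ▸ o2 k⁻¹ h, o2 k⟩
  have o4 : ∀ π ∈ AGL, ∀ {x}, O x → O (x ∘ π) := fun π hπ x hx =>
    let ⟨k, hk⟩ := E.agl π hπ; hk x (o1 hx) ▸ o2 k hx
  have o5 : O 1 := (hO _).2 ⟨1, E.one _ h1⟩
  obtain ⟨bs, hbs, hb⟩ : ∃ bs < 1024, ∀ k < 10, (tb bs k = true ↔ O (ofM (rep k))) :=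
    ⟨Nat.ofBits fun k : Fin 10 => decide (O (ofM (rep k))), Nat.ofBits_lt_two_pow _,
      fun k hk => by rw [tb_eq, Nat.testBit_ofBits_lt _ _ hk, decide_eq_true_iff]⟩
  have hm : ∀ m < 256, (tb bs (cls m) = true ↔ O (ofM m)) := fun m hm => by
    obtain ⟨a1, a2, a3⟩ := wl_aux m hm
    obtain ⟨π, hπ, e1⟩ := a2.exists
    rw [hb _ a1, a3, ← e1]
    refine ⟨o4 π hπ, fun h => ?_⟩
    have := o4 _ (inv_mem hπ) h
    rwa [Function.comp_assoc, ← Equiv.Perm.coe_mul, mul_inv_cancel] at this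
  let R : H → Equiv.Perm Vec := fun k =>
    ⟨fun a => if a ∈ D then r k a else a, fun a => if a ∈ D then r k⁻¹ a else a,
      fun a => by
        by_cases ha : a ∈ D
        · simp only [ha, E.mem _ _ ha, if_true, E.inv_apply _ ha]
        · simp only [ha, if_false],
      fun a => by
        by_cases ha : a ∈ D
        · simp only [ha, E.mem _ _ ha, if_true, E.apply_inv _ ha]
        · simp only [ha, if_false]⟩
  have inv : ∀ (f : Vec → ℕ), (∀ k, ∀ x ∈ D, f (r k x) = f x) → ∀ k, ∀ x ∈ D,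
      (∑ s, if O s then f (r k x + s) else 0) = ∑ s, if O s then f (x + s) else 0 :=
    fun f hf k x hx => by
      rw [← Equiv.sum_comp (R k)]
      refine Finset.sum_congr rfl fun s _ => ?_
      change (if O (if s ∈ D then r k s else s) then f (_ + if s ∈ D then r k s else s) else 0) = _
      by_cases hs : s ∈ D
      · rw [if_pos hs, ← E.add _ _ hx _ hs, hf _ _ (D.add_mem hx hs)]
        simp only [o3 k hs]
      · rw [if_neg hs, if_neg (mt o1 hs), if_neg (mt o1 hs)]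
  obtain ⟨F2, hF2⟩ : ∃ F : Vec → ℕ, ∀ x, F x = ∑ s, if O s then
    (if O (x + s) then 1 else 0) else 0 := ⟨_, fun _ => rfl⟩
  obtain ⟨F3, hF3⟩ : ∃ F : Vec → ℕ, ∀ x, F x = ∑ s, if O s then F2 (x + s) else 0 :=
    ⟨_, fun _ => rfl⟩
  have i2 : ∀ k, ∀ x ∈ D, F2 (r k x) = F2 x := fun k x hx => by
    rw [hF2, hF2]
    exact inv (fun x => if O x then 1 else 0) (fun k x hx => by simp only [o3 k hx]) k x hx
  have i3 : ∀ k, ∀ x ∈ D, F3 (r k x) = F3 x := fun k x hx => by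
    rw [hF3, hF3]
    exact inv F2 i2 k x hx
  have cnd : ∀ (b : Bool) (p : Prop) (x y : ℕ), (b = true ↔ p) → cond b x y = if p then x else y :=
    fun b p x y h => by cases b <;> simp [← h]
  have j2 : ∀ x < 256, f2 bs x = F2 (ofM x) := fun x hx => by
    rw [hF2, sum_vec, f2, sumN_eq, sumN_eq]
    refine Finset.sum_congr rfl fun y hy => ?_
    rw [Finset.mem_range] at hy
    rw [cnd _ _ _ _ (hm y hy), cnd _ _ _ _ (hm _ (xor_lt hx hy)), ofM_xor']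
  have j3 : ∀ x < 256, f3 bs x = F3 (ofM x) := fun x hx => by
    rw [hF3, sum_vec, f3, sumN_eq, sumN_eq]
    refine Finset.sum_congr rfl fun y hy => ?_
    rw [Finset.mem_range] at hy
    rw [cnd _ _ _ _ (hm y hy), j2 _ (xor_lt hx hy), ofM_xor']
  have c1 : ofM 255 = 1 := by decide
  have c2 : ∀ k < 8, rep k < 256 := by decide
  have key := allN_iff.1 cnst_aux bs hbs
  simp only [im_iff, Bool.and_eq_true, Bool.not_eq_true', allN_iff, Nat.beq_eq, Bool.or_eq_true,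
    ← Bool.not_eq_true, hb 8 (by decide), hb 0 (by decide), hb 2 (by decide), hb 9 (by decide)]
    at key
  replace key := key ⟨⟨⟨c1 ▸ o5, fun h => by
      obtain ⟨k, hk⟩ := (hO _).1 h
      exact absurd (E.inj k h1 D.zero_mem (by rw [hk, E.zero]; exact ofM_zero)) (by decide)⟩,
    fun h => let ⟨k, hk⟩ := (hO _).1 h; E.excl (Or.inl hk)⟩,
    fun h => let ⟨k, hk⟩ := (hO _).1 h; E.excl (Or.inr hk)⟩ fun k hk h => by
      obtain ⟨l, hl⟩ := (hO _).1 ((hb k (by omega)).1 h)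
      rw [j2 _ (c2 k hk), j3 _ (c2 k hk), j2 _ (by decide), j3 _ (by decide), c1, ← hl,
        i2 _ _ h1, i3 _ _ h1]
      exact ⟨rfl, rfl⟩
  have fin : ∀ k, ∃ m < 256, r k 1 = ofM m ∧ tb bs (cls m) = true := fun k =>
    ⟨_, (ofM_toM _).2, (ofM_toM _).1.symm,
      (hm _ (ofM_toM _).2).2 ((ofM_toM _).1.symm ▸ (hO _).2 ⟨k, rfl⟩)⟩
  have c3 : ∀ k < 10, (tb 256 k = true → k = 8) ∧ (tb 258 k = true → k = 8 ∨ k = 1) ∧
    (tb 384 k = true → k = 8 ∨ k = 7) := by decide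
  rcases key with (rfl | rfl) | rfl
  · obtain ⟨m, a1, a2, a3⟩ := fin h
    rw [a2, (cls_one m a1).1 ((c3 _ (wl_aux m a1).1).1 a3)]
  · obtain ⟨γ, hγ⟩ := (hO _).1 ((hb 1 (by decide)).1 (by decide))
    refine (E.no_ext (c := 0) (fun _ => rfl) (by decide) (fun k => ?_) (γ := γ)
      (hγ.trans (by decide))).elim
    obtain ⟨m, a1, a2, a3⟩ := fin k
    simp only [a2, add_zero]
    exact ((c3 _ (wl_aux m a1).1).2.1 a3).imp (cls_one m a1).1 (cls_one m a1).2.1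
  · obtain ⟨γ, hγ⟩ := (hO _).1 ((hb 7 (by decide)).1 (by decide))
    refine (E.no_ext (c := 1) (fun _ => rfl) (by decide) (fun k => ?_) (γ := γ)
      (hγ.trans (by decide))).elim
    obtain ⟨m, a1, a2, a3⟩ := fin k
    rw [a2]
    exact ((c3 _ (wl_aux m a1).1).2.2 a3).imp (cls_one m a1).1 (cls_one m a1).2.2

end Ext

end Cfsg.Lib.W8
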