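import Cfsg.Agent.W8.Lat
import Cfsg.Agent.Known.TrialityOut
import Cfsg.Agent.Known.O8pMult

/-!
Reduction of the lattice `E₈` modulo two.
-/

set_option autoImplicit false
set_option maxRecDepth 100000

namespace Cfsg.Lib.W8

open QuadraticMap Cfsg.Lib.Class Cfsg.Lib.Class.Orth Cfsg.Lib.Known

/-- The space. -/
abbrev VV : Type := Fin 4 ⊕ Fin 4 → ZMod 2

/-- The form. -/
abbrev QQ : QuadraticForm (ZMod 2) VV := qPlus 4 (ZMod 2)

/-- The indexing of the coordinates. -/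
def ix : Fin 4 ⊕ Fin 4 ≃ Pt := finSumFinEquiv (m := 4) (n := 4)

/-- A basis of the lattice. -/
def bv : Pt → ZV :=
  ![![2, -2, 0, 0, 0, 0, 0, 0],
    ![2, 0, -2, 0, 0, 0, 0, 0],
    ![2, 0, 0, 0, 2, 0, 0, 0],
    ![-1, -1, -1, -1, -1, -1, -1, -1],
    ![-1, 2, -1, 0, -1, 0, 1, 0],
    ![0, 0, -1, 1, -2, 0, 1, 1],
    ![-2, 0, 0, 0, -1, 1, 1, 1],
    ![1, -1, 1, 1, 1, 1, 1, 1]]

/-- The dual basis. -/
def dv : Pt → ZV :=
  ![![1, 0, 1, -2, -1, 0, 1, 0],
    ![0, 0, -1, 1, 0, 2, -1, -1],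
    ![0, 0, 0, -2, 1, -3, 1, 3],
    ![-1, -1, -1, 1, 1, -1, 1, -1],
    ![0, 0, 0, 0, 0, 0, 2, -2],
    ![0, 0, 0, 0, 0, -2, 0, 2],
    ![0, 0, 0, -2, 0, 0, 0, 2],
    ![-1, -1, -1, 3, 1, 1, 1, -3]]

/-- The basis as elements of the lattice. -/
def bL (k : Pt) : Lam := ⟨bv k, mem_Lam_of (by revert k; decide)⟩

/-- The dual basis as elements of the lattice. -/
def dL (k : Pt) : Lam := ⟨dv k, mem_Lam_of (by revert k; decide)⟩

theorem expand (x : Lam) : x = ∑ k, hd x.1 (dv k) • bL k := by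
  have h : ∀ i j, ∑ k, dv k i * bv k j = if j = i then 2 else 0 := by decide +kernel
  refine Subtype.ext (funext fun j => mul_left_cancel₀ two_ne_zero ?_)
  simp only [Submodule.coe_sum, Submodule.coe_smul, Finset.sum_apply, Pi.smul_apply, smul_eq_mul,
    Finset.mul_sum, ← mul_assoc]
  rw [Finset.sum_congr rfl fun k _ => by rw [show dv k = (dL k).1 from rfl, two_hd]]
  change _ = ∑ k, (∑ i, x.1 i * dv k i) * bv k j
  simp only [Finset.sum_mul, mul_assoc]
  rw [Finset.sum_comm]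
  simp only [← Finset.mul_sum, h]
  simp [mul_comm]

/-- The coordinates modulo two. -/
def ph (x : ZV) : Vec := fun j => (hd x (dv j) : ZMod 2)

/-- The reduction map. -/
def φ : Lam →+ VV := AddMonoidHom.mk' (fun x => ph x.1 ∘ ix) fun x y => funext fun k => by
  exact (congrArg Int.cast (hd_add x y (dL (ix k)))).trans (Int.cast_add _ _)

theorem φ_apply (x : Lam) : φ x = ph x.1 ∘ ix := rfl

theorem φ_b : ∀ k, φ (bL (ix k)) = Pi.single k 1 := by
  simp only [φ_apply]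
  decide +kernel

theorem φ_surj : Function.Surjective φ := fun v =>
  ⟨∑ k, (v k).val • bL (ix k), by
    simp only [map_sum, map_nsmul, φ_b]
    funext j
    simp only [Finset.sum_apply, Pi.smul_apply, Pi.single_apply, smul_ite, smul_zero,
      Finset.sum_ite_eq, Finset.mem_univ, if_true, nsmul_one, ZMod.natCast_zmod_val]⟩

theorem φ_ker {x : Lam} (h : φ x = 0) : ∃ u : Lam, x = (2 : ℤ) • u := by
  have h1 : ∀ k, ∃ c, hd x.1 (dv k) = 2 * c := fun k => by
    obtain ⟨k, rfl⟩ := ix.surjective k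
    exact (ZMod.intCast_zmod_eq_zero_iff_dvd _ 2).1 (congrFun h k)
  choose c hc using h1
  exact ⟨∑ k, c k • bL k, by
    conv_lhs => rw [expand x]
    simp only [hc, mul_smul, Finset.smul_sum]⟩

theorem QQ_comp (s : Vec) : QQ (s ∘ ix) = s 0 * s 4 + s 1 * s 5 + s 2 * s 6 + s 3 * s 7 := by
  rw [qPlus_apply, Fin.sum_univ_four]
  rfl

theorem Q_φ {x : Lam} {n : ℤ} (h : x.1 ⬝ᵥ x.1 = 4 * n) : QQ (φ x) = n := by
  have key : ∀ c : Pt → ℤ, (fun i => ∑ k, c k * bv k i) ⬝ᵥ (fun i => ∑ k, c k * bv k i) =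
      4 * (c 0 * c 4 + c 1 * c 5 + c 2 * c 6 + c 3 * c 7 + 2 * (c 0 ^ 2 + c 1 ^ 2 + c 2 ^ 2 + c 3 ^ 2 + c 4 ^ 2 + c 5 ^ 2 + c 6 ^ 2 + c 7 ^ 2 + c 0 * c 1 +
    c 0 * c 2 - 2 * c 0 * c 4 - c 0 * c 6 + c 0 * c 7 + c 1 * c 2 - c 1 * c 6 - c 2 * c 3 -
    c 2 * c 4 - c 2 * c 5 - 2 * c 2 * c 6 + c 2 * c 7 - 2 * c 3 * c 7 + c 4 * c 5 + c 4 * c
    6 - c 4 * c 7 + c 5 * c 6)) := fun c => by
    simp only [dotProduct, Fin.sum_univ_eight, bv, Matrix.cons_val]
    ring
  have h1 := key fun k => hd x.1 (dv k)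
  rw [show (fun i => ∑ k, hd x.1 (dv k) * bv k i) = x.1 from funext fun i => by
    conv_rhs => rw [expand x]
    simp only [Submodule.coe_sum, Submodule.coe_smul, Finset.sum_apply, Pi.smul_apply, smul_eq_mul]
    rfl, h] at h1
  rw [mul_left_cancel₀ (by decide) h1, Int.cast_add, Int.cast_mul 2, Int.cast_two,
    show (2 : ZMod 2) = 0 from rfl, zero_mul, add_zero, φ_apply, QQ_comp]
  simp only [Int.cast_add, Int.cast_mul, ph]

theorem polar_φ (x y : Lam) : polar QQ (φ x) (φ y) = hd x.1 y.1 := by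
  obtain ⟨a, ha⟩ := four_dvd x
  obtain ⟨b, hb⟩ := four_dvd y
  obtain ⟨c, hc⟩ := four_dvd (x + y)
  rw [polar, ← map_add, Q_φ ha, Q_φ hb, Q_φ hc, ← Int.cast_sub, ← Int.cast_sub]
  rw [Submodule.coe_add, add_dotProduct, dotProduct_add, dotProduct_add, ha, hb,
    dotProduct_comm y.1, ← two_hd] at hc
  congr 1
  omega

/-- The map induced on the reduction. -/
noncomputable def redF (g : WE) (v : VV) : VV := φ (g.1 (Function.surjInv φ_surj v))

theorem redF_φ (g : WE) (x : Lam) : redF g (φ x) = φ (g.1 x) := by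
  obtain ⟨u, hu⟩ := φ_ker (x := Function.surjInv φ_surj (φ x) - x) (by
    rw [map_sub, Function.surjInv_eq φ_surj, sub_self])
  rw [redF, ← sub_eq_zero, ← map_sub, ← map_sub, hu, map_smul, map_zsmul, two_zsmul]
  exact funext fun _ => CharTwo.add_self_eq_zero _

/-- Reduction modulo two. -/
noncomputable def red : WE →* O QQ where
  toFun g := ⟨
    { toFun := redF g
      invFun := redF g⁻¹
      map_add' := φ_surj.forall₂.2 fun x y => by simp only [← map_add, redF_φ]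
      map_smul' := fun c => φ_surj.forall.2 fun x => by
        rcases z2_cases c with rfl | rfl
        · rw [zero_smul, RingHom.id_apply, zero_smul, ← map_zero φ, redF_φ, map_zero]
        · rw [one_smul, RingHom.id_apply, one_smul]
      left_inv := φ_surj.forall.2 fun x => by rw [redF_φ, redF_φ, WE_inv_apply]
      right_inv := φ_surj.forall.2 fun x => by rw [redF_φ, redF_φ, WE_apply_inv] },
    mem_O.2 (φ_surj.forall.2 fun x => by
      obtain ⟨n, hn⟩ := four_dvd x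
      exact (congrArg QQ (redF_φ g x)).trans ((Q_φ ((WE_dot g x x).trans hn)).trans (Q_φ hn).symm))⟩
  map_one' := O_ext (φ_surj.forall.2 fun x => redF_φ 1 x)
  map_mul' g h := O_ext (φ_surj.forall.2 fun x => (redF_φ _ x).trans
    ((redF_φ g _).symm.trans (congrArg (redF g) (redF_φ h x).symm)))

theorem red_apply (g : WE) (x : Lam) : (red g).1 (φ x) = φ (g.1 x) := redF_φ g x

theorem red_rf {α : Lam} (h : α.1 ⬝ᵥ α.1 = 4) : red (rf α (Or.inl h)) = refl QQ (φ α) :=
  O_ext (φ_surj.forall.2 fun x => by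
    rw [red_apply, rf_apply, refl_apply, Q_φ (n := 1) h, polar_φ, map_sub, map_zsmul, Int.cast_one,
      inv_one, one_mul, Int.cast_smul_eq_zsmul])

theorem bigQ : BigO QQ := bigO_qPlus le_rfl

/-- Roots with given reductions. -/
def RW : List ℕ := [
  0, 0, 0, 0, 0, 0, 0, 0, 0, 0, 0, 0, 0, 0, 0, 0, 0, 180336, 0, 210336, 0, 211536, 0, 179036, 0,
  120432, 0, 270432, 0, 276432, 0, 113932, 0, 0, 257912, 132912, 0, 0, 101412, 288912, 0, 0,
  197816, 192816, 0, 0, 191556, 199056, 0, 272936, 117936, 0, 0, 116436, 273936, 0, 0, 207832,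
  182832, 0, 0, 176532, 214032, 0, 0, 0, 0, 0, 97812, 285312, 260312, 135312, 0, 0, 0, 0, 195156,
  195456, 195416, 195216, 0, 114036, 0, 276536, 270336, 0, 120336, 0, 0, 178932, 0, 211432,
  210432, 0, 180432, 0, 0, 0, 198912, 191412, 192912, 197912, 0, 0, 0, 0, 289056, 101556, 132816,
  257816, 0, 0, 0, 213936, 176436, 0, 182936, 0, 0, 207936, 0, 274032, 116532, 0, 117832, 0, 0,
  272832, 0, 0, 0, 0, 0, 0, 0, 0, 195302, 195310, 195062, 195262, 189062, 194062, 39062, 164062,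
  0, 270182, 0, 120182, 0, 114182, 0, 276682, 210286, 0, 180286, 0, 179086, 0, 211586, 0, 0, 0,
  197806, 192806, 0, 0, 191566, 199066, 257662, 132662, 0, 0, 101662, 289162, 0, 0, 0, 182782,
  207782, 0, 0, 214082, 176582, 0, 117686, 0, 0, 272686, 274186, 0, 0, 116686, 0, 0, 0, 0, 195166,
  195466, 195406, 195206, 104062, 291562, 254062, 129062, 0, 0, 0, 0, 0, 211682, 0, 179182,
  180182, 0, 210182, 0, 276586, 0, 114086, 0, 0, 120286, 0, 270286, 0, 0, 289066, 101566, 132806,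
  257806, 0, 0, 199162, 191662, 0, 0, 0, 0, 192662, 197662, 0, 116582, 274082, 0, 272782, 0, 0,
  117782, 176686, 0, 0, 214186, 0, 207686, 182686, 0]

theorem rw_aux : ∀ m < 256, ofM m 0 * ofM m 4 + ofM m 1 * ofM m 5 + ofM m 2 * ofM m 6 +
    ofM m 3 * ofM m 7 ≠ 0 → Rt (RW.getD m 0) ∧ rv (RW.getD m 0) ≠ 0 ∧
      ph (rv (RW.getD m 0)) = ofM m := by decide +kernel

theorem red_surj : Function.Surjective red :=
  MonoidHom.range_eq_top.1 (eq_top_of_refl bigQ.nd bigQ.nexc fun v hv => by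
    obtain ⟨s, rfl⟩ : ∃ s : Vec, v = s ∘ ix := ⟨v ∘ ix.symm, by ext k; simp⟩
    induction s using forall_vec with | _ m hm => ?_
    obtain ⟨⟨h1, h2⟩, h3, h4⟩ := rw_aux m hm (QQ_comp _ ▸ hv)
    exact ⟨_, (red_rf (α := ⟨_, mem_Lam_of h1⟩) (h2.resolve_right h3)).trans (by rw [φ_apply, h4])⟩)

theorem root_pm {g : WE} (hg : red g = 1) {α : Lam} (h : α.1 ⬝ᵥ α.1 = 4) :
    ∃ s : ℤ, (s = 1 ∨ s = -1) ∧ g.1 α = s • α := by
  obtain ⟨u, hu⟩ := φ_ker (x := g.1 α - α) (by rw [map_sub, ← red_apply, hg, O_one_apply, sub_self])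
  obtain ⟨k, hk⟩ := four_dvd u
  have h1 := (WE_dot g α α).trans h
  have h2 : (g.1 α - α).1 ⬝ᵥ (g.1 α - α).1 = 16 * k := by
    rw [hu, Submodule.coe_smul, smul_dotProduct, dotProduct_smul, hk, smul_eq_mul, smul_eq_mul]
    ring
  have h3 : (g.1 α + α).1 ⬝ᵥ (g.1 α + α).1 = 16 - 16 * k := by
    rw [← h2]
    simp only [Submodule.coe_add, Submodule.coe_sub, add_dotProduct, dotProduct_add, sub_dotProduct,
      dotProduct_sub, h, h1]
    ring
  have h4 : ∀ v : ZV, 0 ≤ v ⬝ᵥ v := fun v => Finset.sum_nonneg fun i _ => mul_self_nonneg _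
  have h5 := h4 (g.1 α - α).1
  have h6 := h4 (g.1 α + α).1
  obtain rfl | rfl : k = 0 ∨ k = 1 := by omega
  · refine ⟨1, Or.inl rfl, ?_⟩
    rw [one_smul, ← sub_eq_zero]
    exact Subtype.ext (dotProduct_self_eq_zero.1 h2)
  · refine ⟨-1, Or.inr rfl, ?_⟩
    rw [neg_smul, one_smul, ← add_eq_zero_iff_eq_neg]
    exact Subtype.ext (dotProduct_self_eq_zero.1 h3)

theorem red_eq_one {g : WE} : red g = 1 ↔ g = 1 ∨ g = sc 1 := by
  refine ⟨fun hg => ?_, ?_⟩
  · have h1 : ∀ i, ∃ c : ZMod 2, ∀ m : Vec, m i = c → g.1 (fr i) = sgn m i • fr i := fun i => by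
      obtain ⟨s, rfl | rfl, h⟩ := root_pm hg (fr_dot i)
      · exact ⟨0, fun m hm => by rw [h, sgn, if_pos hm]⟩
      · exact ⟨1, fun m hm => by rw [h, sgn, if_neg (by rw [hm]; decide)]⟩
    choose m hm using h1
    obtain rfl : g = sc m := WE_ext fun i => by rw [hm i m rfl, sc_fr]
    have h2 : ∀ a, m a = m 0 := fun a => by
      obtain ⟨n, -, ⟨a1, a2⟩, a3, a4⟩ := (show ∀ a, ∃ n ∈ [195468, 199068, 289068], Rt n ∧ rv n a ≠ 0 ∧
        rv n 0 ≠ 0 by decide +kernel) a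
      obtain ⟨s, -, h⟩ := root_pm hg (α := ⟨_, mem_Lam_of a1⟩)
        (a2.resolve_right fun h => a3 (congrFun h a))
      exact (show ∀ x y : ZMod 2, (if x = 0 then 1 else -1 : ℤ) = (if y = 0 then 1 else -1) →
        x = y by decide) _ _ (sgn_eq h a3 a4)
    refine (z2_cases (m 0)).imp (fun e => WE_ext' fun x i => ?_)
      fun e => congrArg sc (funext fun a => (h2 a).trans e)
    rw [sc_apply, sgn, if_pos ((h2 i).trans e), one_mul]
    rfl
  · rintro (rfl | rfl)
    · exact map_one _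
    · exact O_ext (φ_surj.forall.2 fun x => by
        rw [red_apply, sc_one, map_neg]
        exact funext fun _ => ZMod.neg_eq_self_mod_two _)

theorem sc_zero : sc 0 = 1 := WE_ext' fun _ _ => one_mul _

theorem sc_one_ne : sc 1 ≠ 1 := fun h => by
  have := congrArg (fun g : WE => (g.1 (fr 0)).1 0) h
  exact absurd this (by decide)

theorem index_Om : (Om QQ).index = 2 :=
  index_commutator_even bigQ.nd bigQ.nexc rfl (by simp)

theorem card_WE : Nat.card WE = 696729600 := by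
  have h1 : Nat.card red.ker = 2 := by
    refine Eq.trans ?_ ((Nat.card_zpowers _).trans (orderOf_eq_prime (x := sc 1) (by
      rw [pow_two, ← sc_add, vec_add_self, sc_zero]) sc_one_ne))
    congr 3
    refine le_antisymm (fun g hg => ?_) (Subgroup.zpowers_le.2 (red_eq_one.2 (Or.inr rfl)))
    rcases red_eq_one.1 hg with rfl | rfl
    exacts [one_mem _, Subgroup.mem_zpowers _]
  rw [← red.ker.card_mul_index, h1, Subgroup.index_ker, MonoidHom.range_eq_top.2 red_surj,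
    Subgroup.card_top, ← (Om QQ).card_mul_index, index_Om,
    ← Nat.card_congr (Orth.omegaEquiv QQ).toEquiv]
  exact congrArg (fun n => 2 * (n * 2)) o8p_card

/-- The subgroup of index two. -/
noncomputable def W0 : Subgroup WE := (Om QQ).comap red

theorem index_W0 : W0.index = 2 := (Subgroup.index_comap_of_surjective _ red_surj).trans index_Om

theorem sc_mem (m : Vec) : sc m ∈ W0 ↔ m ∈ Ev := by
  have h1 : ∀ i, sc (e i) ∉ W0 := fun i h => by
    have e1 : sc (e i) = rf (fr i) (Or.inl (fr_dot i)) := WE_ext' fun x j => by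
      have : hd x.1 (fr i).1 = x.1 i := mul_left_cancel₀ two_ne_zero ((two_hd _ _).trans (dot_fv _ _))
      rw [sc_apply, rf_apply, this]
      change (if (if j = i then 1 else 0 : ZMod 2) = 0 then 1 else -1) * _ =
        x.1 j - x.1 i * if j = i then 2 else 0
      by_cases hj : j = i
      · rw [if_pos hj, if_pos hj, if_neg one_ne_zero, hj]; ring
      · rw [if_neg hj, if_neg hj, if_pos rfl]; ring
    rw [W0, Subgroup.mem_comap, e1, red_rf (fr_dot i), mem_commutator_iff_even bigQ.nd bigQ.nexc rfl,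
      dick_refl bigQ.nd (by rw [Q_φ (n := 1) (fr_dot i)]; decide)] at h
    exact absurd h (by decide)
  have h2 : ∀ s : Finset Pt, (sc (∑ i ∈ s, e i) ∈ W0 ↔ ∑ i ∈ s, e i ∈ Ev) := fun s => by
    induction s using Finset.induction_on with
    | empty =>
      rw [Finset.sum_empty, sc_zero]
      exact iff_of_true (one_mem _) Ev.zero_mem
    | insert i s hi ih =>
      rw [Finset.sum_insert hi, sc_add, Subgroup.mul_mem_iff_of_index_two index_W0, ih, mem_Ev, mem_Ev,
        par_add, par_e, iff_false_intro (h1 i)]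
      generalize par _ = c
      revert c
      decide
  have h3 : ∀ m : Vec, m = ∑ i with m i = 1, e i := by decide +kernel
  rw [h3 m]
  exact h2 _

theorem odd_aux : allA (fun c => anyL IL fun p =>
    (allN 8 fun x => Nat.beq (apN p.1 (apN c (apN p.1 (apN c (apN p.1 (apN c x)))))) x) ||
    allN 8 fun x => Nat.beq (apN p.1 (apN c (apN p.1 (apN c (apN p.1 (apN c (apN p.1 (apN c
      (apN p.1 (apN c (apN p.1 (apN c (apN p.1 (apN c x)))))))))))))) x) = true := by decide +kernel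

theorem pm_mem (π : Equiv.Perm Pt) (hπ : π ∈ AGL) : pm π ∈ W0 := by
  have : W0.Normal := Subgroup.normal_of_index_eq_two index_W0
  have a1 : ∀ p ∈ IL, OkC p.1 ∧ ∀ x, ap p.1 (ap p.1 x) = x := by decide +kernel
  obtain ⟨p, hp, h⟩ := anyL_iff.1 (allA_sound odd_aux hπ)
  obtain ⟨ρ, hρ, e1⟩ := (a1 p hp).1.exists
  simp only [Bool.or_eq_true, all8, Nat.beq_eq, ap_val, ap_cod, ← e1, Fin.val_inj] at h
  obtain ⟨k, d, hd, e2, -⟩ := diag ρ hρ (Equiv.ext fun x => by
    rw [Equiv.Perm.mul_apply, e1]; exact (a1 p hp).2 x)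
  have h1 : pm ρ ∈ W0 := by simpa [← e2, mul_assoc] using this.conj_mem _ ((sc_mem d).2 hd) k⁻¹
  have h2 := mul_mem hρ hπ
  have h3 : ∀ τ ∈ AGL, pm (τ * τ) ∈ W0 := fun τ hτ => by
    rw [pm_mul _ hτ _ hτ]; exact Subgroup.mul_self_mem_of_index_two index_W0 _
  rw [← W0.mul_mem_cancel_left h1, ← pm_mul _ hρ _ hπ]
  rcases h with h | h
  · convert h3 _ (mul_mem h2 h2) using 2
    exact Equiv.ext fun x => (h _).symm
  · convert h3 _ (mul_mem (mul_mem h2 h2) (mul_mem h2 h2)) using 2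
    exact Equiv.ext fun x => (h _).symm

theorem frame : Fr W0 sc pm where
  σ_add := sc_add
  σ_inj := sc_inj
  P_mul := pm_mul
  σ_P := sc_pm
  idx := fun _ _ ha hb => (Subgroup.mul_mem_iff_of_index_two index_W0).2 (iff_of_false ha hb)
  σ_mem := sc_mem
  P_mem := pm_mem
  cen := sc_cen
  nrm := nrm
  card := card_WE
  diag := fun π hπ h2 => let ⟨h, d, _, e⟩ := diag π hπ h2; ⟨h, d, e⟩
  nc := nc

end Cfsg.Lib.W8
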