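import Cfsg.Agent.W8.Fr
import Cfsg.Agent.Trans.SylowIn

/-!
The centraliser of an involution acting on a framed group: the elements acting trivially.
-/

set_option autoImplicit false

namespace Cfsg.Lib.W8

open Cfsg.Lib.Trans Subgroup

variable {W G : Type*} [Group W] [Group G]

/-- The element `n` acts on the image of `W0` as `w`. -/
def Act (W0 : Subgroup W) (ι : W → G) (n : G) (w : W) : Prop :=
  ∀ x ∈ W0, n * ι x * n⁻¹ = ι (w * x * w⁻¹)

/-- The centraliser of the central involution acts on the image of `W0` as `W`. -/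
structure St (W0 : Subgroup W) (σ : Vec → W) (P : Equiv.Perm Pt → W) (ι : W → G) (z : G) :
    Prop extends Fr W0 σ P where
  zeq : ι (σ 1) = z
  mul : ∀ a ∈ W0, ∀ b ∈ W0, ι (a * b) = ι a * ι b
  inj : ∀ a ∈ W0, ι a = 1 → a = 1
  dec : ∀ n, n * z = z * n → ∃ w, Act W0 ι n w
  cyc : ∀ Q : Subgroup G, IsPGroup 2 Q → (∀ k ∈ Q, Act W0 ι k 1) → IsCyclic Q

theorem eq_of_isCyclic {Q : Subgroup G} (hc : IsCyclic Q) {a b : G} (ha : a ∈ Q) (hb : b ∈ Q)
    (a1 : a * a = 1) (b1 : b * b = 1) (b2 : b ≠ 1) : a = 1 ∨ a = b := by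
  obtain ⟨s, hs⟩ := hc.exists_generator
  obtain ⟨i, hi⟩ := hs ⟨a, ha⟩
  obtain ⟨j, hj⟩ := hs ⟨b, hb⟩
  obtain rfl : (s : G) ^ i = a := by simpa using congrArg Subtype.val hi
  obtain rfl : (s : G) ^ j = b := by simpa using congrArg Subtype.val hj
  rw [← zpow_add, ← orderOf_dvd_iff_zpow_eq_one] at a1 b1
  rw [Ne, ← orderOf_dvd_iff_zpow_eq_one] at b2
  rw [← orderOf_dvd_iff_zpow_eq_one, ← orderOf_dvd_sub_iff_zpow_eq_zpow]
  generalize (orderOf (s : G) : ℤ) = n at *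
  obtain ⟨c, hc⟩ := a1
  obtain ⟨d, hd⟩ := b1
  obtain ⟨d, rfl | rfl⟩ := Int.even_or_odd' d
  · exact absurd ⟨d, by linarith⟩ b2
  obtain ⟨c, rfl | rfl⟩ := Int.even_or_odd' c
  · exact Or.inl ⟨c, by linarith⟩
  · exact Or.inr ⟨c - d, by linarith⟩

namespace St

variable {W0 : Subgroup W} {σ : Vec → W} {P : Equiv.Perm Pt → W} {ι : W → G} {z : G}
  (S : St W0 σ P ι z)
include S

theorem ι_one : ι 1 = 1 := by
  have := S.mul 1 W0.one_mem 1 W0.one_mem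
  rwa [mul_one, left_eq_mul] at this

theorem ι_inv {a : W} (ha : a ∈ W0) : ι a⁻¹ = (ι a)⁻¹ :=
  eq_inv_of_mul_eq_one_left (by rw [← S.mul _ (inv_mem ha) _ ha, inv_mul_cancel, S.ι_one])

theorem ι_inj {a b : W} (ha : a ∈ W0) (hb : b ∈ W0) (h : ι a = ι b) : a = b :=
  mul_inv_eq_one.1 (S.inj _ (mul_mem ha (inv_mem hb)) (by
    rw [S.mul _ ha _ (inv_mem hb), S.ι_inv hb, h, mul_inv_cancel]))

theorem z_mul : z * z = 1 := by
  rw [← S.zeq, ← S.mul _ S.one_mem _ S.one_mem, S.σ_mul_self, S.ι_one]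

theorem z_inv : z⁻¹ = z := inv_eq_of_mul_eq_one_right S.z_mul

theorem z_ne : z ≠ 1 := fun h =>
  one_ne_zero (S.σ_inj ((S.inj _ S.one_mem (S.zeq.trans h)).trans S.σ_zero.symm))

theorem act_ι {a : W} (ha : a ∈ W0) : Act W0 ι (ι a) a := fun x hx => by
  rw [S.mul _ (mul_mem ha hx) _ (inv_mem ha), S.mul _ ha _ hx, S.ι_inv ha]

theorem act_mul {n m : G} {w v : W} (h : Act W0 ι n w) (k : Act W0 ι m v) :
    Act W0 ι (n * m) (w * v) := fun x hx => by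
  rw [show w * v * x * (w * v)⁻¹ = w * (v * x * v⁻¹) * w⁻¹ by group, ← h _ (S.conj_mem v hx),
    ← k x hx]
  group

theorem act_inv {n : G} {w : W} (h : Act W0 ι n w) : Act W0 ι n⁻¹ w⁻¹ := fun x hx => by
  have := h _ (S.conj_mem w⁻¹ hx)
  rw [show w * (w⁻¹ * x * w⁻¹⁻¹) * w⁻¹ = x by group] at this
  rw [← this]
  group

theorem act_conj {n m : G} {w v : W} (h : Act W0 ι n w) (k : Act W0 ι m v) :
    Act W0 ι (n * m * n⁻¹) (w * v * w⁻¹) := S.act_mul (S.act_mul h k) (S.act_inv h)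

omit S in
theorem act_one : Act W0 ι 1 1 := fun x _ => by simp

theorem act_pow {n : G} {w : W} (h : Act W0 ι n w) (j : ℕ) : Act W0 ι (n ^ j) (w ^ j) := by
  induction j with
  | zero => rw [pow_zero, pow_zero]; exact act_one
  | succ j ih => rw [pow_succ, pow_succ]; exact S.act_mul ih h

theorem act_uniq {n : G} {w v : W} (h : Act W0 ι n w) (k : Act W0 ι n v) :
    v = w ∨ v = w * σ 1 := by
  have := S.act_mul (S.act_inv h) k
  rw [inv_mul_cancel] at this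
  exact (S.cW fun x hx => S.ι_inj (S.conj_mem _ hx) hx (by rw [← this x hx]; group)).imp
    (fun e => (inv_mul_eq_one.1 e).symm) inv_mul_eq_iff_eq_mul.1

theorem act_neg {n : G} {w : W} (h : Act W0 ι n w) : Act W0 ι n (w * σ 1) := fun x hx => by
  rw [h x hx, mul_assoc w (σ 1), ← S.cen x]
  congr 1
  group

theorem act_z : Act W0 ι z 1 := by
  have := S.act_neg (S.act_ι S.one_mem)
  rwa [S.zeq, S.σ_mul_self] at this

theorem act_comm {n : G} {w : W} (h : Act W0 ι n w) : n * z = z * n := by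
  have := h _ S.one_mem
  rwa [S.cen w, mul_inv_cancel_right, S.zeq, mul_inv_eq_iff_eq_mul] at this

theorem act_cz {n : G} {w : W} (h : Act W0 ι n w) : n * z * n⁻¹ = z := by
  rw [S.act_comm h, mul_inv_cancel_right]

omit S in
theorem comm_ι {k : G} (hk : Act W0 ι k 1) {x : W} (hx : x ∈ W0) : k * ι x = ι x * k := by
  have := hk x hx
  rwa [one_mul, inv_one, mul_one, mul_inv_eq_iff_eq_mul] at this

theorem act_mem {n : G} {w v : W} (h : Act W0 ι n w) (k : Act W0 ι n v) (hw : w ∈ W0) : v ∈ W0 := by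
  rcases S.act_uniq h k with rfl | rfl
  exacts [hw, mul_mem hw S.one_mem]

theorem sq_cases {n : G} {w : W} (h : Act W0 ι n w) (h2 : Act W0 ι (n * n) 1) :
    w * w = 1 ∨ w * w = σ 1 := by simpa using S.act_uniq h2 (S.act_mul h h)

/-- The elements acting trivially. -/
def K : Subgroup G where
  carrier := {k | Act W0 ι k 1}
  one_mem' := act_one
  mul_mem' := fun ha hb => by simpa using S.act_mul ha hb
  inv_mem' := fun ha => by simpa using S.act_inv ha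

theorem mem_K {k : G} : k ∈ S.K ↔ Act W0 ι k 1 := Iff.rfl

theorem conj_K {n k : G} (hn : n * z = z * n) (hk : Act W0 ι k 1) : Act W0 ι (n * k * n⁻¹) 1 := by
  obtain ⟨w, hw⟩ := S.dec n hn
  simpa using S.act_conj hw hk

theorem split {n : G} {w : W} (h : Act W0 ι n w) (hw : w ∈ W0) :
    ∃ k, Act W0 ι k 1 ∧ n = ι w * k ∧ n * n = ι (w * w) * (k * k) := by
  have hk : Act W0 ι ((ι w)⁻¹ * n) 1 := by simpa using S.act_mul (S.act_inv (S.act_ι hw)) h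
  refine ⟨_, hk, by group, ?_⟩
  rw [S.mul _ hw _ hw, mul_assoc, ← mul_assoc (ι w) _ (_ * n), ← comm_ι hk hw]
  group

variable [Finite G]

theorem inv_K {k : G} (hk : Act W0 ι k 1) (h2 : k * k = 1) : k = 1 ∨ k = z := by
  have : Fact (Nat.Prime 2) := ⟨Nat.prime_two⟩
  have hp : ∀ {x : G}, x * x = 1 → IsPGroup 2 (zpowers x) := fun h =>
    IsPGroup.of_card_dvd_pow (n := 1) (by
      rw [Nat.card_zpowers]; exact orderOf_dvd_of_pow_eq_one (by rw [pow_one, sq, h]))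
  obtain ⟨Q, hQ, h1⟩ := exists_isSylowIn_ge (H := S.K) (hp h2) (zpowers_le.2 hk)
  obtain ⟨x, hx, h3⟩ := hQ.exists_cj_le (hp S.z_mul) (zpowers_le.2 S.act_z)
  rw [cj_zpowers, S.act_cz hx] at h3
  exact eq_of_isCyclic (S.cyc Q hQ.isPGroup hQ.le) (h1 (mem_zpowers k)) (h3 (mem_zpowers z)) h2
    S.z_mul S.z_ne

theorem small' {g u : G} (hu : u * z = z * u) (hv : Act W0 ι (g⁻¹ * u * g) 1)
    (h2 : u * u = g * z * g⁻¹) : g * z * g⁻¹ = z := by
  have t2 : g * z * g⁻¹ * (g * z * g⁻¹) = 1 := by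
    rw [conj_mul, S.z_mul]; group
  have t1 : g * z * g⁻¹ ≠ 1 := fun h => S.z_ne (by rwa [mul_inv_eq_one, mul_eq_left] at h)
  obtain ⟨w, hw⟩ := S.dec u hu
  have h4 := S.sq_cases (S.act_mul hw hw) (by rw [h2, t2]; exact act_one)
  obtain ⟨h, hh, m, π, hπ, e1⟩ := S.two' (w := w) (by
    rw [pow_mul w 4 2, pow_mul w 2 2, sq w, sq (w * w)]
    rcases h4 with e | e <;> rw [e]
    exacts [one_pow 2, (sq _).trans (S.σ_mul_self 1)])
  have a1 := S.act_conj (S.act_ι hh) hw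
  have a0 := S.act_cz (S.act_ι hh)
  rw [e1] at a1
  suffices ι h * g * z * (ι h * g)⁻¹ = z by
    calc _ = (ι h)⁻¹ * (ι h * g * z * (ι h * g)⁻¹) * ι h := by group
      _ = z := by rw [this]; conv_lhs => rw [← a0]; ; group
  have h4' : σ m * P π * (σ m * P π) * (σ m * P π * (σ m * P π)) = σ 0 ∨
      σ m * P π * (σ m * P π) * (σ m * P π * (σ m * P π)) = σ 1 := by
    rw [← e1, conj_mul, conj_mul]
    rcases h4 with e | e <;> rw [e]
    · left; rw [S.σ_zero]; group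
    · right; rw [S.cen, mul_inv_cancel_right]
  replace hv : Act W0 ι ((ι h * g)⁻¹ * (ι h * u * (ι h)⁻¹) * (ι h * g)) 1 := by
    convert hv using 1
    group
  replace h2 : ι h * u * (ι h)⁻¹ * (ι h * u * (ι h)⁻¹) = ι h * g * z * (ι h * g)⁻¹ := by
    rw [conj_mul, h2]; group
  replace t1 : ι h * g * z * (ι h * g)⁻¹ ≠ 1 := fun h =>
    S.z_ne (by rwa [mul_inv_eq_one, mul_eq_left] at h)
  replace t2 : ι h * g * z * (ι h * g)⁻¹ * (ι h * g * z * (ι h * g)⁻¹) = 1 := by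
    rw [conj_mul, S.z_mul]; group
  generalize ι h * g = g at *
  generalize ι h * u * (ι h)⁻¹ = u at *
  by_cases hp : π = 1
  · have := S.act_mul a1 a1
    rw [hp, S.P_one, mul_one, S.σ_mul_self, h2] at this
    exact (S.inv_K this t2).resolve_left t1
  have p4 : π⁻¹ ^ 4 = 1 := by
    rw [S.mul_eq hπ hπ, S.mul_eq (mul_mem hπ hπ) (mul_mem hπ hπ)] at h4'
    rw [inv_pow, inv_eq_one, pow_mul π 2 2, sq, sq]
    rcases h4' with e | e <;>
      exact (S.eq_iff' (mul_mem (mul_mem hπ hπ) (mul_mem hπ hπ)) e).2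
  have key : ∀ a ∈ Ev, (a ∘ ⇑π⁻¹) ∘ ⇑π⁻¹ = a → a + a ∘ ⇑π⁻¹ ≠ 0 →
      ι (σ (a + a ∘ ⇑π⁻¹)) = g * z * g⁻¹ := fun a ha b1 b2 => by
    have c1 : ∀ a ∈ Ev, u * ι (σ a) * u⁻¹ = ι (σ (a ∘ ⇑π⁻¹)) := fun a ha => by
      rw [a1 _ ((S.σ_mem a).2 ha), S.conj hπ]
    have ha' : a ∘ ⇑π⁻¹ ∈ Ev := comp_mem_Ev.2 ha
    have c2 : g⁻¹ * ι (σ a) * g * z = z * (g⁻¹ * ι (σ a) * g) := by
      have := c1 _ ha'
      rw [b1, ← c1 a ha] at this
      calc _ = g⁻¹ * (ι (σ a) * (g * z * g⁻¹)) * g := by group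
        _ = g⁻¹ * (g * z * g⁻¹ * ι (σ a)) * g := by
          rw [← h2]; conv_lhs => rw [← this]; ; group
        _ = _ := by group
    have c3 := mul_mem (S.mem_K.2 (S.conj_K c2 hv)) (inv_mem (S.mem_K.2 hv))
    have c4 : (ι (σ a))⁻¹ = ι (σ a) := by rw [← S.ι_inv ((S.σ_mem a).2 ha), S.σ_inv]
    have c5 : g⁻¹ * ι (σ a) * g * (g⁻¹ * u * g) * (g⁻¹ * ι (σ a) * g)⁻¹ * (g⁻¹ * u * g)⁻¹ =
        g⁻¹ * ι (σ (a + a ∘ ⇑π⁻¹)) * g := by
      rw [S.σ_add, S.mul _ ((S.σ_mem _).2 ha) _ ((S.σ_mem _).2 ha'), ← c1 a ha]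
      conv_rhs => enter [1, 2, 2, 1, 2]; rw [← c4]
      group
    rw [c5] at c3
    have c6 := (S.σ_mem _).2 (add_comp_mem_Ev a π⁻¹)
    rcases S.inv_K c3 (by
      calc _ = g⁻¹ * (ι (σ (a + a ∘ ⇑π⁻¹)) * ι (σ (a + a ∘ ⇑π⁻¹))) * g := by group
        _ = 1 := by rw [← S.mul _ c6 _ c6, S.σ_mul_self, S.ι_one]; group) with e | e
    · rw [mul_assoc, inv_mul_eq_one, right_eq_mul] at e
      exact absurd (S.σ_inj ((S.inj _ c6 e).trans S.σ_zero.symm)) b2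
    · rw [← e]; group
  obtain ⟨a, ha, b, hb, d1, d2, d3, d4, d5⟩ := small (inv_mem hπ) p4 (inv_ne_one.2 hp)
  exact absurd (S.σ_inj (S.ι_inj ((S.σ_mem _).2 (add_comp_mem_Ev a _))
    ((S.σ_mem _).2 (add_comp_mem_Ev b _)) ((key a ha d1 d3).trans (key b hb d2 d4).symm))) d5

end St

end Cfsg.Lib.W8
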