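import Cfsg.Agent.W8.StdA

/-!
The centraliser of an involution acting on a framed group: no element of order four acts
trivially if the involution is not isolated.
-/

set_option autoImplicit false

namespace Cfsg.Lib.W8.St

open Cfsg.Lib.Trans Subgroup

variable {W G : Type*} [Group W] [Group G] [Finite G] {W0 : Subgroup W} {σ : Vec → W}
  {P : Equiv.Perm Pt → W} {ι : W → G} {z : G} (S : St W0 σ P ι z)
include S

theorem outer {k g : G} (hk : Act W0 ι k 1) (h2 : k * k = z) (hne : g * z * g⁻¹ ≠ z) {w : W}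
    (hw : Act W0 ι (g * z * g⁻¹) w) : w ∉ W0 := fun hw0 => by
  have t2 : g * z * g⁻¹ * (g * z * g⁻¹) = 1 := by
    rw [conj_mul, S.z_mul]; group
  obtain ⟨l, hl, e1, e2⟩ := S.split hw hw0
  obtain ⟨v, v1, v2, v3⟩ : ∃ v, Act W0 ι v 1 ∧ v * v = z ∧
      v * (g * z * g⁻¹) = g * z * g⁻¹ * v := by
    rw [t2] at e2
    rcases S.sq_cases hw (t2 ▸ act_one) with e | e
    · rw [e, S.ι_one, one_mul] at e2
      refine ⟨k, hk, h2, ?_⟩
      rw [e1, ← mul_assoc, comm_ι hk hw0, mul_assoc, mul_assoc]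
      rcases S.inv_K hl e2.symm with rfl | rfl
      · rw [mul_one, one_mul]
      · rw [S.act_comm hk]
    · rw [e, S.zeq] at e2
      refine ⟨l, hl, mul_left_cancel (e2.symm.trans S.z_mul.symm), ?_⟩
      rw [e1, ← mul_assoc, comm_ι hl hw0]
  have := S.small' (g := g⁻¹) (u := g⁻¹ * v * g) (by
    calc _ = g⁻¹ * (v * (g * z * g⁻¹)) * g := by group
      _ = _ := by rw [v3]; group) (by convert v1 using 1; group) (by rw [← v2]; group)
  exact hne (by conv_lhs => rw [← this]; ; group)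

theorem no_four {g : G} (hc : g * z * g⁻¹ * z = z * (g * z * g⁻¹)) (hne : g * z * g⁻¹ ≠ z) {k : G}
    (hk : Act W0 ι k 1) : k * k ≠ z := fun h2 => by
  have : Fact (Nat.Prime 2) := ⟨Nat.prime_two⟩
  obtain ⟨w, hw⟩ := S.dec _ hc
  have t2 : ∀ g : G, g * z * g⁻¹ * (g * z * g⁻¹) = 1 := fun g => by
    rw [conj_mul, S.z_mul]; group
  have hw0 := S.outer hk h2 hne hw
  obtain ⟨h, hh, m, e1⟩ := S.inv' ((S.sq_cases hw (t2 g ▸ act_one)).resolve_right
    fun e => hw0 (S.neg_mem e))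
  have hm : m ∉ Ev := by rwa [← S.σ_mem, ← e1, S.conj_mem_iff]
  have a0 := S.act_cz (S.act_ι hh)
  have a1 : Act W0 ι (ι h * g * z * (ι h * g)⁻¹) (σ m) := by
    convert S.act_conj (S.act_ι hh) hw using 1
    exacts [by group, e1.symm]
  replace hne : ι h * g * z * (ι h * g)⁻¹ ≠ z := fun e => hne (by
    calc _ = (ι h)⁻¹ * (ι h * g * z * (ι h * g)⁻¹) * ι h := by group
      _ = z := by rw [e]; conv_lhs => rw [← a0]; ; group)
  generalize ι h * g = g at a1 hne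
  obtain ⟨t, ht⟩ : ∃ t, t = g * z * g⁻¹ := ⟨_, rfl⟩
  have tt : t * t = 1 := ht ▸ t2 g
  have out : ∀ l : G, l * z * l⁻¹ ≠ t → l * z * l⁻¹ * t = t * (l * z * l⁻¹) →
      ∃ v ∉ W0, Act W0 ι (g⁻¹ * (l * z * l⁻¹) * g) v := fun l l1 l2 => by
    have e : g⁻¹ * (l * z * l⁻¹) * g = g⁻¹ * l * z * (g⁻¹ * l)⁻¹ := by group
    obtain ⟨v, hv⟩ := S.dec (g⁻¹ * (l * z * l⁻¹) * g) (by
      calc _ = g⁻¹ * (l * z * l⁻¹ * (g * z * g⁻¹)) * g := by group
        _ = _ := by rw [← ht, l2, ht]; group)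
    exact ⟨v, S.outer hk h2 (fun e' => l1 (by rw [ht]; conv_rhs => rw [← e']; ; group)) (e ▸ hv), hv⟩
  rw [← ht] at a1 hne
  have tz := S.act_comm a1
  obtain ⟨v1, b1, c1⟩ := out 1 (by simpa using hne.symm) (by simpa using tz.symm)
  simp only [one_mul, inv_one, mul_one] at c1
  obtain ⟨l, hl⟩ : ∃ l, l * z * l⁻¹ = z * t := by
    obtain ⟨Q, hQ, h1⟩ := exists_isSylowIn_ge (H := centralizer {z}) (Q := zpowers t)
      (IsPGroup.of_card_dvd_pow (p := 2) (n := 1) (by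
        rw [Nat.card_zpowers]; exact orderOf_dvd_of_pow_eq_one (by rw [pow_one, sq, tt])))
      (zpowers_le.2 (mem_centralizer_singleton_iff.2 tz))
    obtain ⟨x, hx, h3⟩ := hQ.exists_cj_le (Q := zpowers k)
      (IsPGroup.of_card_dvd_pow (n := 2) (by
        rw [Nat.card_zpowers]
        exact orderOf_dvd_of_pow_eq_one (by rw [sq, pow_mul, sq k, h2, sq, S.z_mul])))
      (zpowers_le.2 (mem_centralizer_singleton_iff.2 (S.act_comm hk)))
    rw [mem_centralizer_singleton_iff] at hx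
    have k1 := S.conj_K hx hk
    have k2 : x * k * x⁻¹ * (x * k * x⁻¹) = z := by rw [conj_mul, h2, hx, mul_inv_cancel_right]
    have k3 := cj_le_iff.1 h3 k (mem_zpowers k)
    generalize x * k * x⁻¹ = k at k1 k2 k3
    have k4 := S.conj_K tz k1
    have k5 : t * k * t⁻¹ ∈ Q := mul_mem (mul_mem (h1 (mem_zpowers t)) k3) (inv_mem (h1 (mem_zpowers t)))
    have := S.cyc (Q ⊓ S.K) hQ.isPGroup.to_inf_left fun _ h => h.2
    have k6 : t * k * t⁻¹ * k⁻¹ = k⁻¹ * (t * k * t⁻¹) := congrArg Subtype.val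
      (IsCyclic.isMulCommutative.is_comm.comm (⟨_, k5, k4⟩ : ↥(Q ⊓ S.K)) ⟨k, k3, k1⟩⁻¹)
    rcases S.inv_K (mul_mem (S.mem_K.2 k4) (inv_mem (S.mem_K.2 k1))) (by
      calc _ = t * k * t⁻¹ * (k⁻¹ * (t * k * t⁻¹)) * k⁻¹ := by group
        _ = t * (k * k) * t⁻¹ * (k * k)⁻¹ := by rw [← k6]; group
        _ = 1 := by rw [k2, tz]; group) with e | e
    · obtain ⟨v, hv⟩ := S.dec (g⁻¹ * k * g) (by
        calc _ = g⁻¹ * ((t * k * t⁻¹ * k⁻¹) * k * (g * z * g⁻¹)) * g := by rw [e]; group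
          _ = _ := by rw [ht]; group)
      have := S.act_mul hv hv
      rw [show g⁻¹ * k * g * (g⁻¹ * k * g) = g⁻¹ * (k * k) * g by group, k2] at this
      exact absurd (S.act_mem this c1 (S.sq_mem v)) b1
    · refine ⟨k⁻¹ * g, ?_⟩
      calc _ = k⁻¹ * (t * k * t⁻¹ * k⁻¹) * k * t := by rw [ht]; group
        _ = _ := by rw [e, mul_assoc _ z, ← S.act_comm k1]; group
  obtain ⟨d1, d2⟩ := odd_tr hm
  have p1 := S.P_mem _ (tr_mem 1)
  have p2 := (S.σ_mem _).2 (add_comp_mem_Ev m (tr 1))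
  have ti : t⁻¹ = t := inv_eq_of_mul_eq_one_right tt
  have r1 : ι (P (tr 1)) * t * (ι (P (tr 1)))⁻¹ = t * ι (σ (m + m ∘ tr 1)) := by
    have := a1 _ p1
    have q := S.conj_mem (σ m) p1
    rw [S.σ_inv] at this q
    rw [ti] at this
    rw [← mul_inv_cancel_left t (_ * t * _), ti, ← mul_assoc t (_ * t), ← mul_assoc t _ t, this,
      ← S.ι_inv p1, ← S.mul _ q _ (inv_mem p1), S.σ_add, ← tr_inv,
      ← S.P_conj (tr_mem 1), tr_inv]
    congr 2
    group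
  have r2 : t * ι (σ (m + m ∘ tr 1)) = ι (σ (m + m ∘ tr 1)) * t := by
    have := a1 _ p2
    rwa [S.σ_conj, mul_inv_eq_iff_eq_mul] at this
  have r3 : ι (P (tr 1)) * g * z * (ι (P (tr 1)) * g)⁻¹ = t * ι (σ (m + m ∘ tr 1)) := by
    rw [← r1, ht]; group
  have r4 : ι (P (tr 1)) * l * z * (ι (P (tr 1)) * l)⁻¹ = z * (t * ι (σ (m + m ∘ tr 1))) := by
    rw [← r1, ← mul_assoc, ← mul_assoc, ← S.act_comm (S.act_ι p1), mul_assoc _ z t, ← hl]; group
  obtain ⟨v2, b2, c2⟩ := out (ι (P (tr 1)) * g) (by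
    rw [r3, Ne, mul_eq_left]
    exact fun e => d1 (S.σ_inj ((S.inj _ p2 e).trans S.σ_zero.symm))) (by
    rw [r3, mul_assoc, ← r2])
  obtain ⟨v3, b3, c3⟩ := out (ι (P (tr 1)) * l) (by
    rw [r4, ← mul_assoc, ← tz, mul_assoc, Ne, mul_eq_left, mul_eq_one_iff_inv_eq, S.z_inv, ← S.zeq]
    exact fun e => d2 (S.σ_inj (S.ι_inj S.one_mem p2 e)).symm) (by
    rw [r4, mul_assoc, mul_assoc, ← r2, ← mul_assoc z, ← tz, mul_assoc])
  rw [r3] at c2
  rw [r4] at c3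
  refine b3 (S.act_mem (S.act_mul c1 c2) ?_ (S.idx _ _ b1 b2))
  convert c3 using 1
  group

theorem exists_odd (h4 : ∀ k, Act W0 ι k 1 → k * k ≠ z) {k : G} (hk : Act W0 ι k 1) :
    ∃ i, k ^ (2 * i + 1) = 1 ∨ k ^ (2 * i + 1) = z := by
  have key : ∀ (j : ℕ) (k : G), Act W0 ι k 1 → k ^ 2 ^ j = 1 → k = 1 ∨ k = z := fun j => by
    induction j with
    | zero => exact fun k _ h => Or.inl (by simpa using h)
    | succ j ih =>
      refine fun k hk h => S.inv_K hk ((ih _ (mul_mem (S.mem_K.2 hk) hk) ?_).resolve_right (h4 k hk))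
      rwa [← sq, ← pow_mul, ← pow_succ']
  obtain ⟨j, n, ⟨i, rfl⟩, e⟩ := Nat.exists_eq_two_pow_mul_odd (orderOf_pos k).ne'
  exact ⟨i, key j _ (pow_mem (S.mem_K.2 hk) _) (by
    rw [← pow_mul, mul_comm, ← e, pow_orderOf_eq_one])⟩

theorem ktz (h4 : ∀ k, Act W0 ι k 1 → k * k ≠ z) {k r : G} (hk : Act W0 ι k 1)
    (hr : r * z = z * r) : k * r * k⁻¹ ≠ r * z := fun h => by
  obtain ⟨i, hi⟩ := S.exists_odd h4 hk
  have h1 : Commute (k ^ 2) r := by
    rw [Commute, SemiconjBy, ← mul_inv_eq_iff_eq_mul]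
    calc _ = k * (k * r * k⁻¹) * k⁻¹ := by rw [sq]; group
      _ = k * r * k⁻¹ * (k * z * k⁻¹) := by conv_lhs => rw [h]; ; group
      _ = r := by rw [h, S.act_cz hk, mul_assoc, S.z_mul, mul_one]
  have h2 : Commute (k ^ (2 * i + 1)) r := by
    rcases hi with e | e <;> rw [e]
    exacts [Commute.one_left r, hr.symm]
  rw [pow_succ', pow_mul] at h2
  have h3 : Commute k r := by simpa using h2.mul_left (h1.pow_left i).inv_left
  rw [h3.eq, mul_inv_cancel_right, left_eq_mul] at h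
  exact S.z_ne h

theorem kinv (h4 : ∀ k, Act W0 ι k 1 → k * k ≠ z) {k r : G} (hk : Act W0 ι k 1)
    (h : k * r * (k * r) = 1) (hr : r * r = 1) :
    ∃ l, Act W0 ι l 1 ∧ (l * (k * r) * l⁻¹ = r ∨ l * (k * r) * l⁻¹ = z * r) := by
  obtain ⟨i, hi⟩ := S.exists_odd h4 hk
  refine ⟨k ^ i, pow_mem (S.mem_K.2 hk) i, ?_⟩
  have h1 : r * k⁻¹ * r⁻¹ = k := by
    rw [mul_inv_eq_iff_eq_mul, ← inv_eq_of_mul_eq_one_right h, mul_inv_rev,
      inv_eq_of_mul_eq_one_right hr]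
  have h2 : k ^ i * (k * r) * (k ^ i)⁻¹ = k ^ (2 * i + 1) * r := by
    calc _ = k ^ i * k * (r * k⁻¹ ^ i * r⁻¹) * r := by rw [inv_pow]; group
      _ = _ := by rw [← conj_pow, h1]; group
  rw [h2]
  exact hi.imp (fun e => by rw [e, one_mul]) fun e => by rw [e]

end Cfsg.Lib.W8.St
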