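import Cfsg.Agent.W8.StdB
import Cfsg.Agent.W8.Orb

/-!
The elementary abelian subgroup of the frame; its normaliser fixes the central involution.
-/

set_option autoImplicit false

namespace Cfsg.Lib.W8

open Cfsg.Lib.Trans Subgroup

variable {W G : Type*} [Group W] [Group G] [Finite G]

/-- A lift of the sign changes. -/
structure Frm (W0 : Subgroup W) (σ : Vec → W) (P : Equiv.Perm Pt → W) (ι : W → G) (z : G)
    (D : AddSubgroup Vec) (ε : Vec → G) : Prop extends St W0 σ P ι z where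
  h4 : ∀ k, Act W0 ι k 1 → k * k ≠ z
  hD : D = ⊤ ∨ D = Ev
  ev : ∀ m ∈ Ev, ε m = ι (σ m)
  add : ∀ a ∈ D, ∀ b ∈ D, ε (a + b) = ε a * ε b
  act : ∀ m ∈ D, Act W0 ι (ε m) (σ m)
  out : ∀ r m, r * r = 1 → Act W0 ι r (σ m) → m ∈ D

variable {W0 : Subgroup W} {σ : Vec → W} {P : Equiv.Perm Pt → W} {ι : W → G} {z : G}

omit [Finite G] in
theorem St.exists_frm (S : St W0 σ P ι z) (h4 : ∀ k, Act W0 ι k 1 → k * k ≠ z) :
    ∃ D ε, Frm W0 σ P ι z D ε := by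
  classical
  have hm : ∀ {a b}, a ∈ Ev → b ∈ Ev → ι (σ (a + b)) = ι (σ a) * ι (σ b) := fun ha hb => by
    rw [S.σ_add, S.mul _ ((S.σ_mem _).2 ha) _ ((S.σ_mem _).2 hb)]
  by_cases h : ∃ r m, r * r = 1 ∧ Act W0 ι r (σ m) ∧ m ∉ Ev
  · obtain ⟨r, m, r1, r2, r3⟩ := h
    have c : ∀ {a}, a ∈ Ev → r * ι (σ a) = ι (σ a) * r := fun ha => by
      have := r2 _ ((S.σ_mem _).2 ha)
      rwa [S.σ_conj, mul_inv_eq_iff_eq_mul] at this
    refine ⟨⊤, fun a => if a ∈ Ev then ι (σ a) else r * ι (σ (a + m)), S, h4, Or.inl rfl,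
      fun m hm => if_pos hm, fun a _ b _ => ?_, fun a _ => ?_, fun _ _ _ _ => trivial⟩
    · by_cases ha : a ∈ Ev <;> by_cases hb : b ∈ Ev
      · rw [if_pos ha, if_pos hb, if_pos (add_mem ha hb), hm ha hb]
      · rw [if_pos ha, if_neg hb, if_neg (by rwa [Ev.add_mem_cancel_left ha]), ← mul_assoc, ← c ha,
          mul_assoc, ← hm ha (add_mem_Ev hb r3), add_assoc]
      · rw [if_neg ha, if_pos hb, if_neg (by rwa [Ev.add_mem_cancel_right hb]), mul_assoc,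
          ← hm (add_mem_Ev ha r3) hb, add_right_comm]
      · rw [if_neg ha, if_neg hb, if_pos (add_mem_Ev ha hb), c (add_mem_Ev ha r3), mul_assoc,
          ← mul_assoc r, r1, one_mul, ← hm (add_mem_Ev ha r3) (add_mem_Ev hb r3), add_add_add_comm,
          vec_add_self, add_zero]
    · by_cases ha : a ∈ Ev
      · rw [if_pos ha]; exact S.act_ι ((S.σ_mem _).2 ha)
      · have := S.act_mul r2 (S.act_ι ((S.σ_mem _).2 (add_mem_Ev ha r3)))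
        rw [if_neg ha]
        rwa [← S.σ_add, add_comm a, vec_add_cancel, add_comm m] at this
  · push Not at h
    exact ⟨Ev, fun a => ι (σ a), S, h4, Or.inr rfl, fun _ _ => rfl, fun a ha b hb => hm ha hb,
      fun a ha => S.act_ι ((S.σ_mem _).2 ha), h⟩

namespace Frm

variable {D : AddSubgroup Vec} {ε : Vec → G} (F : Frm W0 σ P ι z D ε)
include F

omit [Finite G]

theorem ev_le : Ev ≤ D := by rcases F.hD with rfl | rfl; exacts [le_top, le_rfl]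

theorem one_mem' : (1 : Vec) ∈ D := F.ev_le one_mem_Ev

theorem comp_mem {a : Vec} (ha : a ∈ D) (π : Equiv.Perm Pt) : a ∘ π ∈ D := by
  rcases F.hD with rfl | rfl; exacts [trivial, comp_mem_Ev.2 ha]

theorem ε_one : ε 1 = z := (F.ev _ one_mem_Ev).trans F.zeq

theorem ε_zero : ε 0 = 1 := by rw [F.ev _ Ev.zero_mem, F.σ_zero, F.ι_one]

theorem ε_mul_self {a : Vec} (ha : a ∈ D) : ε a * ε a = 1 := by
  rw [← F.add _ ha _ ha, vec_add_self, F.ε_zero]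

theorem ε_inv {a : Vec} (ha : a ∈ D) : (ε a)⁻¹ = ε a := inv_eq_of_mul_eq_one_right (F.ε_mul_self ha)

theorem ε_comm {a b : Vec} (ha : a ∈ D) (hb : b ∈ D) : ε a * ε b = ε b * ε a := by
  rw [← F.add _ ha _ hb, ← F.add _ hb _ ha, add_comm]

theorem ε_add_one {a : Vec} (ha : a ∈ D) : ε (a + 1) = ε a * z := by
  rw [F.add _ ha _ F.one_mem', F.ε_one]

theorem σ_cases {n : G} {a b : Vec} (h : Act W0 ι n (σ a)) (k : Act W0 ι n (σ b)) :
    b = a ∨ b = a + 1 :=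
  (F.act_uniq h k).imp (F.σ_inj ·) fun e => F.σ_inj (by rw [e, F.σ_add])

theorem ε_inj {a b : Vec} (ha : a ∈ D) (hb : b ∈ D) (h : ε a = ε b) : a = b := by
  refine ((F.σ_cases (F.act b hb) (h ▸ F.act a ha))).resolve_right fun e => F.z_ne ?_
  rwa [e, F.ε_add_one hb, mul_eq_left] at h

theorem P_conj' {π : Equiv.Perm Pt} (hπ : π ∈ AGL) {a : Vec} (ha : a ∈ D) :
    ι (P π) * ε a * (ι (P π))⁻¹ = ε (a ∘ ⇑π⁻¹) := by
  have p1 := F.P_mem _ hπ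
  have h1 := F.act a ha _ p1
  have q := F.conj_mem (σ a) p1
  have h2 := add_comp_mem_Ev a π⁻¹
  rw [F.σ_inv] at h1 q
  rw [F.ε_inv ha] at h1
  rw [← vec_add_cancel a (a ∘ _), F.add _ ha _ (F.ev_le h2), F.ev _ h2, F.σ_add, ← F.P_conj hπ,
    ← mul_assoc, ← mul_assoc, F.mul _ q _ (inv_mem p1), ← h1, F.ι_inv p1, ← mul_assoc, ← mul_assoc,
    ← mul_assoc, F.ε_mul_self ha, one_mul]

/-- The elementary abelian subgroup. -/
def A : Subgroup G where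
  carrier := {x | ∃ a ∈ D, ε a = x}
  one_mem' := ⟨0, D.zero_mem, F.ε_zero⟩
  mul_mem' := by
    rintro _ _ ⟨a, ha, rfl⟩ ⟨b, hb, rfl⟩
    exact ⟨_, add_mem ha hb, F.add _ ha _ hb⟩
  inv_mem' := by
    rintro _ ⟨a, ha, rfl⟩
    exact ⟨a, ha, (F.ε_inv ha).symm⟩

theorem mem_A {x : G} : x ∈ F.A ↔ ∃ a ∈ D, ε a = x := Iff.rfl

theorem ε_mem {a : Vec} (ha : a ∈ D) : ε a ∈ F.A := ⟨a, ha, rfl⟩

theorem sq_eq {x : G} {w : W} (h : Act W0 ι x w) (h2 : x * x = 1) : w * w = 1 :=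
  (F.sq_cases h (h2 ▸ St.act_one)).resolve_right fun e => by
    obtain ⟨k, hk, -, e2⟩ := F.split h (F.neg_mem e)
    rw [h2, e, F.zeq] at e2
    exact F.h4 k hk (mul_left_cancel (e2.symm.trans F.z_mul.symm))

variable [Finite G]

theorem P_mem_N {π : Equiv.Perm Pt} (hπ : π ∈ AGL) : ι (P π) ∈ normalizer (F.A : Set G) :=
  mem_normalizer_of_cj_le (cj_le_iff.2 (by
    rintro _ ⟨a, ha, rfl⟩
    exact ⟨_, F.comp_mem ha _, (F.P_conj' hπ ha).symm⟩))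

theorem toA {x : G} (hx : x * z = z * x) (h2 : x * x = 1) :
    ∃ c, c * z = z * c ∧ c * x * c⁻¹ ∈ F.A := by
  obtain ⟨w, hw⟩ := F.dec x hx
  obtain ⟨h, hh, m, e1⟩ := F.inv' (F.sq_eq hw h2)
  have a1 := F.act_conj (F.act_ι hh) hw
  have a2 : ι h * x * (ι h)⁻¹ * (ι h * x * (ι h)⁻¹) = 1 := by rw [conj_mul, h2]; group
  rw [e1] at a1
  have hm := F.out _ m a2 a1
  have a3 := F.act_mul a1 (F.act m hm)
  rw [F.σ_mul_self] at a3
  have a4 : ι h * x * (ι h)⁻¹ * ε m * ε m = ι h * x * (ι h)⁻¹ := by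
    rw [mul_assoc, F.ε_mul_self hm, mul_one]
  obtain ⟨l, hl, e2⟩ := F.kinv F.h4 a3 (by rw [a4, a2]) (F.ε_mul_self hm)
  rw [a4] at e2
  refine ⟨l * ι h, F.act_comm (F.act_mul hl (F.act_ι hh)), ?_⟩
  rw [show l * ι h * x * (l * ι h)⁻¹ = l * (ι h * x * (ι h)⁻¹) * l⁻¹ by group]
  rcases e2 with e | e <;> rw [e]
  exacts [F.ε_mem hm, mul_mem (F.ε_one ▸ F.ε_mem F.one_mem') (F.ε_mem hm)]

theorem cA {x : G} (h2 : x * x = 1) (hx : ∀ a ∈ D, x * ε a * x⁻¹ = ε a) : x ∈ F.A := by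
  obtain ⟨w, hw⟩ := F.dec x (by rw [← F.ε_one, ← mul_inv_eq_iff_eq_mul, hx _ F.one_mem'])
  obtain ⟨m, rfl⟩ := F.cE (w := w) fun a ha => F.ι_inj (F.conj_mem _ ((F.σ_mem _).2 ha))
    ((F.σ_mem _).2 ha) (by rw [← hw _ ((F.σ_mem _).2 ha), ← F.ev _ ha, hx _ (F.ev_le ha)])
  have hm := F.out _ m h2 hw
  have a3 := F.act_mul hw (F.act m hm)
  rw [F.σ_mul_self] at a3
  rw [← F.A.mul_mem_cancel_right (F.ε_mem hm)]
  rcases F.inv_K a3 (by
    conv_lhs => rw [mul_inv_eq_iff_eq_mul.1 (hx m hm)]; enter [2]; rw [← mul_inv_eq_iff_eq_mul.1 (hx m hm)]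
    rw [mul_assoc, ← mul_assoc x, h2, one_mul, F.ε_mul_self hm]) with e | e <;> rw [e]
  exacts [one_mem _, F.ε_one ▸ F.ε_mem F.one_mem']

theorem inner (hD : D = Ev) {x : G} {w : W} (h : Act W0 ι x w) (h2 : x * x = 1) :
    w ∈ W0 ∧ (x = ι w ∨ x = ι (w * σ 1)) := by
  have h1 := F.sq_eq h h2
  obtain ⟨c, hc, m, e1⟩ := F.inv' h1
  have hw : w ∈ W0 := by
    rw [← F.conj_mem_iff c, e1, F.σ_mem, ← hD]
    exact F.out _ m (by rw [conj_mul, h2]; group) (e1 ▸ F.act_conj (F.act_ι hc) h)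
  obtain ⟨k, hk, e2, e3⟩ := F.split h hw
  rw [h2, h1, F.ι_one, one_mul] at e3
  refine ⟨hw, (F.inv_K hk e3.symm).imp (fun e => ?_) fun e => ?_⟩
  · rw [e2, e, mul_one]
  · rw [e2, e, F.mul _ hw _ F.one_mem, F.zeq]

theorem N1 {n : G} (hn : n ∈ normalizer (F.A : Set G)) (hz : n * z = z * n) :
    ∃ m, ∃ π ∈ AGL, Act W0 ι n (σ m * P π) ∧ ∀ a ∈ D, n * ε a * n⁻¹ = ε (a ∘ ⇑π⁻¹) := by
  obtain ⟨w, hw⟩ := F.dec n hz
  have h1 : ∀ a ∈ D, ∃ b ∈ D, ε b = n * ε a * n⁻¹ := fun a ha =>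
    (mem_normalizer_iff.1 hn _).1 (F.ε_mem ha)
  obtain ⟨m, π, hπ, rfl⟩ := F.nrm w fun a ha => by
    obtain ⟨b, hb, e⟩ := h1 a (F.ev_le ha)
    rcases F.act_uniq (F.act b hb) (e ▸ F.act_conj hw (F.act a (F.ev_le ha))) with e | e
    exacts [⟨_, e⟩, ⟨b + 1, by rw [e, F.σ_add]⟩]
  refine ⟨m, π, hπ, hw, fun a ha => ?_⟩
  by_cases ha' : a ∈ Ev
  · rw [F.ev _ ha', hw _ ((F.σ_mem _).2 ha'), F.conj hπ, F.ev _ (comp_mem_Ev.2 ha')]
  have hm : m ∈ D := by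
    rcases F.hD with rfl | rfl
    exacts [trivial, absurd ha ha']
  obtain ⟨b, hb, e⟩ := h1 a ha
  have h2 := F.act_conj hw (F.act a ha)
  rw [F.conj hπ, ← e] at h2
  have h3 := F.comp_mem ha π⁻¹
  rcases F.σ_cases h2 (F.act b hb) with rfl | rfl
  · exact e.symm
  have h4 := F.act_mul hw (F.act_inv (F.act_mul (F.act m hm) (F.act_ι (F.P_mem _ hπ))))
  rw [mul_inv_cancel] at h4
  refine absurd ?_ (F.ktz F.h4 h4 (F.act_comm (F.act _ h3)))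
  rw [← F.ε_add_one h3, e, ← mul_inv_eq_iff_eq_mul.2 (F.ε_comm hm h3), ← F.P_conj' hπ ha]
  group

theorem N2 {n : G} (hn : n ∈ normalizer (F.A : Set G)) : n * z = z * n := by
  have h1 : ∀ n : normalizer (F.A : Set G), ∀ a, ∃ b, a ∈ D → b ∈ D ∧ ε b = n * ε a * n⁻¹ :=
    fun n a => by
      by_cases ha : a ∈ D
      · obtain ⟨b, hb⟩ := (mem_normalizer_iff.1 n.2 _).1 (F.ε_mem ha)
        exact ⟨b, fun _ => hb⟩
      · exact ⟨a, fun h => absurd h ha⟩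
  choose r hr using h1
  have E : Ext D r := by
    refine ⟨F.ev_le, fun h a ha => (hr h a ha).1, fun a ha => F.ε_inj (hr _ a ha).1 ha ?_,
      fun g h a ha => F.ε_inj (hr _ a ha).1 (hr _ _ (hr _ a ha).1).1 ?_,
      fun h a ha b hb => F.ε_inj (hr _ _ (add_mem ha hb)).1 (add_mem (hr _ a ha).1 (hr _ b hb).1) ?_,
      fun π hπ => ⟨⟨_, F.P_mem_N (inv_mem hπ)⟩, fun a ha =>
        F.ε_inj (hr _ a ha).1 (F.comp_mem ha _) ?_⟩, fun h e => ?_⟩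
    · rw [(hr _ a ha).2]; simp
    · rw [(hr _ a ha).2, (hr _ _ (hr _ a ha).1).2, (hr _ a ha).2]; simp [mul_assoc]
    · rw [(hr _ _ (add_mem ha hb)).2, F.add _ (hr _ a ha).1 _ (hr _ b hb).1, (hr _ a ha).2,
        (hr _ b hb).2, F.add _ ha _ hb]
      simp [mul_assoc]
    · rw [(hr _ a ha).2]
      exact F.P_conj' (inv_mem hπ) ha
    · have := (hr h 1 F.one_mem').2
      rw [e, F.ε_one] at this
      obtain ⟨m, π, hπ, -, e1⟩ := F.N1 h.2 (eq_mul_inv_iff_mul_eq.1 this).symm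
      exact ⟨π⁻¹, inv_mem hπ, fun a ha => F.ε_inj (hr _ a ha).1 (F.comp_mem ha _)
        ((hr _ a ha).2.trans (e1 a ha))⟩
  have := (hr ⟨n, hn⟩ 1 F.one_mem').2
  rw [E.fix, F.ε_one] at this
  exact (eq_mul_inv_iff_mul_eq.1 this).symm

end Frm

end Cfsg.Lib.W8
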